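import Cfsg.Agent.H1.Bender
import Cfsg.Agent.H1.PUnique
import Cfsg.Agent.H1.MC6

set_option autoImplicit false

open Cfsg Subgroup
open scoped Pointwise commutatorElement

namespace CfsgH1

universe u v

variable {G : Type u} [Group G] {p : ℕ}

/-- abelian subgroups of the same order are conjugate -/
def BC (G : Type u) [Group G] : Prop := ∀ A B : Subgroup G, IsMulCommutative ↥A → IsMulCommutative ↥B → Nat.card ↥A = Nat.card ↥B → ∃ g : G, B = A.map (MulAut.conj g).toMonoidHom

theorem isMulCommutative_zpowers (a : G) : IsMulCommutative (zpowers a) := by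
  refine ⟨⟨fun x y => ?_⟩⟩
  letI : CommGroup (zpowers a) := IsCyclic.commGroup
  exact mul_comm x y

theorem BC.zpowers (h : BC G) {a b : G} (hab : orderOf a = orderOf b) : ∃ g : G, ∀ y ∈ Subgroup.zpowers b, ∃ x ∈ Subgroup.zpowers a, y = g * x * g⁻¹ := by
  obtain ⟨g, hg⟩ := h (Subgroup.zpowers a) (Subgroup.zpowers b) (isMulCommutative_zpowers a) (isMulCommutative_zpowers b) (by rw [Nat.card_zpowers, Nat.card_zpowers, hab])
  refine ⟨g, fun y hy => ?_⟩
  rw [hg] at hy
  obtain ⟨x, hx, rfl⟩ := hy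
  exact ⟨x, hx, rfl⟩

theorem orderOf_pow_sub [hp : Fact p.Prime] {x : G} {k j : ℕ} (h : orderOf x = p ^ k) (hj : j ≤ k) : orderOf (x ^ p ^ (k - j)) = p ^ j := by
  rw [orderOf_pow_of_dvd (pow_pos hp.out.pos _).ne' (by rw [h]; exact pow_dvd_pow p (Nat.sub_le _ _)), h, Nat.pow_div (Nat.sub_le _ _) hp.out.pos]
  congr 1
  omega

theorem BC.key [Finite G] (h : BC G) [hp : Fact p.Prime] {P : Subgroup G} (hP : IsPGroup p P) : (∀ H K : Subgroup P, Nat.card H = p → Nat.card K = p → H = K) ∨ ∀ x ∈ P, x ^ p = 1 := by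
  classical
  by_cases hu : ∀ H K : Subgroup P, Nat.card H = p → Nat.card K = p → H = K
  · exact Or.inl hu
  right
  push_neg at hu
  obtain ⟨H, K, hH, hK, hne⟩ := hu
  -- central subgroup of order p
  haveI : Nontrivial P := by
    by_contra hcon
    rw [not_nontrivial_iff_subsingleton] at hcon
    apply hne
    haveI := hcon
    exact Subsingleton.elim _ _
  obtain ⟨Z1, -, -, hzn, hzc⟩ := exists_central_order_p hP (T := (⊤ : Subgroup P)) top_ne_bot
  obtain ⟨T, hT, hTz⟩ : ∃ T : Subgroup P, Nat.card T = p ∧ T ≠ Z1 := by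
    by_cases h1 : H = Z1
    · exact ⟨K, hK, fun h2 => hne (h1.trans h2.symm)⟩
    · exact ⟨H, hH, h1⟩
  have hTcomm : ∀ a ∈ T, ∀ b ∈ T, a * b = b * a := by
    haveI : IsCyclic T := isCyclic_of_prime_card hT
    letI : CommGroup T := IsCyclic.commGroup
    intro a ha b hb
    exact congrArg Subtype.val (mul_comm (⟨a, ha⟩ : T) ⟨b, hb⟩)
  have hTp : ∀ a ∈ T, a ^ p = 1 := by
    intro a ha
    have := pow_card_eq_one' (x := (⟨a, ha⟩ : T))
    rw [hT] at this
    exact congrArg Subtype.val this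
  have hzp : ∀ a ∈ Z1, a ^ p = 1 := by
    intro a ha
    have := pow_card_eq_one' (x := (⟨a, ha⟩ : Z1))
    rw [hzc] at this
    exact congrArg Subtype.val this
  set A := T ⊔ Z1 with hA
  have hAmem : ∀ a ∈ A, ∃ t ∈ T, ∃ w ∈ Z1, a = t * w := by
    intro a ha
    haveI : (Z1).Normal := ⟨fun n hn g => by
      have := mem_center_iff.1 (hzn hn) g
      rw [this, mul_inv_cancel_right]; exact hn⟩
    rw [hA, ← SetLike.mem_coe, Subgroup.mul_normal] at ha
    obtain ⟨t, ht, w, hw, rfl⟩ := ha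
    exact ⟨t, ht, w, hw, rfl⟩
  have hAc : ∀ a ∈ A, ∀ b ∈ A, a * b = b * a := by
    intro a ha b hb
    obtain ⟨t, ht, w, hw, rfl⟩ := hAmem a ha
    obtain ⟨t', ht', w', hw', rfl⟩ := hAmem b hb
    have h1 : ∀ y, Commute w y := fun y => ((mem_center_iff.1 (hzn hw)) y).symm
    have h2 : ∀ y, Commute w' y := fun y => ((mem_center_iff.1 (hzn hw')) y).symm
    have h3 : Commute t t' := hTcomm t ht t' ht'
    exact ((h3.mul_right (h2 t).symm).mul_left ((h1 t').mul_right (h1 w')))
  have hAp : ∀ a ∈ A, a ^ p = 1 := by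
    intro a ha
    obtain ⟨t, ht, w, hw, rfl⟩ := hAmem a ha
    have h1 : Commute t w := (mem_center_iff.1 (hzn hw)) t
    rw [h1.mul_pow, hTp t ht, hzp w hw, one_mul]
  have hAcard : Nat.card A = p ^ 2 := by
    have h1 : T ⊓ Z1 = ⊥ := by
      have h2 : Nat.card (T ⊓ Z1 : Subgroup P) ∣ p := hT ▸ Subgroup.card_dvd_of_le inf_le_left
      rcases (Nat.dvd_prime hp.out).1 h2 with h3 | h3
      · exact Subgroup.card_eq_one.1 h3
      · exfalso
        have h4 : T ⊓ Z1 = T := Subgroup.eq_of_le_of_card_ge inf_le_left (by rw [h3, hT])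
        have h5 : T ⊓ Z1 = Z1 := Subgroup.eq_of_le_of_card_ge inf_le_right (by rw [h3, hzc])
        exact hTz (h4.symm.trans h5)
    have h2 := card_sup_mul_card_inf (H := T) (K := Z1) (by
      intro x _
      rw [Subgroup.mem_normalizer_iff]
      intro y
      constructor
      · intro hy
        rw [mem_center_iff.1 (hzn hy) x, mul_inv_cancel_right]; exact hy
      · intro hy
        have := mem_center_iff.1 (hzn hy) x
        have e : y = x⁻¹ * (x * y * x⁻¹) * x := by group
        have e2 : x⁻¹ * (x * y * x⁻¹) * x = x * y * x⁻¹ := by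
          have h3 := mem_center_iff.1 (hzn hy) x⁻¹
          rw [h3, inv_mul_cancel_right]
        rw [e, e2]; exact hy)
    rw [h1, Subgroup.card_bot, mul_one, hT, hzc] at h2
    rw [h2, sq]
  intro x hx
  obtain ⟨k, hk⟩ := IsPGroup.iff_orderOf.1 hP ⟨x, hx⟩
  rw [Subgroup.orderOf_mk] at hk
  by_cases hk1 : k ≤ 1
  · rw [← orderOf_dvd_iff_pow_eq_one, hk]
    calc p ^ k ∣ p ^ 1 := pow_dvd_pow p hk1
      _ = p := pow_one p
  · exfalso
    have h1 := orderOf_pow_sub hk (j := 2) (by omega)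
    set y := x ^ p ^ (k - 2) with hy
    obtain ⟨g, hg⟩ := h (A.map P.subtype) (Subgroup.zpowers y) (by
      refine ⟨⟨?_⟩⟩
      rintro ⟨_, a, ha, rfl⟩ ⟨_, b, hb, rfl⟩
      apply Subtype.ext
      change (a : G) * b = b * a
      exact congrArg Subtype.val (hAc a ha b hb)) (isMulCommutative_zpowers y) (by
        rw [Subgroup.card_map_of_injective (Subgroup.subtype_injective P), hAcard, Nat.card_zpowers, h1])
    have h2 : y ∈ (A.map P.subtype).map (MulAut.conj g).toMonoidHom := by rw [← hg]; exact mem_zpowers y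
    obtain ⟨_, ⟨a, ha, rfl⟩, h3⟩ := h2
    have h4 : y ^ p = 1 := by
      rw [← h3]
      change (g * (a : G) * g⁻¹) ^ p = 1
      rw [conj_pow]
      have : (a : G) ^ p = 1 := congrArg Subtype.val (hAp a ha)
      rw [this]; group
    have h5 := orderOf_dvd_of_pow_eq_one h4
    rw [h1] at h5
    have h6 := Nat.le_of_dvd hp.out.pos h5
    have := hp.out.one_lt
    nlinarith

theorem BC.mem_normal (h : BC G) {M : Subgroup G} [hM : M.Normal] {a m : G} (hm : m ∈ M) (hma : orderOf m = orderOf a) : a ∈ M := by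
  obtain ⟨g, hg⟩ := h.zpowers hma
  obtain ⟨x, hx, e⟩ := hg a (mem_zpowers a)
  rw [e]
  exact hM.conj_mem x ((zpowers_le.2 hm) hx) g

/-- **S3910** -/
theorem BC.cyclic [Finite G] (h : BC G) (hnil : Group.IsNilpotent G) : IsCyclic G := by
  classical
  haveI := hnil
  suffices hZ : IsZGroup G by infer_instance
  refine ⟨fun q hq P => ?_⟩
  haveI : Fact q.Prime := ⟨hq⟩
  by_contra hcyc
  have hP : (P : Subgroup G) ≤ pCore q G := by
    have hn : (P : Subgroup G).Normal := inferInstance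
    exact CfsgH2.le_pCore hn P.isPGroup'
  haveI : Nonempty (P : Subgroup G) := ⟨1⟩
  obtain ⟨x, hx⟩ := Finite.exists_max (fun g : (P : Subgroup G) => orderOf g)
  have hQc := CfsgH2.coprime_card_pPrimeCore (G := G) q
  have hne : Subgroup.zpowers (x : G) ⊔ pPrimeCore q G ≠ ⊤ := by
    intro ht
    have h1 : (P : Subgroup G) ≤ Subgroup.zpowers (x : G) := by
      have h2 : (Subgroup.zpowers (x : G) ⊔ pPrimeCore q G) ⊓ P = Subgroup.zpowers (x : G) ⊔ (pPrimeCore q G ⊓ P) := by
        apply le_antisymm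
        · rintro y ⟨hy, hyP⟩
          replace hy : y ∈ ((Subgroup.zpowers (x : G) ⊔ pPrimeCore q G : Subgroup G) : Set G) := hy
          rw [Subgroup.mul_normal] at hy
          obtain ⟨a, ha, b, hb, rfl⟩ := hy
          have haP : a ∈ (P : Subgroup G) := (zpowers_le.2 x.2) ha
          have hbP : b ∈ (P : Subgroup G) := by
            have := (P : Subgroup G).mul_mem ((P : Subgroup G).inv_mem haP) hyP
            rwa [inv_mul_cancel_left] at this
          exact mul_mem (mem_sup_left ha) (mem_sup_right ⟨hb, hbP⟩)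
        · exact le_inf (sup_le_sup_left inf_le_left _) (sup_le (zpowers_le.2 x.2) inf_le_right)
      rw [ht, top_inf_eq] at h2
      have h3 : pPrimeCore q G ⊓ (P : Subgroup G) = ⊥ := by
        apply inf_eq_bot_of_coprime
        obtain ⟨k, hk⟩ := IsPGroup.iff_card.1 P.isPGroup'
        rw [hk]
        exact Nat.Coprime.pow_right k hQc
      rw [h3, sup_bot_eq] at h2
      exact h2.le
    apply hcyc
    have h2 : Subgroup.zpowers (x : G) = P := le_antisymm (zpowers_le.2 x.2) h1
    exact (Subgroup.isCyclic_iff_exists_zpowers_eq_top _).2 ⟨x, h2⟩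
  obtain ⟨N, hN, hle⟩ := (eq_top_or_exists_le_coatom _).resolve_left hne
  haveI hNn : N.Normal := Group.normalizerCondition_of_isNilpotent.normal_of_coatom N hN
  have hPN : (P : Subgroup G) ≤ N := by
    intro y hy
    have h1 := hx ⟨y, hy⟩
    obtain ⟨i, hi⟩ := IsPGroup.iff_orderOf.1 P.isPGroup' x
    obtain ⟨j, hj⟩ := IsPGroup.iff_orderOf.1 P.isPGroup' ⟨y, hy⟩
    rw [hi, hj] at h1
    have hji := (Nat.pow_le_pow_iff_right hq.one_lt).1 h1
    have hi' : orderOf (x : G) = q ^ i := by rw [← hi]; exact Subgroup.orderOf_coe x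
    have hj' : orderOf y = q ^ j := by rw [← hj]; exact (Subgroup.orderOf_mk y hy).symm
    have h2 := orderOf_pow_sub hi' hji
    exact h.mem_normal (M := N) (m := (x : G) ^ q ^ (i - j)) (N.pow_mem (hle (mem_sup_left (mem_zpowers _))) _) (by rw [h2, hj'])
  have htop : (⊤ : Subgroup G) ≤ N := by
    rw [← nilpotent_pCore_sup (p := q) hnil]
    refine sup_le ?_ (le_sup_right.trans hle)
    exact ((CfsgH2.isPGroup_pCore (G := G) q).le_sylow_of_normal P).trans hPN
  exact hN.1 (top_le_iff.1 htop)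

end CfsgH1
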