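import Cfsg.Agent.H1.Syl
import Cfsg.Agent.H1.Hall
import Cfsg.Agent.H1.Frat
import Cfsg.Agent.H1.Fit
import Cfsg.Prelude.Def_SolvableStructure

set_option autoImplicit false

open scoped Pointwise commutatorElement

namespace CfsgH1

universe u v w
variable {G : Type u} [Group G]

open Subgroup Cfsg

theorem mem_of_coprime_relIndex [Finite G] {p k : ℕ} [hp : Fact p.Prime] {Q L : Subgroup G} (hQL : Q ≤ L) 
    (hn : L ≤ normalizer (Q : Set G)) (hk : Q.relIndex L = p ^ k) {x : G} (hx : x ∈ L) (ho : (orderOf x).Coprime p) : x ∈ Q := by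
  haveI := normal_subgroupOf_of_le_normalizer hn
  have h1 : ((⟨x, hx⟩ : L) : L ⧸ Q.subgroupOf L) ^ (p ^ k) = 1 := by
    have h2 : Nat.card (L ⧸ Q.subgroupOf L) = p ^ k := hk
    rw [← h2]; exact pow_card_eq_one'
  rw [← QuotientGroup.mk_pow, QuotientGroup.eq_one_iff, mem_subgroupOf] at h1
  have h2 : x ^ (p ^ k) ∈ Q := h1
  obtain ⟨m, hm⟩ := exists_pow_eq_self_of_coprime (x := x) (n := p ^ k) (Nat.Coprime.pow_left k ho.symm)
  rw [← hm]
  exact Q.pow_mem h2 m

theorem normalizer_hall_self [Finite G] {p k : ℕ} [hp : Fact p.Prime] {Q : Subgroup G} (hQ : (Nat.card Q).Coprime p) 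
    (hk : Q.index = p ^ k) : normalizer ((normalizer (Q : Set G) : Subgroup G) : Set G) = normalizer (Q : Set G) := by
  apply le_antisymm _ le_normalizer
  obtain ⟨m, -, hm⟩ : ∃ m ≤ k, Q.relIndex (normalizer (Q : Set G)) = p ^ m := by
    rw [← Nat.dvd_prime_pow hp.out, ← hk]
    exact Subgroup.relIndex_dvd_index_of_le le_normalizer
  intro x hx
  rw [← conj_smul_eq_self_iff]
  apply eq_of_le_of_card_le
  · intro y hy
    have hy' := hy
    rw [mem_conj_smul] at hy
    have h1 : y ∈ normalizer (Q : Set G) := by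
      have h2 : x⁻¹ * y * x ∈ normalizer (Q : Set G) := le_normalizer hy
      have h3 := (mem_normalizer_iff.1 hx (x⁻¹ * y * x)).1 h2
      have e : x * (x⁻¹ * y * x) * x⁻¹ = y := by group
      rwa [e] at h3
    apply mem_of_coprime_relIndex le_normalizer le_rfl hm h1
    refine Nat.Coprime.coprime_dvd_left ?_ hQ
    have h4 : orderOf y ∣ Nat.card (MulAut.conj x • Q : Subgroup G) := by
      rw [← Subgroup.orderOf_mk y hy']; exact orderOf_dvd_natCard _
    rwa [card_conj_smul] at h4
  · rw [card_conj_smul]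

theorem nilpotent_selfnormalizing [Finite G] [hG : Group.IsNilpotent G] {C : Subgroup G} (hC : normalizer (C : Set G) = C) : 
    C = ⊤ := by
  by_contra h
  have h1 := Group.normalizerCondition_of_isNilpotent (G := G) C (lt_top_iff_ne_top.2 h)
  rw [hC] at h1
  exact h1.ne rfl

theorem nilpotent_hall_normal [Finite G] [hG : Group.IsNilpotent G] {p k : ℕ} [hp : Fact p.Prime] {Q : Subgroup G} 
    (hQ : (Nat.card Q).Coprime p) (hk : Q.index = p ^ k) : Q.Normal := by
  rw [← normalizer_eq_top_iff]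
  exact nilpotent_selfnormalizing (normalizer_hall_self hQ hk)

/-- Carter subgroup predicate (unbundled) -/
def IsC (C : Subgroup G) : Prop := Group.IsNilpotent C ∧ normalizer (C : Set G) = C

theorem IsC.subgroupOf {C K : Subgroup G} (h : IsC C) (hCK : C ≤ K) : IsC (C.subgroupOf K) := by
  refine ⟨?_, ?_⟩
  · haveI := h.1
    exact Group.nilpotent_of_surjective (subgroupOfEquivOfLe hCK).symm.toMonoidHom (subgroupOfEquivOfLe hCK).symm.surjective
  · apply le_antisymm _ le_normalizer
    intro x hx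
    rw [mem_subgroupOf, ← h.2]
    have h1 : zpowers x ≤ normalizer ((C.subgroupOf K : Subgroup K) : Set K) := by rwa [zpowers_le]
    have h2 : zpowers (x : G) ≤ normalizer (C : Set G) := by
      rw [le_normalizer_iff_conj] at h1 ⊢
      intro y hy c hc
      obtain ⟨k, rfl⟩ := mem_zpowers_iff.1 hy
      exact h1 (x ^ k) (zpow_mem_zpowers x k) ⟨c, hCK hc⟩ hc
    exact h2 (mem_zpowers _)

theorem IsC.conj {C : Subgroup G} (h : IsC C) (g : G) : IsC (MulAut.conj g • C) := by
  refine ⟨?_, ?_⟩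
  · haveI := h.1
    exact Group.nilpotent_of_surjective (equivSMul (MulAut.conj g) C).toMonoidHom (equivSMul (MulAut.conj g) C).surjective
  · apply le_antisymm _ le_normalizer
    intro x hx
    rw [mem_conj_smul, ← h.2]
    rw [← conj_smul_eq_self_iff] at hx ⊢
    rw [map_mul, map_mul, mul_smul, mul_smul, hx, ← mul_smul, ← map_mul, inv_mul_cancel, map_one, one_smul]

theorem isC_map_of_conj [Finite G] {G' : Type v} [Group G'] 
    (hconj : ∀ K : Subgroup G, K ≠ ⊤ → ∀ C D : Subgroup K, IsC C → IsC D → ∃ g : K, MulAut.conj g • C = D)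
    (f : G →* G') (hf : Function.Surjective f) {C : Subgroup G} (h : IsC C) : IsC (C.map f) := by
  have hnil : Group.IsNilpotent (C.map f) := isNilpotent_map f h.1
  by_cases ht : C ⊔ f.ker = ⊤
  · have h1 : C.map f = ⊤ := by
      rw [eq_top_iff, ← MonoidHom.range_eq_top.2 hf, MonoidHom.range_eq_map, ← ht, Subgroup.map_sup]
      refine sup_le le_rfl ?_
      rw [(Subgroup.map_eq_bot_iff f.ker).2 le_rfl]; exact bot_le
    refine ⟨hnil, ?_⟩
    rw [h1]; exact normalizer_eq_top _
  · refine ⟨hnil, ?_⟩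
    apply le_antisymm _ le_normalizer
    intro x' hx'
    obtain ⟨x, rfl⟩ := hf x'
    set K := C ⊔ f.ker with hK
    have hKc : (C.map f).comap f = K := by rw [comap_map_eq]
    have hxK : MulAut.conj x • C ≤ K := by
      rw [← hKc]
      intro y hy
      rw [mem_conj_smul] at hy
      rw [Subgroup.mem_comap]
      have h1 := (mem_normalizer_iff.1 hx' (f (x⁻¹ * y * x))).1 ⟨_, hy, rfl⟩
      rw [← map_mul, ← map_inv, ← map_mul] at h1
      have e : x * (x⁻¹ * y * x) * x⁻¹ = y := by group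
      rwa [e] at h1
    have hCK : C ≤ K := le_sup_left
    obtain ⟨g, hg⟩ := hconj K ht _ _ (h.subgroupOf hCK) ((h.conj x).subgroupOf hxK)
    rw [conj_smul_subgroupOf] at hg
    have hgK : MulAut.conj (g : G) • C ≤ K := by
      intro y hy
      rw [mem_conj_smul] at hy
      have : y = g * ((g : G)⁻¹ * y * g) * (g : G)⁻¹ := by group
      rw [this]
      exact K.mul_mem (K.mul_mem g.2 (hCK hy)) (K.inv_mem g.2)
    have h2 : MulAut.conj (g : G) • C = MulAut.conj x • C := eq_of_subgroupOf_eq hgK hxK hg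
    have h3 : (g : G)⁻¹ * x ∈ C := by
      rw [← h.2, ← conj_smul_eq_self_iff, map_mul, mul_smul, ← h2, ← mul_smul, ← map_mul, inv_mul_cancel, map_one, one_smul]
    have h4 : x ∈ K := by
      have : x = g * ((g : G)⁻¹ * x) := by group
      rw [this]; exact K.mul_mem g.2 (hCK h3)
    rw [← hKc] at h4
    exact h4

/-- normalizer of a Hall `p'`-subgroup is nilpotent when `G/N` is nilpotent, `N` a `p`-group -/
theorem normalizer_hall_nilpotent [Finite G] {p k : ℕ} [hp : Fact p.Prime] {N Q : Subgroup G} [hNn : N.Normal] 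
    (hN : IsPGroup p N) (hnil : Group.IsNilpotent (G ⧸ N)) (hQ : (Nat.card Q).Coprime p) 
    (hk : Q.index = p ^ k) : Group.IsNilpotent (normalizer (Q : Set G)) := by
  set L := normalizer (Q : Set G) with hL
  -- Q is nilpotent
  have hQN : Q ⊓ N = ⊥ := by
    obtain ⟨m, hm⟩ := IsPGroup.iff_card.1 hN
    apply inf_eq_bot_of_coprime
    rw [hm]; exact Nat.Coprime.pow_right m hQ
  have hQnil : Group.IsNilpotent Q := by
    suffices hinj : Function.Injective ((QuotientGroup.mk' N).comp Q.subtype) by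
      have e := MonoidHom.ofInjective hinj
      exact (Group.isNilpotent_congr e).2 inferInstance
    rw [injective_iff_map_eq_one]
    intro x hx
    have h1 : (x : G) ∈ N := (QuotientGroup.eq_one_iff (x : G)).1 hx
    have h2 : (x : G) ∈ Q ⊓ N := ⟨x.2, h1⟩
    rw [hQN, Subgroup.mem_bot] at h2
    exact Subtype.ext h2
  obtain ⟨m, -, hm⟩ : ∃ m ≤ k, Q.relIndex L = p ^ m := by
    rw [← Nat.dvd_prime_pow hp.out, ← hk]
    exact Subgroup.relIndex_dvd_index_of_le le_normalizer
  -- Sylow p normal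
  have hSn : ∀ S : Sylow p G, (S : Subgroup G).Normal := by
    intro S
    have hNS : N ≤ (S : Subgroup G) := (CfsgH2.le_pCore hNn hN).trans (pCore_le_sylow S)
    have h1 : IsSylowOf p ((S : Subgroup G).map (QuotientGroup.mk' N)) ((⊤ : Subgroup G).map (QuotientGroup.mk' N)) := 
      isSylowOf_map _ (sylow_isSylowOf S)
    rw [← MonoidHom.range_eq_map, MonoidHom.range_eq_top.2 (QuotientGroup.mk'_surjective N)] at h1
    haveI : Group.IsNilpotent (⊤ : Subgroup (G ⧸ N)) := inferInstance
    have h2 := normal_of_nilpotent_sylow (K := (⊤ : Subgroup (G ⧸ N))) this h1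
    have h3 : ((S : Subgroup G).map (QuotientGroup.mk' N)).comap (QuotientGroup.mk' N) = S := by
      apply comap_map_eq_self
      rw [QuotientGroup.ker_mk']; exact hNS
    rw [← h3]
    exact h2.comap _
  rw [isNilpotent_iff_sylow]
  intro r hr R hR
  haveI : Fact r.Prime := ⟨hr⟩
  by_cases hrp : r = p
  · subst hrp
    obtain ⟨S⟩ : Nonempty (Sylow r G) := inferInstance
    have hSn' := hSn S
    have hRp := isSylowOf_isPGroup hR
    have hRS : R ≤ (S : Subgroup G) := by
      obtain ⟨T, hT⟩ := hRp.exists_le_sylow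
      have := Sylow.unique_of_normal S hSn'
      have hTS : T = S := Subsingleton.elim _ _
      rwa [hTS] at hT
    have h1 : R = L ⊓ (S : Subgroup G) := by
      have h2 : R ≤ L ⊓ (S : Subgroup G) := le_inf (isSylowOf_le hR) hRS
      by_contra hne
      have h3 : IsPGroup r (L ⊓ (S : Subgroup G) : Subgroup G) := S.2.to_le inf_le_right
      obtain ⟨P, hP⟩ := hR
      have h4 : (P : Subgroup L) ≤ (L ⊓ (S : Subgroup G)).subgroupOf L := by
        intro x hx
        exact h2 (by rw [← hP]; exact ⟨x, hx, rfl⟩)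
      have h5 := P.3 (h3.comap_of_injective L.subtype Subtype.val_injective) h4
      apply hne
      rw [← hP, ← h5, ]
      exact map_subgroupOf_eq_of_le inf_le_left
    rw [h1]
    exact le_normalizer_inf le_normalizer (le_normalizer_of_normal _ _)
  · -- R ≤ Q
    have hRQ : R ≤ Q := by
      intro x hx
      apply mem_of_coprime_relIndex le_normalizer le_rfl hm (isSylowOf_le hR hx)
      obtain ⟨j, hj⟩ := IsPGroup.iff_orderOf.1 (isSylowOf_isPGroup hR) ⟨x, hx⟩
      rw [Subgroup.orderOf_mk] at hj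
      rw [hj]
      exact Nat.Coprime.pow_left _ ((Nat.coprime_primes hr hp.out).2 hrp)
    have h1 := isSylowOf_of_le hR hRQ le_normalizer
    exact normalizer_le_of_nilpotent hQnil h1

theorem exists_hall_pprime [Finite G] [hs : Group.IsSolvable G] {p : ℕ} (hp : p.Prime) : 
    ∃ (Q : Subgroup G) (k : ℕ), (Nat.card Q).Coprime p ∧ Q.index = p ^ k := by
  have h := hallD_of_solvable (G := G) ({p}ᶜ : Set ℕ)
  obtain ⟨Q, hQ1, hQ2, -⟩ := h.exists_ge (K := ⊥) (by rw [card_bot]; exact PiNum.one)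
  refine ⟨Q, ?_⟩
  have h1 : (Nat.card Q).Coprime p := by
    rw [Nat.coprime_comm, Nat.Prime.coprime_iff_not_dvd hp]
    intro hd
    exact hQ1 p hp hd rfl
  have h2 : ∃ k, Q.index = p ^ k := by
    refine ⟨_, Nat.eq_prime_pow_of_unique_prime_dvd Q.index_ne_zero_of_finite ?_⟩
    intro d hd hdd
    have := hQ2 d hd hdd
    rw [compl_compl] at this
    exact this
  obtain ⟨k, hk⟩ := h2
  exact ⟨k, h1, hk⟩

theorem hall_pprime_conj [Finite G] [hs : Group.IsSolvable G] {p : ℕ} (hp : p.Prime) {Q R : Subgroup G} {k l : ℕ} 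
    (hQ : (Nat.card Q).Coprime p) (hk : Q.index = p ^ k) (hR : (Nat.card R).Coprime p) (hl : R.index = p ^ l) : 
    ∃ g : G, MulAut.conj g • Q = R := by
  have h := hallD_of_solvable (G := G) ({p}ᶜ : Set ℕ)
  have key1 : ∀ T : Subgroup G, (Nat.card T).Coprime p → PiNum ({p}ᶜ : Set ℕ) (Nat.card T) := by
    intro T hT r hr hrd hrp
    rw [Set.mem_singleton_iff] at hrp
    subst hrp
    exact hr.one_lt.ne' (Nat.dvd_one.1 (hT ▸ Nat.dvd_gcd hrd dvd_rfl))
  have key2 : ∀ (T : Subgroup G) (m : ℕ), T.index = p ^ m → PiNum ({p}ᶜᶜ : Set ℕ) T.index := by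
    intro T m hm r hr hrd
    rw [compl_compl, Set.mem_singleton_iff]
    rw [hm] at hrd
    exact (Nat.prime_dvd_prime_iff_eq hr hp).1 (hr.dvd_of_dvd_pow hrd)
  exact h.conj (key1 Q hQ) (key2 Q k hk) (key1 R hR) (key2 R l hl)

end CfsgH1
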