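import Cfsg.Agent.H1.Carter

set_option autoImplicit false

open scoped Pointwise commutatorElement

namespace CfsgH1

universe u v w
variable {G : Type u} [Group G]

open Subgroup Cfsg

theorem isC_of_subgroupOf {K : Subgroup G} {C : Subgroup K} (h : IsC C) (hself : ∀ x : G, 
    x ∈ normalizer ((C.map K.subtype : Subgroup G) : Set G) → x ∈ K) : IsC (C.map K.subtype) := by
  refine ⟨isNilpotent_map _ h.1, ?_⟩
  apply le_antisymm _ le_normalizer
  intro x hx
  have hxK := hself x hx
  have h1 : (⟨x, hxK⟩ : K) ∈ normalizer (C : Set K) := by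
    rw [mem_normalizer_iff] at hx ⊢
    intro y
    have h2 := hx y
    constructor
    · intro hy
      obtain ⟨z, hz, hzy⟩ := h2.1 ⟨y, hy, rfl⟩
      have : z = ⟨x, hxK⟩ * y * ⟨x, hxK⟩⁻¹ := Subtype.ext hzy
      rw [← this]; exact hz
    · intro hy
      obtain ⟨z, hz, hzy⟩ := h2.2 ⟨_, hy, rfl⟩
      have : z = y := Subtype.ext hzy
      rw [← this]; exact hz
  rw [h.2] at h1
  exact ⟨_, h1, rfl⟩

theorem carter_aux (n : ℕ) : ∀ (G : Type u) [Group G] [Finite G] [Group.IsSolvable G], Nat.card G = n → 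
    (∃ C : Subgroup G, IsC C) ∧ ∀ C D : Subgroup G, IsC C → IsC D → ∃ g : G, MulAut.conj g • C = D := by
  induction n using Nat.strong_induction_on with
  | _ n ih =>
  intro G _ _ _ hn
  rcases subsingleton_or_nontrivial G with hs | hnt
  · haveI : Group.IsNilpotent G := inferInstance
    refine ⟨⟨⊤, inferInstance, normalizer_eq_top _⟩, ?_⟩
    intro C D _ _
    exact ⟨1, Subsingleton.elim _ _⟩
  obtain ⟨N, hNn, hNb, hNmin, hNab, p, hp, hNp, hNpg⟩ := exists_minNormal_pgroup (G := G)
  haveI : Fact p.Prime := ⟨hp⟩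
  have hQlt : Nat.card (G ⧸ N) < n := by rw [← hn]; exact card_quotient_lt hNb
  have ihQ := ih _ hQlt (G ⧸ N) rfl
  have hsur := QuotientGroup.mk'_surjective N
  have hprop : ∀ K : Subgroup G, K ≠ ⊤ → (∃ C : Subgroup K, IsC C) ∧ 
      ∀ C D : Subgroup K, IsC C → IsC D → ∃ g : K, MulAut.conj g • C = D := by
    intro K hK
    exact ih _ (by rw [← hn]; exact card_lt_card_of_ne_top hK) K rfl
  have hker : (QuotientGroup.mk' N).ker = N := QuotientGroup.ker_mk' N
  refine ⟨?_, ?_⟩
  · -- existence
    obtain ⟨C', hC'⟩ := ihQ.1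
    set K := C'.comap (QuotientGroup.mk' N) with hK
    by_cases hKt : K = ⊤
    · have hC't : C' = ⊤ := by
        rw [← map_comap_eq_self_of_surjective hsur C', ← hK, hKt, ← MonoidHom.range_eq_map, MonoidHom.range_eq_top.2 hsur]
      have hnil : Group.IsNilpotent (G ⧸ N) := by
        have h1 := hC'.1
        rw [hC't] at h1
        exact (Group.isNilpotent_congr (Subgroup.topEquiv (G := G ⧸ N))).1 h1
      obtain ⟨Q, k, hQ, hk⟩ := exists_hall_pprime (G := G) hp
      exact ⟨normalizer (Q : Set G), normalizer_hall_nilpotent hNpg hnil hQ hk, normalizer_hall_self hQ hk⟩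
    · obtain ⟨C, hC⟩ := (hprop K hKt).1
      refine ⟨C.map K.subtype, isC_of_subgroupOf hC ?_⟩
      -- f : K → C'
      let f : K →* C' := ((QuotientGroup.mk' N).comp K.subtype).codRestrict C' (fun x => x.2)
      have hf : Function.Surjective f := by
        rintro ⟨y, hy⟩
        obtain ⟨x, rfl⟩ := hsur y
        exact ⟨⟨x, hy⟩, rfl⟩
      have hconjK : ∀ L : Subgroup K, L ≠ ⊤ → ∀ C D : Subgroup L, IsC C → IsC D → ∃ g : L, MulAut.conj g • C = D := by
        intro L hL
        have h1 : Nat.card L < n := by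
          refine lt_trans (card_lt_card_of_ne_top hL) ?_
          rw [← hn]; exact card_lt_card_of_ne_top hKt
        exact (ih _ h1 L rfl).2
      have h1 := isC_map_of_conj hconjK f hf hC
      haveI := hC'.1
      have h2 : C.map f = ⊤ := nilpotent_selfnormalizing h1.2
      -- so K = C * N
      have h3 : (C.map K.subtype).map (QuotientGroup.mk' N) = C' := by
        ext y
        constructor
        · rintro ⟨x, ⟨z, hz, rfl⟩, rfl⟩
          exact z.2
        · intro hy
          have h4 : (⟨y, hy⟩ : C') ∈ C.map f := by rw [h2]; trivial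
          obtain ⟨z, hz, hzy⟩ := h4
          exact ⟨z, ⟨z, hz, rfl⟩, congrArg Subtype.val hzy⟩
      intro x hx
      -- x normalizes C' in quotient
      have h4 : (QuotientGroup.mk' N x) ∈ normalizer (C' : Set (G ⧸ N)) := by
        rw [← h3]
        rw [← conj_smul_eq_self_iff, ← map_conj_smul, conj_smul_eq_self_iff.2 hx]
      rw [hC'.2] at h4
      exact h4
  · -- conjugacy
    intro C D hC hD
    have hconjG : ∀ K : Subgroup G, K ≠ ⊤ → ∀ C D : Subgroup K, IsC C → IsC D → ∃ g : K, MulAut.conj g • C = D := 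
      fun K hK => (hprop K hK).2
    have hC1 := isC_map_of_conj hconjG _ hsur hC
    have hD1 := isC_map_of_conj hconjG _ hsur hD
    obtain ⟨g', hg'⟩ := ihQ.2 _ _ hC1 hD1
    obtain ⟨g, rfl⟩ := hsur g'
    rw [← map_conj_smul] at hg'
    have hC2 := hC.conj g
    set C₁ := MulAut.conj g • C with hC₁
    -- it is enough to show C₁ and D are conjugate
    suffices hsuff : ∃ x : G, MulAut.conj x • C₁ = D by
      obtain ⟨x, hx⟩ := hsuff
      exact ⟨x * g, by rw [map_mul, mul_smul, ← hC₁, hx]⟩
    have hsup : C₁ ⊔ N = D ⊔ N := by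
      have := congrArg (Subgroup.comap (QuotientGroup.mk' N)) hg'
      rwa [comap_map_eq, comap_map_eq, hker] at this
    by_cases hK : C₁ ⊔ N = ⊤
    · -- both complements or everything
      have hK2 : D ⊔ N = ⊤ := hsup ▸ hK
      have hnil : Group.IsNilpotent (G ⧸ N) := by
        have h1 : C₁.map (QuotientGroup.mk' N) = ⊤ := by
          rw [eq_top_iff, ← MonoidHom.range_eq_top.2 hsur, MonoidHom.range_eq_map, ← hK, Subgroup.map_sup]
          refine sup_le le_rfl ?_
          rw [(Subgroup.map_eq_bot_iff N).2 (by rw [hker])]; exact bot_le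
        have h2 := isNilpotent_map (QuotientGroup.mk' N) hC2.1
        rw [h1] at h2
        exact (Group.isNilpotent_congr (Subgroup.topEquiv (G := G ⧸ N))).1 h2
      -- Hall subgroups
      have key : ∀ E : Subgroup G, IsC E → E ⊔ N = ⊤ → ∃ (Q : Subgroup G) (k : ℕ), (Nat.card Q).Coprime p ∧ Q.index = p ^ k ∧ 
          E = normalizer (Q : Set G) := by
        intro E hE hEN
        haveI : Group.IsSolvable E := inferInstance
        haveI := hE.1
        obtain ⟨Q, k, hQ, hk⟩ := exists_hall_pprime (G := E) hp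
        have hQn := nilpotent_hall_normal hQ hk
        have h1 : E.index ∣ Nat.card N := by
          rw [← index_eq_of_sup (N := N) (M := E) (by rw [sup_comm]; exact hEN)]
          exact dvd_mul_right _ _
        obtain ⟨m, hm⟩ := IsPGroup.iff_card.1 hNpg
        rw [hm] at h1
        obtain ⟨l, -, hl⟩ := (Nat.dvd_prime_pow hp).1 h1
        have hcard : Nat.card (Q.map E.subtype) = Nat.card Q := 
          Nat.card_congr (Q.equivMapOfInjective _ E.subtype_injective).symm.toEquiv
        have hidx : (Q.map E.subtype).index = p ^ (k + l) := by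
          have h2 := Subgroup.relIndex_mul_index (H := Q.map E.subtype) (K := E) (Subgroup.map_subtype_le _)
          rw [← h2, hl, pow_add]
          congr 1
          have h4 : (Q.map E.subtype).subgroupOf E = Q := comap_map_eq_self_of_injective E.subtype_injective Q
          rw [Subgroup.relIndex, h4, hk]
        refine ⟨Q.map E.subtype, k + l, by rw [hcard]; exact hQ, hidx, ?_⟩
        have hnil2 := normalizer_hall_nilpotent hNpg hnil (by rw [hcard]; exact hQ) hidx
        have hle : E ≤ normalizer ((Q.map E.subtype : Subgroup G) : Set G) := by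
          rw [le_normalizer_iff_conj]
          rintro x hx _ ⟨y, hy, rfl⟩
          exact ⟨⟨x, hx⟩ * y * ⟨x, hx⟩⁻¹, hQn.conj_mem y hy ⟨x, hx⟩, rfl⟩
        have h3 := nilpotent_selfnormalizing (hG := hnil2) (hE.subgroupOf hle).2
        rw [subgroupOf_eq_top] at h3
        exact le_antisymm hle h3
      obtain ⟨Q, k, hQ, hk, hCQ⟩ := key C₁ hC2 hK
      obtain ⟨R, l, hR, hl, hDR⟩ := key D hD hK2
      obtain ⟨x, hx⟩ := hall_pprime_conj hp hQ hk hR hl
      refine ⟨x, ?_⟩
      rw [hCQ, hDR, ← hx]
      ext y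
      rw [mem_conj_smul, ← conj_smul_eq_self_iff, ← conj_smul_eq_self_iff, map_mul, map_mul, mul_smul, mul_smul]
      constructor
      · intro h
        have := congrArg (fun T : Subgroup G => MulAut.conj x • T) h
        rwa [← mul_smul, ← map_mul, mul_inv_cancel, map_one, one_smul] at this
      · intro h
        rw [h, ← mul_smul, ← map_mul, inv_mul_cancel, map_one, one_smul]
    · have h1 : C₁ ≤ C₁ ⊔ N := le_sup_left
      have h2 : D ≤ C₁ ⊔ N := hsup ▸ le_sup_left
      obtain ⟨x, hx⟩ := hconjG _ hK _ _ (hC2.subgroupOf h1) (hD.subgroupOf h2)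
      rw [conj_smul_subgroupOf] at hx
      refine ⟨x, ?_⟩
      apply eq_of_subgroupOf_eq _ h2 hx
      intro y hy
      rw [mem_conj_smul] at hy
      have : y = x * ((x : G)⁻¹ * y * x) * (x : G)⁻¹ := by group
      rw [this]
      exact (C₁ ⊔ N).mul_mem ((C₁ ⊔ N).mul_mem x.2 (h1 hy)) ((C₁ ⊔ N).inv_mem x.2)

end CfsgH1
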