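import Cfsg.Agent.H1.Meta

set_option autoImplicit false

/-! p-groups with a cyclic subgroup of index p. -/

open Cfsg Subgroup
open scoped Pointwise commutatorElement

namespace CfsgH1

universe u v

variable {G : Type u} [Group G]

theorem conj_iter {a b : G} {r : ℤ} (h : b * a * b⁻¹ = a ^ r) (j : ℕ) : b ^ j * a * (b ^ j)⁻¹ = a ^ (r ^ j) := by
  induction j with
  | zero => simp
  | succ j ih =>
    have e : b ^ (j + 1) * a * (b ^ (j + 1))⁻¹ = b * (b ^ j * a * (b ^ j)⁻¹) * b⁻¹ := by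
      rw [pow_succ']; group
    rw [e, ih, ← conj_zpow, h, ← _root_.zpow_mul, pow_succ, mul_comm]

theorem one_add_pow_int (m : ℤ) (j : ℕ) : m ^ 2 ∣ (1 + m) ^ j - (1 + j * m) := by
  induction j with
  | zero => simp
  | succ j ih =>
    have e : (1 + m) ^ (j + 1) - (1 + ((j + 1 : ℕ) : ℤ) * m) = ((1 + m) ^ j - (1 + j * m)) * (1 + m) + m ^ 2 * j := by push_cast; ring
    rw [e]
    exact dvd_add (Dvd.dvd.mul_right ih _) (dvd_mul_right _ _)

theorem zpow_eq_of_dvd {a : G} {i j : ℤ} (h : (orderOf a : ℤ) ∣ i - j) : a ^ i = a ^ j := by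
  rw [orderOf_dvd_iff_zpow_eq_one, _root_.zpow_sub, mul_inv_eq_one] at h
  exact h

theorem dvd_of_zpow_eq {a : G} {i j : ℤ} (h : a ^ i = a ^ j) : (orderOf a : ℤ) ∣ i - j := by
  rw [orderOf_dvd_iff_zpow_eq_one, _root_.zpow_sub, h, mul_inv_cancel]

theorem comm_of_gen [Finite G] {a b : G} (hidx : (zpowers a).index.Prime) (hn : (zpowers a).Normal) (hb : b ∉ zpowers a) (hab : b * a = a * b) (x y : G) : x * y = y * x := by
  have htop : zpowers a ⊔ zpowers b = ⊤ := by
    have h1 := Subgroup.relIndex_mul_index (le_sup_left : zpowers a ≤ zpowers a ⊔ zpowers b)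
    have h2 : (zpowers a).relIndex (zpowers a ⊔ zpowers b) ≠ 1 := by
      intro h
      rw [Subgroup.relIndex_eq_one] at h
      exact hb (h (Subgroup.mem_sup_right (Subgroup.mem_zpowers b)))
    have h3 : (zpowers a ⊔ zpowers b).index ∣ (zpowers a).index := Dvd.intro_left _ h1
    rcases (Nat.dvd_prime hidx).1 h3 with h4 | h4
    · exact Subgroup.index_eq_one.1 h4
    · exfalso
      apply h2
      rw [h4] at h1
      exact Nat.eq_of_mul_eq_mul_right hidx.pos (by rw [h1, one_mul])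
  have hgen : ∀ z : G, ∃ i j : ℤ, z = a ^ i * b ^ j := by
    intro z
    have hz : z ∈ zpowers a ⊔ zpowers b := by rw [htop]; exact Subgroup.mem_top _
    obtain ⟨u, hu, v, hv, rfl⟩ := (Subgroup.mem_sup_of_normal_left).1 hz
    obtain ⟨i, rfl⟩ := Subgroup.mem_zpowers_iff.1 hu
    obtain ⟨j, rfl⟩ := Subgroup.mem_zpowers_iff.1 hv
    exact ⟨i, j, rfl⟩
  obtain ⟨i, j, rfl⟩ := hgen x
  obtain ⟨k, l, rfl⟩ := hgen y
  have hc : Commute a b := hab.symm
  have h1 : Commute (a ^ i * b ^ j) (a ^ k * b ^ l) := by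
    apply Commute.mul_left
    · exact ((Commute.refl a).zpow_zpow i k).mul_right (hc.zpow_zpow i l)
    · exact (hc.symm.zpow_zpow j k).mul_right ((Commute.refl b).zpow_zpow j l)
  exact h1

/-- **S0645** -/
theorem cyc_odd [Finite G] {p : ℕ} [hp : Fact p.Prime] (hp2 : p ≠ 2) (n : ℕ) (hn : 3 ≤ n) (hG : Nat.card G = p ^ n) (C : Subgroup G) (hC : IsCyclic C) (hCi : C.index = p) (hna : ∃ x y : G, x * y ≠ y * x) : 
    ∃ a b : G, orderOf a = p ^ (n - 1) ∧ orderOf b = p ∧ b ∉ Subgroup.zpowers a ∧ b * a * b⁻¹ = a ^ (1 + p ^ (n - 2)) := by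
  have hGp : IsPGroup p G := IsPGroup.of_card hG
  have hnc : ¬ IsCyclic G := by
    intro h
    letI : CommGroup G := IsCyclic.commGroup
    obtain ⟨x, y, h⟩ := hna
    exact h (mul_comm x y)
  obtain ⟨h1, h2⟩ := CfsgH3.cyclic_index hp2 hGp hnc C hC hCi
  have hCo := CfsgH3.isCoatom_of_index hCi
  haveI hCn : C.Normal := CfsgH3.coatom_normal hGp hCo
  obtain ⟨⟨⟨a, haC⟩, hag⟩⟩ := id hC
  have hCa : C = zpowers a := by
    apply le_antisymm
    · intro z hz
      obtain ⟨i, hi⟩ := hag ⟨z, hz⟩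
      exact Subgroup.mem_zpowers_iff.2 ⟨i, congrArg Subtype.val hi⟩
    · exact Subgroup.zpowers_le.2 haC
  have horda : orderOf a = p ^ (n - 1) := by
    have h3 := Subgroup.card_mul_index C
    rw [hCi, hG, hCa, Nat.card_zpowers] at h3
    have h4 : p ^ n = p ^ (n - 1) * p := by rw [← pow_succ]; congr 1; omega
    rw [h4] at h3
    exact Nat.eq_of_mul_eq_mul_right hp.out.pos h3
  -- b
  obtain ⟨b, hb, hbC⟩ : ∃ b ∈ closure {x : G | x ^ p = 1}, b ∉ C := by
    by_contra hcon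
    push Not at hcon
    obtain ⟨A, hA, hA2⟩ := zpowers_card_le_of_cyclic (R := C) (p := p) hp.out.pos
    have h3 : closure {x : G | x ^ p = 1} ≤ A.map C.subtype := by
      intro x hx
      exact ⟨⟨x, hcon x hx⟩, hA2 _ (Subtype.ext (h1 x hx)), rfl⟩
    have h4 := Subgroup.card_le_of_le h3
    rw [h2, Subgroup.card_map_of_injective (Subgroup.subtype_injective _)] at h4
    have h5 : p ^ 1 < p ^ 2 := Nat.pow_lt_pow_right hp.out.one_lt (by norm_num)
    rw [pow_one] at h5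
    omega
  have hbp : b ^ p = 1 := h1 b hb
  have hb1 : b ≠ 1 := fun h => hbC (h ▸ one_mem _)
  have hbab : b * a * b⁻¹ ∈ zpowers a := by rw [← hCa]; exact hCn.conj_mem a haC b
  obtain ⟨r, hr⟩ := Subgroup.mem_zpowers_iff.1 hbab
  have hr' := hr.symm
  have h3 := conj_iter hr' p
  rw [hbp] at h3
  have h4 : a ^ (r ^ p) = a ^ (1 : ℤ) := by rw [← h3]; simp
  have h5 := dvd_of_zpow_eq h4
  rw [horda] at h5
  obtain ⟨h6, h7⟩ := CfsgH3.int_lte hp2 (m := n - 1) r (by omega) (by exact_mod_cast h5)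
  have h8 : (p : ℤ) ^ (n - 2) ∣ r - 1 := by
    have h9 : (p : ℤ) ^ (n - 1) = p * p ^ (n - 2) := by rw [← pow_succ']; congr 1; omega
    rw [h9] at h7
    exact Int.dvd_of_mul_dvd_mul_left (by exact_mod_cast hp.out.ne_zero) h7
  obtain ⟨k, hk⟩ := h8
  have hrk : r = 1 + (p : ℤ) ^ (n - 2) * k := by linarith
  have hpk : ¬ (p : ℤ) ∣ k := by
    rintro ⟨k', rfl⟩
    obtain ⟨x, y, hxy⟩ := hna
    apply hxy
    have h9 : b * a * b⁻¹ = a ^ (1 : ℤ) := by
      rw [hr']
      apply zpow_eq_of_dvd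
      rw [horda, hrk]
      push_cast
      have h10 : (p : ℤ) ^ (n - 1) = p ^ (n - 2) * p := by rw [← pow_succ]; congr 1; omega
      rw [h10]
      exact ⟨k', by ring⟩
    rw [zpow_one] at h9
    have hba : b * a = a * b := mul_inv_eq_iff_eq_mul.1 h9
    exact comm_of_gen (by rw [← hCa, hCi]; exact hp.out) (by rw [← hCa]; exact hCn) (by rw [← hCa]; exact hbC) hba x y
  -- choose j
  have hcop : IsCoprime (p : ℤ) k := (Prime.coprime_iff_not_dvd (Nat.prime_iff_prime_int.1 hp.out)).2 hpk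
  obtain ⟨u, v, huv⟩ := hcop
  -- v * k ≡ 1 mod p ; natural j
  set j : ℕ := (v % p).toNat with hj
  have hjv : (j : ℤ) = v % p := Int.toNat_of_nonneg (Int.emod_nonneg _ (by exact_mod_cast hp.out.ne_zero))
  have hjk : (p : ℤ) ∣ j * k - 1 := by
    rw [hjv]
    have e : v % p = v - p * (v / p) := by rw [Int.emod_def]
    rw [e]
    refine ⟨-u - (v / p) * k, ?_⟩
    linear_combination huv
  have hpj : ¬ p ∣ j := by
    intro h
    have h9 : (p : ℤ) ∣ j * k := Dvd.dvd.mul_right (by exact_mod_cast h) k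
    have h10 : (p : ℤ) ∣ 1 := by
      have := dvd_sub h9 hjk
      simpa using this
    have h11 : (p : ℕ) ∣ 1 := by exact_mod_cast h10
    exact hp.out.one_lt.ne' (Nat.dvd_one.1 h11)
  have hordb : orderOf b = p := orderOf_eq_prime hbp hb1
  refine ⟨a, b ^ j, horda, ?_, ?_, ?_⟩
  · rw [Nat.Coprime.orderOf_pow, hordb]
    rw [hordb]
    exact (Nat.Prime.coprime_iff_not_dvd hp.out).2 hpj
  · intro h
    apply hbC
    rw [hCa]
    have h9 : zpowers (b ^ j) = zpowers b := by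
      apply Subgroup.eq_of_le_of_card_ge
      · rw [Subgroup.zpowers_le]; exact Subgroup.pow_mem _ (Subgroup.mem_zpowers b) _
      · rw [Nat.card_zpowers, Nat.card_zpowers, Nat.Coprime.orderOf_pow]
        rw [hordb]
        exact (Nat.Prime.coprime_iff_not_dvd hp.out).2 hpj
    have h10 : zpowers b ≤ zpowers a := by rw [← h9]; exact Subgroup.zpowers_le.2 h
    exact h10 (Subgroup.mem_zpowers b)
  · rw [conj_iter hr' j, ← zpow_natCast]
    apply zpow_eq_of_dvd
    rw [horda, hrk]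
    have h9 := one_add_pow_int ((p : ℤ) ^ (n - 2) * k) j
    have h10 : ((p ^ (n - 1) : ℕ) : ℤ) ∣ ((p : ℤ) ^ (n - 2) * k) ^ 2 := by
      push_cast
      rw [mul_pow, ← pow_mul]
      exact Dvd.dvd.mul_right (pow_dvd_pow _ (by omega)) _
    have h11 := h10.trans h9
    have h12 : ((p ^ (n - 1) : ℕ) : ℤ) ∣ (1 + (j : ℤ) * ((p : ℤ) ^ (n - 2) * k)) - ((1 + p ^ (n - 2) : ℕ) : ℤ) := by
      push_cast
      have e : 1 + (j : ℤ) * ((p : ℤ) ^ (n - 2) * k) - (1 + (p : ℤ) ^ (n - 2)) = (p : ℤ) ^ (n - 2) * (j * k - 1) := by ring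
      rw [e]
      have h13 : (p : ℤ) ^ (n - 1) = p ^ (n - 2) * p := by rw [← pow_succ]; congr 1; omega
      rw [h13]
      exact mul_dvd_mul_left _ hjk
    have := dvd_add h11 h12
    have e2 : (1 + (p : ℤ) ^ (n - 2) * k) ^ j - ((1 + p ^ (n - 2) : ℕ) : ℤ) = ((1 + (p : ℤ) ^ (n - 2) * k) ^ j - (1 + (j : ℤ) * ((p : ℤ) ^ (n - 2) * k))) + ((1 + (j : ℤ) * ((p : ℤ) ^ (n - 2) * k)) - ((1 + p ^ (n - 2) : ℕ) : ℤ)) := by ring
    rw [e2]; exact this

/-- **S0646** -/
theorem cyc_two [Finite G] (n : ℕ) (hn : 3 ≤ n) (hG : Nat.card G = 2 ^ n) (C : Subgroup G) (hC : IsCyclic C) (hCi : C.index = 2) (hna : ∃ x y : G, x * y ≠ y * x) : 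
    ∃ a b : G, orderOf a = 2 ^ (n - 1) ∧ b ∉ Subgroup.zpowers a ∧ ((b ^ 2 = 1 ∧ b * a * b⁻¹ = a⁻¹) ∨ (b ^ 2 = a ^ (2 ^ (n - 2)) ∧ b * a * b⁻¹ = a⁻¹) ∨ (4 ≤ n ∧ b ^ 2 = 1 ∧ b * a * b⁻¹ = a ^ (1 + 2 ^ (n - 2))) ∨ (4 ≤ n ∧ b ^ 2 = 1 ∧ b * a * b⁻¹ = a ^ (2 ^ (n - 2) - 1))) := by
  haveI : Fact (Nat.Prime 2) := ⟨Nat.prime_two⟩
  haveI hCn : C.Normal := Subgroup.normal_of_index_eq_two hCi
  obtain ⟨⟨⟨a, haC⟩, hag⟩⟩ := id hC
  have hCa : C = zpowers a := by
    apply le_antisymm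
    · intro z hz
      obtain ⟨i, hi⟩ := hag ⟨z, hz⟩
      exact Subgroup.mem_zpowers_iff.2 ⟨i, congrArg Subtype.val hi⟩
    · exact Subgroup.zpowers_le.2 haC
  have horda : orderOf a = 2 ^ (n - 1) := by
    have h3 := Subgroup.card_mul_index C
    rw [hCi, hG, hCa, Nat.card_zpowers] at h3
    have h4 : 2 ^ n = 2 ^ (n - 1) * 2 := by rw [← pow_succ]; congr 1; omega
    rw [h4] at h3
    exact Nat.eq_of_mul_eq_mul_right (by norm_num) h3
  obtain ⟨b, hbC⟩ : ∃ b, b ∉ C := by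
    by_contra hcon
    push Not at hcon
    have : C = ⊤ := eq_top_iff.2 fun x _ => hcon x
    rw [this, Subgroup.index_top] at hCi
    omega
  have hbab : b * a * b⁻¹ ∈ zpowers a := by rw [← hCa]; exact hCn.conj_mem a haC b
  obtain ⟨r, hr⟩ := Subgroup.mem_zpowers_iff.1 hbab
  have hr' := hr.symm
  have hb2 : b ^ 2 ∈ zpowers a := by rw [← hCa]; exact Subgroup.sq_mem_of_index_two hCi b
  obtain ⟨s, hs⟩ := Subgroup.mem_zpowers_iff.1 hb2
  have hN : (2 : ℤ) ^ (n - 1) = 2 * 2 ^ (n - 2) := by rw [← pow_succ']; congr 1; omega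
  have horda' : (orderOf a : ℤ) = 2 ^ (n - 1) := by rw [horda]; push_cast; rfl
  -- r² ≡ 1
  have h1 : (2 : ℤ) ^ (n - 1) ∣ r ^ 2 - 1 := by
    have h3 := conj_iter hr' 2
    rw [← hs] at h3
    have h4 : a ^ (r ^ 2) = a ^ (1 : ℤ) := by rw [← h3]; group
    have h5 := dvd_of_zpow_eq h4
    rwa [horda'] at h5
  -- s (r-1) ≡ 0
  have h2 : (2 : ℤ) ^ (n - 1) ∣ s * r - s := by
    have h3 : b * a ^ s * b⁻¹ = a ^ s := by rw [hs]; group
    rw [← conj_zpow, hr', ← _root_.zpow_mul] at h3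
    have h5 := dvd_of_zpow_eq h3
    rwa [horda', mul_comm r s] at h5
  have hne : ¬ (2 : ℤ) ^ (n - 1) ∣ r - 1 := by
    intro h
    obtain ⟨x, y, hxy⟩ := hna
    apply hxy
    have h9 : b * a * b⁻¹ = a ^ (1 : ℤ) := by
      rw [hr']
      apply zpow_eq_of_dvd
      rw [horda']; exact h
    rw [zpow_one] at h9
    exact comm_of_gen (by rw [← hCa, hCi]; exact Nat.prime_two) (by rw [← hCa]; exact hCn) (by rw [← hCa]; exact hbC) (mul_inv_eq_iff_eq_mul.1 h9) x y
  have hbza : b ∉ zpowers a := by rw [← hCa]; exact hbC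
  -- r odd
  have hrodd : Odd r := by
    by_contra h
    rw [Int.not_odd_iff_even] at h
    have h3 : (2 : ℤ) ∣ r ^ 2 - 1 := (dvd_pow_self 2 (by omega)).trans h1
    have h4 : (2 : ℤ) ∣ r ^ 2 := by
      obtain ⟨k, hk⟩ := h
      exact ⟨r * k, by rw [hk]; ring⟩
    have h5 : (2 : ℤ) ∣ 1 := by have := dvd_sub h4 h3; simpa using this
    norm_num at h5
  obtain ⟨u, hu⟩ := hrodd
  -- 2^(n-1) ∣ 4 u (u+1)
  have h3 : (2 : ℤ) ^ (n - 3) ∣ u * (u + 1) := by
    have e : r ^ 2 - 1 = 4 * (u * (u + 1)) := by rw [hu]; ring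
    have e2 : (2 : ℤ) ^ (n - 1) = 4 * 2 ^ (n - 3) := by
      have : n - 1 = (n - 3) + 2 := by omega
      rw [this, pow_add]; ring
    rw [e, e2] at h1
    exact Int.dvd_of_mul_dvd_mul_left (by norm_num) h1
  have h4 : (2 : ℤ) ^ (n - 3) ∣ u ∨ (2 : ℤ) ^ (n - 3) ∣ u + 1 := by
    rcases Int.even_or_odd u with h5 | h5
    · left
      have hcop : IsCoprime ((2 : ℤ) ^ (n - 3)) (u + 1) := by
        apply IsCoprime.pow_left
        exact (Int.isCoprime_iff_gcd_eq_one.2 (by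
          have : Odd (u + 1) := h5.add_one
          rw [Int.gcd_comm]
          exact Int.isCoprime_iff_gcd_eq_one.1 (Int.isCoprime_two_right.2 this)))
      exact hcop.dvd_of_dvd_mul_right h3
    · right
      have hcop : IsCoprime ((2 : ℤ) ^ (n - 3)) u := by
        apply IsCoprime.pow_left
        exact (Int.isCoprime_two_left.2 h5)
      exact hcop.dvd_of_dvd_mul_left h3
  have hN2 : (2 : ℤ) ^ (n - 2) = 2 * 2 ^ (n - 3) := by rw [← pow_succ']; congr 1; omega
  -- inversion case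
  have hinv : a ^ r = a⁻¹ → ∃ a b : G, orderOf a = 2 ^ (n - 1) ∧ b ∉ Subgroup.zpowers a ∧ ((b ^ 2 = 1 ∧ b * a * b⁻¹ = a⁻¹) ∨ (b ^ 2 = a ^ (2 ^ (n - 2)) ∧ b * a * b⁻¹ = a⁻¹) ∨ (4 ≤ n ∧ b ^ 2 = 1 ∧ b * a * b⁻¹ = a ^ (1 + 2 ^ (n - 2))) ∨ (4 ≤ n ∧ b ^ 2 = 1 ∧ b * a * b⁻¹ = a ^ (2 ^ (n - 2) - 1))) := by
    intro hri
    refine ⟨a, b, horda, hbza, ?_⟩
    have h5 : (2 : ℤ) ^ (n - 1) ∣ s * 2 := by
      have h6 : a ^ r = a ^ (-1 : ℤ) := by rw [hri, zpow_neg_one]
      have h7 := dvd_of_zpow_eq h6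
      rw [horda'] at h7
      have h8 : (2 : ℤ) ^ (n - 1) ∣ s * (r - (-1)) := Dvd.dvd.mul_left h7 s
      have := dvd_sub h8 h2
      have e : s * (r - -1) - (s * r - s) = s * 2 := by ring
      rwa [e] at this
    rw [hN, mul_comm s 2] at h5
    obtain ⟨k, hk⟩ := Int.dvd_of_mul_dvd_mul_left (by norm_num) h5
    rcases Int.even_or_odd' k with ⟨l, hl | hl⟩
    · left
      refine ⟨?_, by rw [hr', hri]⟩
      rw [← hs]
      have : a ^ s = a ^ (0 : ℤ) := by
        apply zpow_eq_of_dvd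
        rw [horda', hk, hl, hN]
        exact ⟨l, by ring⟩
      rw [this, _root_.zpow_zero]
    · right; left
      refine ⟨?_, by rw [hr', hri]⟩
      rw [← hs, ← zpow_natCast]
      apply zpow_eq_of_dvd
      rw [horda', hk, hl, hN]
      push_cast
      exact ⟨l, by ring⟩
  rcases h4 with h5 | h5
  · -- 2^(n-2) ∣ r - 1
    have h6 : (2 : ℤ) ^ (n - 2) ∣ r - 1 := by
      rw [hN2, hu]
      obtain ⟨k, hk⟩ := h5
      exact ⟨k, by rw [hk]; ring⟩
    obtain ⟨k, hk⟩ := h6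
    rcases Int.even_or_odd' k with ⟨l, hl | hl⟩
    · exfalso
      apply hne
      rw [hk, hl, hN]
      exact ⟨l, by ring⟩
    · have har : a ^ r = a ^ (1 + 2 ^ (n - 2) : ℤ) := by
        apply zpow_eq_of_dvd
        rw [horda', hN]
        refine ⟨l, ?_⟩
        rw [show r = 1 + 2 ^ (n - 2) * k by linarith, hl]; ring
      rcases Nat.lt_or_ge n 4 with h7 | h7
      · -- n = 3
        have hn3 : n = 3 := by omega
        apply hinv
        rw [har, ← zpow_neg_one]
        apply zpow_eq_of_dvd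
        rw [horda', hn3]
        norm_num
      · -- modular case
        have h8 : (2 : ℤ) ∣ s := by
          have h9 : (2 : ℤ) ^ (n - 1) ∣ s * (2 ^ (n - 2)) := by
            have h10 : a ^ r = a ^ (1 + 2 ^ (n - 2) : ℤ) := har
            have h11 := dvd_of_zpow_eq h10
            rw [horda'] at h11
            have h12 : (2 : ℤ) ^ (n - 1) ∣ s * (r - (1 + 2 ^ (n - 2))) := Dvd.dvd.mul_left h11 s
            have := dvd_sub h2 h12
            have e : (s * r - s) - s * (r - (1 + 2 ^ (n - 2))) = s * 2 ^ (n - 2) := by ring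
            rwa [e] at this
          rw [hN] at h9
          exact Int.dvd_of_mul_dvd_mul_right (by positivity) h9
        obtain ⟨s', hs'⟩ := h8
        set j : ℤ := - s' * (1 + 2 ^ (n - 3)) with hj
        refine ⟨a, b * a ^ j, horda, ?_, Or.inr (Or.inr (Or.inl ⟨h7, ?_, ?_⟩))⟩
        · intro h
          apply hbza
          have := (zpowers a).mul_mem h ((zpowers a).inv_mem (Subgroup.zpow_mem_zpowers a j))
          rwa [mul_inv_cancel_right] at this
        · have e : (b * a ^ j) ^ 2 = (b * a ^ j * b⁻¹) * b ^ 2 * a ^ j := by rw [pow_two, pow_two]; group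
          rw [e, ← conj_zpow, hr', ← hs, ← _root_.zpow_mul, ← _root_.zpow_add, ← _root_.zpow_add, hs']
          have : a ^ (r * j + 2 * s' + j) = a ^ (0 : ℤ) := by
            apply zpow_eq_of_dvd
            rw [horda', hN]
            rw [show r = 1 + 2 ^ (n - 2) * k by linarith, hl, hj, hN2]
            have h12 : (2 : ℤ) ^ (n - 3) = 2 * 2 ^ (n - 4) := by rw [← pow_succ']; congr 1; omega
            rw [h12]
            refine ⟨-s' * (l + l * (2 * 2 ^ (n - 4)) + 1 + 2 ^ (n - 4)), ?_⟩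
            ring
          rw [this, _root_.zpow_zero]
        · have e : b * a ^ j * a * (b * a ^ j)⁻¹ = b * a * b⁻¹ := by group
          rw [e, hr', har, ← zpow_natCast]
          push_cast
          rfl
  · -- 2^(n-2) ∣ r + 1
    have h6 : (2 : ℤ) ^ (n - 2) ∣ r + 1 := by
      rw [hN2, hu]
      obtain ⟨k, hk⟩ := h5
      exact ⟨k, by linear_combination 2 * hk⟩
    obtain ⟨k, hk⟩ := h6
    rcases Int.even_or_odd' k with ⟨l, hl | hl⟩
    · apply hinv
      rw [← zpow_neg_one]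
      apply zpow_eq_of_dvd
      rw [horda', hN]
      refine ⟨l, ?_⟩
      rw [show r - -1 = r + 1 by ring, hk, hl]; ring
    · have har : a ^ r = a ^ (2 ^ (n - 2) - 1 : ℤ) := by
        apply zpow_eq_of_dvd
        rw [horda', hN]
        refine ⟨l, ?_⟩
        rw [show r = 2 ^ (n - 2) * k - 1 by linarith, hl]; ring
      have har' : a ^ (2 ^ (n - 2) - 1 : ℕ) = a ^ r := by
        rw [har, ← zpow_natCast]
        congr 1
        rw [Nat.cast_sub (Nat.one_le_two_pow)]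
        push_cast; rfl
      rcases Nat.lt_or_ge n 4 with h7 | h7
      · exfalso
        have hn3 : n = 3 := by omega
        apply hne
        have h8 := dvd_of_zpow_eq har
        rw [horda', hn3] at h8
        rw [hn3]
        norm_num at h8 ⊢
        exact h8
      · have h8 : (2 : ℤ) ^ (n - 2) ∣ s := by
          have h11 := dvd_of_zpow_eq har
          rw [horda'] at h11
          have h12 : (2 : ℤ) ^ (n - 1) ∣ s * (r - (2 ^ (n - 2) - 1)) := Dvd.dvd.mul_left h11 s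
          have h13 := dvd_sub h2 h12
          have e : (s * r - s) - s * (r - (2 ^ (n - 2) - 1)) = 2 * (s * (2 ^ (n - 3) - 1)) := by rw [hN2]; ring
          rw [e, hN] at h13
          have h14 := Int.dvd_of_mul_dvd_mul_left (by norm_num) h13
          have hcop : IsCoprime ((2 : ℤ) ^ (n - 2)) (2 ^ (n - 3) - 1) := by
            apply IsCoprime.pow_left
            apply Int.isCoprime_two_left.2
            have : Even ((2 : ℤ) ^ (n - 3)) := (Int.even_pow.2 ⟨even_two, by omega⟩)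
            exact this.sub_odd odd_one
          exact hcop.dvd_of_dvd_mul_right h14
        obtain ⟨k2, hk2⟩ := h8
        rcases Int.even_or_odd' k2 with ⟨l2, hl2 | hl2⟩
        · refine ⟨a, b, horda, hbza, Or.inr (Or.inr (Or.inr ⟨h7, ?_, ?_⟩))⟩
          · rw [← hs]
            have : a ^ s = a ^ (0 : ℤ) := by
              apply zpow_eq_of_dvd
              rw [horda', hk2, hl2, hN]
              exact ⟨l2, by ring⟩
            rw [this, _root_.zpow_zero]
          · rw [hr', har']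
        · refine ⟨a, b * a, horda, ?_, Or.inr (Or.inr (Or.inr ⟨h7, ?_, ?_⟩))⟩
          · intro h
            apply hbza
            have := (zpowers a).mul_mem h ((zpowers a).inv_mem (Subgroup.mem_zpowers a))
            rwa [mul_inv_cancel_right] at this
          · have e : (b * a) ^ 2 = (b * a * b⁻¹) * b ^ 2 * a ^ (1 : ℤ) := by rw [pow_two, pow_two]; group
            rw [e, hr', ← hs, har, ← _root_.zpow_add, ← _root_.zpow_add]
            have : a ^ ((2 : ℤ) ^ (n - 2) - 1 + s + 1) = a ^ (0 : ℤ) := by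
              apply zpow_eq_of_dvd
              rw [horda', hN, hk2, hl2]
              exact ⟨l2 + 1, by ring⟩
            rw [this, _root_.zpow_zero]
          · have e : b * a * a * (b * a)⁻¹ = b * a * b⁻¹ := by group
            rw [e, hr', har']

end CfsgH1
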