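import Mathlib

set_option autoImplicit false

namespace CfsgH1

universe u v
variable {G : Type u} [Group G]

theorem sum_fix [Finite G] (X : Type v) [MulAction G X] [Finite X] [Fintype G] : 
    ∑ g : G, Nat.card (MulAction.fixedBy X g) = Nat.card (MulAction.orbitRel.Quotient G X) * Nat.card G := by
  classical
  haveI : Fintype X := Fintype.ofFinite X
  haveI : ∀ g : G, Fintype (MulAction.fixedBy X g) := fun g => Fintype.ofFinite _
  haveI : Fintype (Quotient (MulAction.orbitRel G X)) := Fintype.ofFinite _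
  have h := MulAction.sum_card_fixedBy_eq_card_orbits_mul_card_group G X
  simp_rw [Nat.card_eq_fintype_card (α := MulAction.fixedBy X _)]
  rw [h, Nat.card_eq_fintype_card (α := G)]
  congr 1
  exact (Nat.card_eq_fintype_card (α := Quotient (MulAction.orbitRel G X))).symm

theorem card_split [Finite G] (D : Subgroup G) : Nat.card {g : G // g ∉ D} + Nat.card D = Nat.card G := by
  classical
  haveI : Fintype G := Fintype.ofFinite G
  have h := Fintype.card_subtype_compl (fun g : G => g ∈ D)
  have h2 : Fintype.card {g : G // g ∈ D} ≤ Fintype.card G := Fintype.card_subtype_le _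
  rw [Nat.card_eq_fintype_card, Nat.card_eq_fintype_card, Nat.card_eq_fintype_card, h]
  omega

theorem sum_split [Finite G] [Fintype G] (D : Subgroup G) [Fintype D] [Fintype {g : G // g ∉ D}] (F : G → ℕ) : 
    ∑ g : G, F g = ∑ d : D, F d + ∑ g : {g : G // g ∉ D}, F g := by
  classical
  have h := Fintype.sum_subtype_add_sum_subtype (fun g => g ∈ D) F
  rw [← h]
  congr 1
  · congr!
  · congr!

theorem derange_main [Finite G] {X : Type v} [MulAction G X] [Finite X] [Nonempty X] (htrans : MulAction.IsPretransitive G X) (D : Subgroup G) 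
    (hD : ∀ g : G, (∀ x : X, g • x ≠ x) → g ∈ D) : 
    Nat.card (MulAction.orbitRel.Quotient D X) = 1 ∧ ∀ g : G, g ∉ D → Nat.card (MulAction.fixedBy X g) = 1 := by
  classical
  haveI : Fintype G := Fintype.ofFinite G
  haveI : Fintype D := Fintype.ofFinite D
  have h1 := sum_fix (G := G) X
  have h2 := sum_fix (G := D) X
  have h3 := sum_split D (fun g => Nat.card (MulAction.fixedBy X g))
  have hq : Nat.card (MulAction.orbitRel.Quotient G X) = 1 := by
    haveI : Subsingleton (MulAction.orbitRel.Quotient G X) := (MulAction.pretransitive_iff_subsingleton_quotient G X).1 htrans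
    haveI : Nonempty (MulAction.orbitRel.Quotient G X) := ⟨Quotient.mk _ (Classical.arbitrary X)⟩
    exact Nat.card_unique
  rw [hq, one_mul] at h1
  have hge : ∀ g : {g : G // g ∉ D}, 1 ≤ Nat.card (MulAction.fixedBy X (g : G)) := by
    intro g
    have hne : ∃ x : X, (g : G) • x = x := by
      by_contra hcon
      push Not at hcon
      exact g.2 (hD g hcon)
    obtain ⟨x, hx⟩ := hne
    haveI : Nonempty (MulAction.fixedBy X (g : G)) := ⟨⟨x, hx⟩⟩
    exact Nat.card_pos
  have hcard : Nat.card {g : G // g ∉ D} + Nat.card D = Nat.card G := card_split D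
  have hfix : ∀ d : D, Nat.card (MulAction.fixedBy X d) = Nat.card (MulAction.fixedBy X (d : G)) := fun d => rfl
  have ho : 1 ≤ Nat.card (MulAction.orbitRel.Quotient D X) := by
    haveI : Nonempty (MulAction.orbitRel.Quotient D X) := ⟨Quotient.mk _ (Classical.arbitrary X)⟩
    exact Nat.card_pos
  have hsum : Nat.card {g : G // g ∉ D} ≤ ∑ g : {g : G // g ∉ D}, Nat.card (MulAction.fixedBy X (g : G)) := by
    calc Nat.card {g : G // g ∉ D} = ∑ _g : {g : G // g ∉ D}, 1 := by
          rw [Nat.card_eq_fintype_card, Finset.sum_const, Finset.card_univ, smul_eq_mul, mul_one]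
      _ ≤ _ := Finset.sum_le_sum (fun g _ => hge g)
  have hDpos : 0 < Nat.card D := Nat.card_pos
  have h2' : ∑ d : D, Nat.card (MulAction.fixedBy X (d : G)) = Nat.card (MulAction.orbitRel.Quotient D X) * Nat.card D := h2
  have h4 : Nat.card G = Nat.card (MulAction.orbitRel.Quotient D X) * Nat.card D + ∑ g : {g : G // g ∉ D}, Nat.card (MulAction.fixedBy X (g : G)) := by
    rw [← h1, h3, h2']
  have h5 : Nat.card (MulAction.orbitRel.Quotient D X) = 1 := by
    by_contra hne
    have h6 : 2 ≤ Nat.card (MulAction.orbitRel.Quotient D X) := by omega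
    nlinarith
  refine ⟨h5, ?_⟩
  rw [h5, one_mul] at h4
  have h6 : ∑ g : {g : G // g ∉ D}, Nat.card (MulAction.fixedBy X (g : G)) = ∑ _g : {g : G // g ∉ D}, 1 := by
    rw [Finset.sum_const, Finset.card_univ, smul_eq_mul, mul_one, ← Nat.card_eq_fintype_card]
    omega
  intro g hg
  have h7 := (Finset.sum_eq_sum_iff_of_le (fun g _ => hge g)).1 h6.symm ⟨g, hg⟩ (Finset.mem_univ _)
  exact h7.symm

theorem fixedBy_prod (X : Type v) [MulAction G X] (g : G) : Nat.card (MulAction.fixedBy (X × X) g) = Nat.card (MulAction.fixedBy X g) ^ 2 := by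
  rw [sq, ← Nat.card_prod]
  exact Nat.card_congr ⟨fun x => (⟨x.1.1, congrArg Prod.fst x.2⟩, ⟨x.1.2, congrArg Prod.snd x.2⟩), fun y => ⟨(y.1.1, y.2.1), Prod.ext y.1.2 y.2.2⟩, fun _ => rfl, fun _ => rfl⟩

theorem derange_rank [Finite G] {X : Type v} [MulAction G X] [Finite X] [Nonempty X] (htrans : MulAction.IsPretransitive G X) (D : Subgroup G) 
    (hD : ∀ g : G, (∀ x : X, g • x ≠ x) → g ∈ D) : 
    Nat.card (MulAction.orbitRel.Quotient D (X × X)) - 1 = (Nat.card (MulAction.orbitRel.Quotient G (X × X)) - 1) * D.index := by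
  classical
  haveI : Fintype G := Fintype.ofFinite G
  haveI : Fintype D := Fintype.ofFinite D
  have h1 := sum_fix (G := G) (X × X)
  have h2 : ∑ d : D, Nat.card (MulAction.fixedBy (X × X) (d : G)) = _ := sum_fix (G := D) (X × X)
  have h3 := sum_split D (fun g => Nat.card (MulAction.fixedBy (X × X) g))
  have hcard : Nat.card {g : G // g ∉ D} + Nat.card D = Nat.card G := card_split D
  have h4 : ∑ g : {g : G // g ∉ D}, Nat.card (MulAction.fixedBy (X × X) (g : G)) = Nat.card {g : G // g ∉ D} := by
    rw [Nat.card_eq_fintype_card (α := {g : G // g ∉ D}), ← Finset.card_univ, ← mul_one (Finset.univ.card), ← smul_eq_mul, ← Finset.sum_const]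
    apply Finset.sum_congr rfl
    intro g _
    rw [fixedBy_prod, (derange_main htrans D hD).2 g g.2, one_pow]
  have h3' : ∑ g : G, Nat.card (MulAction.fixedBy (X × X) g) = ∑ d : D, Nat.card (MulAction.fixedBy (X × X) (d : G)) + ∑ g : {g : G // g ∉ D}, Nat.card (MulAction.fixedBy (X × X) (g : G)) := h3
  rw [h1, h2, h4] at h3'
  have h5 : Nat.card D * D.index = Nat.card G := Subgroup.card_mul_index D
  have hDpos : 0 < Nat.card D := Nat.card_pos
  have ho : 1 ≤ Nat.card (MulAction.orbitRel.Quotient D (X × X)) := by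
    haveI : Nonempty (MulAction.orbitRel.Quotient D (X × X)) := ⟨Quotient.mk _ (Classical.arbitrary X, Classical.arbitrary X)⟩
    exact Nat.card_pos
  have ho2 : 1 ≤ Nat.card (MulAction.orbitRel.Quotient G (X × X)) := by
    haveI : Nonempty (MulAction.orbitRel.Quotient G (X × X)) := ⟨Quotient.mk _ (Classical.arbitrary X, Classical.arbitrary X)⟩
    exact Nat.card_pos
  obtain ⟨a, ha⟩ : ∃ a, Nat.card (MulAction.orbitRel.Quotient D (X × X)) = a + 1 := ⟨_, (Nat.sub_add_cancel ho).symm⟩
  obtain ⟨b, hb⟩ : ∃ b, Nat.card (MulAction.orbitRel.Quotient G (X × X)) = b + 1 := ⟨_, (Nat.sub_add_cancel ho2).symm⟩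
  rw [ha, hb] at h3' ⊢
  simp only [Nat.add_sub_cancel]
  apply Nat.eq_of_mul_eq_mul_left hDpos
  have h6 : Nat.card D * (b * D.index) = b * Nat.card G := by rw [← h5]; ring
  rw [h6]
  have h7 : (b + 1) * Nat.card G = b * Nat.card G + Nat.card G := by ring
  have h8 : (a + 1) * Nat.card D = Nat.card D * a + Nat.card D := by ring
  omega

end CfsgH1
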