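import Cfsg.Agent.H1.Engel
import Cfsg.Agent.H1.FF
import Cfsg.Agent.H1.Regular
import Cfsg.Agent.H3.Nilp
import Cfsg.Agent.H2.Cores

set_option autoImplicit false

open Cfsg Subgroup
open scoped Pointwise commutatorElement

namespace CfsgH1

universe u v

variable {G : Type u} [Group G] {p : ℕ}

/-- the hypercenter is a member of the upper central series -/
theorem exists_hyper [Finite G] : ∃ n : ℕ, (⨆ n : ℕ, Subgroup.upperCentralSeries G n) = Subgroup.upperCentralSeries G n ∧ ∀ m, n ≤ m → Subgroup.upperCentralSeries G m = Subgroup.upperCentralSeries G n := by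
  obtain ⟨n, hn⟩ := (wellFoundedGT_iff_monotone_chain_condition (α := Subgroup G)).1 inferInstance ⟨_, Subgroup.upperCentralSeries_mono G⟩
  refine ⟨n, le_antisymm (iSup_le fun m => ?_) (le_iSup _ n), fun m hm => (hn m hm).symm⟩
  rcases le_total n m with h | h
  · exact (hn m h).symm.le
  · exact Subgroup.upperCentralSeries_mono G h

theorem commutator_top_lt [Finite G] [hp : Fact p.Prime] {K : Subgroup G} [hK : K.Normal] (hKp : IsPGroup p K) (hKb : K ≠ ⊥) (hc : ∀ x : G, (orderOf x).Coprime p → ∀ k ∈ K, x * k = k * x) : 
    ⁅K, (⊤ : Subgroup G)⁆ < K := by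
  refine lt_of_le_of_ne (Subgroup.commutator_le_left K ⊤) fun he => hKb ?_
  obtain ⟨P⟩ : Nonempty (Sylow p G) := inferInstance
  have hKP : K ≤ P := hKp.le_sylow_of_normal P
  have htop : (⊤ : Subgroup G) ≤ (P : Subgroup G) ⊔ centralizer (K : Set G) := by
    apply le_of_forall_sylowOf
    intro r hr
    haveI : Fact r.Prime := ⟨hr⟩
    by_cases hrp : r = p
    · subst hrp
      exact ⟨P, isSylowOf_top_iff.2 ⟨P, rfl⟩, le_sup_left⟩
    · obtain ⟨R, hR⟩ := exists_isSylowOf r (⊤ : Subgroup G)
      refine ⟨R, hR, fun x hx => mem_sup_right ?_⟩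
      rw [mem_centralizer_iff]
      intro k hk
      symm
      apply hc x _ k hk
      obtain ⟨j, hj⟩ := IsPGroup.iff_orderOf.1 (isSylowOf_isPGroup hR) ⟨x, hx⟩
      rw [Subgroup.orderOf_mk] at hj
      rw [hj]
      exact Nat.Coprime.pow_left j ((Nat.coprime_primes hr hp.out).2 hrp)
  have h1 : ⁅K, (⊤ : Subgroup G)⁆ ≤ ⁅K, (P : Subgroup G)⁆ := by
    rw [Subgroup.commutator_le]
    intro k hk g _
    have h2 := htop (Subgroup.mem_top g)
    rw [← SetLike.mem_coe, Subgroup.mul_normal] at h2
    obtain ⟨x, hx, c, hcc, rfl⟩ := h2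
    have h3 : ⁅k, c⁆ = 1 := by
      rw [commutatorElement_eq_one_iff_mul_comm]
      exact mem_centralizer_iff.1 hcc k hk
    have e : ⁅k, x * c⁆ = ⁅k, x⁆ * (x * ⁅k, c⁆ * x⁻¹) := by simp only [commutatorElement_def]; group
    change ⁅k, x * c⁆ ∈ _
    rw [e, h3, mul_one, mul_inv_cancel, mul_one]
    exact Subgroup.commutator_mem_commutator hk hx
  have h2 : K ≤ ⁅K, (P : Subgroup G)⁆ := he.ge.trans h1
  haveI : Group.IsNilpotent (P : Subgroup G) := P.isPGroup'.isNilpotent
  obtain ⟨n, hn⟩ := (Subgroup.isNilpotent_iff_lowerCentralSeries (P : Subgroup G)).1 inferInstance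
  have h3 : ∀ k, K ≤ (P : Subgroup G).lowerCentralSeries k := by
    intro k
    induction k with
    | zero => exact hKP
    | succ k ih => exact h2.trans (Subgroup.commutator_mono ih le_rfl)
  have h4 := h3 n
  rw [hn, le_bot_iff] at h4
  exact h4

theorem le_hyper [Finite G] [hp : Fact p.Prime] (n : ℕ) : ∀ {K : Subgroup G}, Nat.card K = n → K.Normal → IsPGroup p K → (∀ x : G, (orderOf x).Coprime p → ∀ k ∈ K, x * k = k * x) → 
    K ≤ ⨆ n : ℕ, Subgroup.upperCentralSeries G n := by
  induction n using Nat.strong_induction_on with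
  | _ n ih =>
  intro K hn hK hKp hc
  by_cases hKb : K = ⊥
  · rw [hKb]; exact bot_le
  haveI := hK
  have h1 := commutator_top_lt hKp hKb hc
  have hlt : Nat.card (⁅K, (⊤ : Subgroup G)⁆ : Subgroup G) < n := by rw [← hn]; exact card_lt_card_of_lt h1
  have h2 := ih _ hlt (K := ⁅K, (⊤ : Subgroup G)⁆) rfl inferInstance (hKp.to_le h1.le) (fun x hx k hk => hc x hx k (h1.le hk))
  obtain ⟨m, hm1, hm2⟩ := exists_hyper (G := G)
  rw [hm1] at h2 ⊢
  rw [← hm2 (m + 1) (by omega)]
  intro k hk y
  exact h2 (Subgroup.commutator_mem_commutator hk (Subgroup.mem_top y))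

/-- elements generating nilpotent subgroups with everything -/
theorem nilp_with_all_iff [Finite G] (g : G) : (∀ x : G, Group.IsNilpotent (Subgroup.closure ({x, g} : Set G))) ↔ g ∈ ⨆ n : ℕ, Subgroup.upperCentralSeries G n := by
  constructor
  · -- first: p-elements
    have key : ∀ (r : ℕ), r.Prime → ∀ y : G, (∃ j, orderOf y = r ^ j) → (∀ x : G, Group.IsNilpotent (Subgroup.closure ({x, y} : Set G))) → y ∈ ⨆ n : ℕ, Subgroup.upperCentralSeries G n := by
      intro r hr y hy hall
      haveI : Fact r.Prime := ⟨hr⟩
      have hsub : (zpowers y).IsSubnormal := by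
        apply engel_subnormal _ G rfl y
        intro x
        obtain ⟨n, hn⟩ := (Subgroup.isNilpotent_iff_lowerCentralSeries _).1 (hall x)
        refine ⟨n, ?_⟩
        have hk : ∀ k, (fun a => a * y * a⁻¹ * y⁻¹)^[k] x ∈ (Subgroup.closure ({x, y} : Set G)).lowerCentralSeries k := by
          intro k
          induction k with
          | zero => exact Subgroup.subset_closure (by simp)
          | succ k ih =>
            rw [Function.iterate_succ_apply']
            exact Subgroup.commutator_mem_commutator ih (Subgroup.subset_closure (by simp))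
        have h2 := hk n
        rw [hn] at h2
        exact h2
      have hzp : IsPGroup r (zpowers y) := by
        obtain ⟨j, hj⟩ := hy
        exact IsPGroup.of_card (n := j) (by rw [Nat.card_zpowers, hj])
      have hpc := CfsgH2.IsSubnormal.le_pCore hsub hzp
      have hcomm : ∀ x : G, (orderOf x).Coprime r → x * y = y * x := by
        intro x hx
        haveI := hall x
        obtain ⟨j, hj⟩ := hy
        exact CfsgH3.commute_of_nilpotent_mem (H := Subgroup.closure ({x, y} : Set G)) (Subgroup.subset_closure (by simp)) (Subgroup.subset_closure (by simp)) (pow_orderOf_eq_one x) (pow_orderOf_eq_one y) (by rw [hj]; exact Nat.Coprime.pow_right j hx)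
      have hN : normalClosure ({y} : Set G) ≤ pCore r G := normalClosure_le_normal (by rw [Set.singleton_subset_iff]; exact hpc (mem_zpowers y))
      have hle : normalClosure ({y} : Set G) ≤ ⨆ n : ℕ, Subgroup.upperCentralSeries G n := by
        apply le_hyper _ rfl normalClosure_normal ((CfsgH2.isPGroup_pCore (G := G) r).to_le hN)
        intro x hx k hk
        have h1 : normalClosure ({y} : Set G) ≤ centralizer ({x} : Set G) := by
          rw [normalClosure, Subgroup.closure_le]
          intro z hz
          rw [Group.mem_conjugatesOfSet_iff] at hz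
          obtain ⟨y', hy', hz⟩ := hz
          rw [Set.mem_singleton_iff] at hy'
          subst hy'
          obtain ⟨h, rfl⟩ := isConj_iff.1 hz
          rw [SetLike.mem_coe, mem_centralizer_singleton_iff]
          have h2 := hcomm (h⁻¹ * x * h) (by
            have : h⁻¹ * x * h = MulAut.conj h⁻¹ x := by simp
            rw [this, MulEquiv.orderOf_eq]; exact hx)
          calc h * y' * h⁻¹ * x = h * (y' * (h⁻¹ * x * h)) * h⁻¹ := by group
            _ = h * ((h⁻¹ * x * h) * y') * h⁻¹ := by rw [h2]
            _ = _ := by group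
        exact (mem_centralizer_singleton_iff.1 (h1 hk)).symm
      exact hle (subset_normalClosure rfl)
    intro hall
    have h1 : zpowers g ≤ ⨆ n : ℕ, Subgroup.upperCentralSeries G n := by
      apply le_of_forall_sylowOf
      intro r hr
      haveI : Fact r.Prime := ⟨hr⟩
      obtain ⟨R, hR⟩ := exists_isSylowOf r (zpowers g)
      refine ⟨R, hR, fun y hy => ?_⟩
      apply key r hr y
      · obtain ⟨j, hj⟩ := IsPGroup.iff_orderOf.1 (isSylowOf_isPGroup hR) ⟨y, hy⟩
        rw [Subgroup.orderOf_mk] at hj
        exact ⟨j, hj⟩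
      · intro x
        have h2 : Subgroup.closure ({x, y} : Set G) ≤ Subgroup.closure ({x, g} : Set G) := by
          have h3 : y ∈ Subgroup.closure ({x, g} : Set G) := (zpowers_le.2 (Subgroup.subset_closure (by simp))) (isSylowOf_le hR hy)
          exact closure_pair_le (Subgroup.subset_closure (by simp)) h3
        haveI := hall x
        exact Group.nilpotent_of_mulEquiv (Subgroup.subgroupOfEquivOfLe h2)
    exact h1 (mem_zpowers g)
  · intro hg x
    obtain ⟨n, hn, -⟩ := exists_hyper (G := G)
    rw [hn] at hg
    set H := Subgroup.closure ({x, g} : Set G) with hH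
    rw [Subgroup.isNilpotent_iff_lowerCentralSeries]
    refine ⟨n + 1, ?_⟩
    have key : ∀ k, k ≤ n → H.lowerCentralSeries (k + 1) ≤ Subgroup.upperCentralSeries G (n - k) := by
      intro k
      induction k with
      | zero =>
        intro _
        change ⁅H, H⁆ ≤ _
        rw [Nat.sub_zero]
        have hnor : (Subgroup.upperCentralSeries G n).Normal := inferInstance
        rw [hH]
        apply commutator_le_of_gens (le_of_le_of_eq le_top (Subgroup.normalizer_eq_top_iff.2 hnor).symm)
        have hxg : ∀ y : G, ⁅y, g⁆ ∈ Subgroup.upperCentralSeries G n := by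
          intro y
          rw [commutatorElement_def]
          exact mul_mem (hnor.conj_mem g hg y) (inv_mem hg)
        intro s hs t ht
        rcases hs with hs | hs <;> rcases ht with ht | ht <;> rw [hs, ht]
        · rw [commutatorElement_self]; exact one_mem _
        · exact hxg x
        · rw [← commutatorElement_inv x g]; exact inv_mem (hxg x)
        · rw [commutatorElement_self]; exact one_mem _
      | succ k ih =>
        intro hk
        have h1 := ih (by omega)
        change ⁅H.lowerCentralSeries (k + 1), H⁆ ≤ _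
        rw [Subgroup.commutator_le]
        intro y hy z _
        have h2 := h1 hy
        have e : n - k = (n - (k + 1)) + 1 := by omega
        rw [e] at h2
        exact h2 z
    have h1 := key n le_rfl
    rw [Nat.sub_self, Subgroup.upperCentralSeries_zero, le_bot_iff] at h1
    exact h1

end CfsgH1
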