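import Cfsg.Agent.H1.KW

set_option autoImplicit false

open Cfsg Subgroup
open scoped Pointwise commutatorElement

namespace CfsgH1

universe u v
variable {G : Type u} [Group G] [Finite G] {A B : Subgroup G}

theorem KW.F1' (h : KW A B) {C : Subgroup G} (hCM : C ≤ normalizer (A : Set G)) (hpi : ∀ q : ℕ, q.Prime → q ∣ Nat.card C → q ∣ Nat.card A) : 
    C ≤ A := by
  refine le_trans (le_sup_left : C ≤ C ⊔ A) (h.le_A le_sup_right ?_)
  intro q hq hqd
  have h1 := card_sup_mul_card_inf hCM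
  have h2 : q ∣ Nat.card C * Nat.card A := by
    rw [← h1]
    exact Dvd.dvd.mul_right hqd _
  rcases (Nat.Prime.dvd_mul hq).1 h2 with h3 | h3
  · exact hpi q hq h3
  · exact h3

theorem mem_conj_normalizer {X : Subgroup G} {a n : G} (hn : n ∈ normalizer (X : Set G)) : 
    a * n * a⁻¹ ∈ normalizer ((MulAut.conj a • X : Subgroup G) : Set G) := by
  rw [← conj_smul_eq_self_iff, ← mul_smul, ← map_mul, inv_mul_cancel_right, map_mul, mul_smul, conj_smul_eq_self_iff.2 hn]

theorem KW.main_claim (h : KW A B) {p : ℕ} [hp : Fact p.Prime] (hpA : p ∣ Nat.card A) {X₀ : Subgroup G} (hX₀ : X₀ ≠ ⊥) (hX₀A : X₀ ≤ sy p A) :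
    normalizer (X₀ : Set G) ≤ normalizer (A : Set G) := by
  by_contra hX₀n
  obtain ⟨X, ⟨hXne, hXA, hXn⟩, hmax⟩ := exists_maximal_of_set {X : Subgroup G | X ≠ ⊥ ∧ X ≤ sy p A ∧ ¬ normalizer (X : Set G) ≤ normalizer (A : Set G)} 
    ⟨X₀, hX₀, hX₀A, hX₀n⟩
  have hbig : ∀ Y : Subgroup G, X ≤ Y → Y ≠ X → Y ≤ sy p A → normalizer (Y : Set G) ≤ normalizer (A : Set G) := by
    intro Y hXY hne hYA
    by_contra hcon
    refine hne (hmax Y ⟨?_, hYA, hcon⟩ hXY)
    rintro rfl
    exact hXne (le_bot_iff.1 hXY)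
  have hXpg : IsPGroup p X := (sy_pgroup p A).to_le hXA
  have hXA' : X ≤ A := hXA.trans (sy_le p A)
  -- b
  have hb : ∀ x ∈ X, x ≠ 1 → (∀ a ∈ A, a * x = x * a) → False := by
    intro x hxX hx1 hx
    apply hXn
    intro n hn
    obtain ⟨y, hyA, hy1, hy⟩ := h.exists_central
    have hCA : centralizer (X : Set G) ≤ A := 
      (centralizer_le (Set.singleton_subset_iff.2 hxX)).trans (h.P5 hx1 (hXA' hxX) hx)
    apply h.F3 hy1 hyA hy
    rw [mem_conj_smul]
    apply hCA
    rw [Subgroup.mem_centralizer_iff]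
    intro z hz
    have hz' : n * z * n⁻¹ ∈ X := le_normalizer_iff_conj.1 (le_refl (normalizer (X : Set G))) n hn z hz
    have h1 := hy _ (hXA' hz')
    calc z * (n⁻¹ * y * n) = n⁻¹ * (n * z * n⁻¹ * y) * n := by group
      _ = n⁻¹ * (y * (n * z * n⁻¹)) * n := by rw [h1]
      _ = _ := by group
  set C := centralizer (X : Set G) with hC
  obtain ⟨r, hr, hrp, hrA⟩ := h.twoA p
  haveI : Fact r.Prime := ⟨hr⟩
  have hsyC : ∀ s : ℕ, s.Prime → s ≠ p → sy s A ≤ C := by
    intro s hs hsp
    haveI : Fact s.Prime := ⟨hs⟩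
    exact sy_le_centralizer h.nA hXpg hXA' hsp.symm
  -- c
  have hCn : normalizer (X : Set G) ≤ normalizer (C : Set G) := by
    rw [le_normalizer_iff_conj]
    intro x hx y hy
    rw [hC, Subgroup.mem_centralizer_iff] at hy ⊢
    intro z hz
    have hz' : x⁻¹ * z * x ∈ X := by
      have := le_normalizer_iff_conj.1 (le_refl (normalizer (X : Set G))) x⁻¹ (inv_mem hx) z hz
      rwa [inv_inv] at this
    have h1 := hy _ hz'
    calc z * (x * y * x⁻¹) = x * ((x⁻¹ * z * x) * y) * x⁻¹ := by group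
      _ = x * (y * (x⁻¹ * z * x)) * x⁻¹ := by rw [h1]
      _ = _ := by group
  have hCM : ¬ C ≤ normalizer (A : Set G) := by
    intro hCM
    apply hXn
    intro n hn
    obtain ⟨c, hc, hcn⟩ := frattini_arg (h.sy_sylow hrA (hsyC r hr hrp)) (hCn hn)
    rw [h.normalizer_sy hrA] at hcn
    have := mul_mem (inv_mem (hCM hc)) hcn
    rwa [inv_mul_cancel_left] at this
  -- d
  have hd : C ⊓ normalizer (A : Set G) ≤ A := by
    apply h.F1' inf_le_right
    intro q hq hqC
    haveI : Fact q.Prime := ⟨hq⟩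
    rcases h.dvd_or hq (hqC.trans (Subgroup.card_subgroup_dvd_card _)) with h1 | h1
    · exact h1
    exfalso
    obtain ⟨S, hS⟩ := exists_isSylowOf q (C ⊓ normalizer (A : Set G))
    have hSne := isSylowOf_ne_bot hS hqC
    have hSpg := isSylowOf_isPGroup hS
    have hSle := isSylowOf_le hS
    set M := normalizer (A : Set G) with hM
    have hMpre : Pre B A M := (pre_of_left_le h.fact le_normalizer).symm
    have hE : IsSylowOf q (sy q (B ⊓ M)) M := h.symm.sylow_pre hMpre h1 (sy_spec q (B ⊓ M))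
    obtain ⟨m, hm, hmS⟩ : ∃ m ∈ M, MulAut.conj m • S ≤ sy q (B ⊓ M) := by
      obtain ⟨P, hP⟩ := hE
      obtain ⟨R, hR⟩ := (hSpg.comap_subtype (K := M)).exists_le_sylow
      obtain ⟨g, hg⟩ := MulAction.exists_smul_eq M R P
      refine ⟨g, g.2, ?_⟩
      rw [← hP, ← hg]
      intro y hy
      rw [mem_conj_smul] at hy
      have hyM : y ∈ M := by
        have h2 : (g : G)⁻¹ * y * g ∈ M := (hSle hy).2
        have := mul_mem (mul_mem g.2 h2) (inv_mem g.2)
        have e : (g : G) * ((g : G)⁻¹ * y * g) * (g : G)⁻¹ = y := by group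
        rwa [e] at this
      refine ⟨⟨y, hyM⟩, ?_, rfl⟩
      change (⟨y, hyM⟩ : M) ∈ MulAut.conj g • (R : Subgroup M)
      rw [mem_conj_smul]
      exact hR hy
    obtain ⟨b, hbB, a, haA, rfl⟩ := hMpre m hm
    have hEn : b ∈ normalizer (sy q (B ⊓ M) : Set G) := 
      normalizer_le_sy (isNilpotent_of_le h.nB inf_le_left) (le_normalizer hbB)
    have h2 : MulAut.conj a • S ≤ sy q (B ⊓ M) := by
      rw [map_mul, mul_smul] at hmS
      have h3 := conj_smul_mono b⁻¹ hmS
      rw [← mul_smul, ← map_mul, inv_mul_cancel, map_one, one_smul] at h3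
      rwa [conj_smul_eq_self_iff.2 (inv_mem hEn)] at h3
    have hQpg : IsPGroup q (MulAut.conj a • S : Subgroup G) := hSpg.map _
    have hQne : MulAut.conj a • S ≠ ⊥ := by
      intro h3
      apply hSne
      rw [← Subgroup.card_eq_one, ← card_conj_smul a, h3, Subgroup.card_bot]
    have h3 := h.F6 hQpg hQne (h2.trans ((sy_le _ _).trans inf_le_left)) (h2.trans ((sy_le _ _).trans inf_le_right))
    -- X' ≤ A ∩ L
    have hXC : MulAut.conj a • X ≤ centralizer ((MulAut.conj a • S : Subgroup G) : Set G) := by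
      intro y hy
      rw [mem_conj_smul] at hy
      rw [Subgroup.mem_centralizer_iff]
      intro z hz
      have hz' : a⁻¹ * z * a ∈ S := mem_conj_smul.1 hz
      have h4 := Subgroup.mem_centralizer_iff.1 (hSle hz').1 _ hy
      calc z * y = a * (a⁻¹ * z * a * (a⁻¹ * y * a)) * a⁻¹ := by group
        _ = a * (a⁻¹ * y * a * (a⁻¹ * z * a)) * a⁻¹ := by rw [h4]
        _ = _ := by group
    have hXpg' : IsPGroup p (MulAut.conj a • X : Subgroup G) := hXpg.map _
    have hXne' : MulAut.conj a • X ≠ ⊥ := by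
      intro h3
      apply hXne
      rw [← Subgroup.card_eq_one, ← card_conj_smul a, h3, Subgroup.card_bot]
    have hXA'' : MulAut.conj a • X ≤ A := by
      have := conj_smul_mono a hXA'
      rwa [conj_smul_of_mem haA.1] at this
    have hXL : MulAut.conj a • X ≤ normalizer (B : Set G) := 
      (hXC.trans (by
        intro y hy
        exact le_normalizer_of_le_centralizer (le_refl (centralizer ((MulAut.conj a • S : Subgroup G) : Set G))) hy)).trans h3
    have h4 := h.symm.F6 hXpg' hXne' hXA'' hXL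
    apply hXn
    intro n hn
    have h5 := h4 (mem_conj_normalizer (a := a) hn)
    have haM : a ∈ M := le_normalizer haA.1
    have := mul_mem (mul_mem (inv_mem haM) h5) haM
    have e : a⁻¹ * (a * n * a⁻¹) * a = n := by group
    rwa [e] at this
  -- e
  have hACnil : Group.IsNilpotent (A ⊓ C : Subgroup G) := isNilpotent_of_le h.nA inf_le_left
  have hnorm : ∀ s : ℕ, s.Prime → s ∣ Nat.card (A ⊓ C : Subgroup G) → C ⊓ normalizer (sy s (A ⊓ C) : Set G) = A ⊓ C := by
    intro s hs hsd
    haveI : Fact s.Prime := ⟨hs⟩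
    apply le_antisymm
    · by_cases hsp : s = p
      · subst hsp
        have h1 : X ⊔ sy s (A ⊓ C) ≤ sy s A := sup_le hXA (le_sy h.nA (sy_pgroup _ _) ((sy_le _ _).trans inf_le_left))
        obtain ⟨x, hxA, hx, hxs⟩ := exists_central_prime h.nA hpA
        have hxC : x ∈ A ⊓ C := ⟨hxA, Subgroup.mem_centralizer_iff.2 fun y hy => hx y (hXA' hy)⟩
        have h2 : X ⊔ sy s (A ⊓ C) ≠ X := by
          intro h3
          have h4 : zpowers x ≤ sy s (A ⊓ C) := le_sy hACnil (isPGroup_zpowers hxs) (by rw [Subgroup.zpowers_le]; exact hxC)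
          have h5 : x ∈ X := by
            rw [← h3]
            exact mem_sup_right (h4 (mem_zpowers x))
          refine hb x h5 ?_ hx
          rintro rfl
          rw [orderOf_one] at hxs
          exact hs.ne_one hxs.symm
        have h3 := hbig _ le_sup_left h2 h1
        intro c hc
        have h4 : c ∈ normalizer (A : Set G) := by
          apply h3
          exact le_normalizer_sup (A := C ⊓ normalizer (sy s (A ⊓ C) : Set G)) 
            (inf_le_left.trans (by
              intro y hy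
              exact le_normalizer_of_le_centralizer (le_refl (centralizer (X : Set G))) hy)) inf_le_right hc
        have h5 := hd ⟨hc.1, h4⟩
        exact ⟨h5, hc.1⟩
      · have hsA : s ∣ Nat.card A := hsd.trans (Subgroup.card_dvd_of_le inf_le_left)
        have h1 : sy s A = sy s (A ⊓ C) := sylowOf_unique hACnil 
          (isSylowOf_of_le (sy_spec s A) (le_inf (sy_le _ _) (hsyC s hs hsp)) inf_le_left)
        rw [← h1, h.normalizer_sy hsA]
        exact le_inf hd inf_le_left
    · exact le_inf inf_le_right (le_normalizer.trans (normalizer_le_sy hACnil))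
  -- apply the normal complement theorem in C
  have htrans : ∀ (s : ℕ) (hs : s.Prime) (P : Sylow s (A.subgroupOf C)), 
      (((P : Subgroup (A.subgroupOf C)).map (A.subgroupOf C).subtype).map C.subtype) = sy s (A ⊓ C) := by
    intro s hs P
    haveI : Fact s.Prime := ⟨hs⟩
    apply sylowOf_unique hACnil
    have h1 : IsSylowOf s ((P : Subgroup (A.subgroupOf C)).map (A.subgroupOf C).subtype) (A.subgroupOf C) := ⟨P, rfl⟩
    have h2 := isSylowOf_map C.subtype h1
    rwa [Subgroup.subgroupOf_map_subtype] at h2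
  have hcardAC : Nat.card (A.subgroupOf C) = Nat.card (A ⊓ C : Subgroup G) := by
    rw [← Subgroup.subgroupOf_map_subtype A C]
    exact Nat.card_congr ((A.subgroupOf C).equivMapOfInjective C.subtype C.subtype_injective).toEquiv
  obtain ⟨N, hN, hNc⟩ := Cfsg.Agent.S0558.result (A.subgroupOf C) (by
      intro s hs P hP
      haveI : Fact s.Prime := ⟨hs⟩
      have h1 : IsPGroup s (A.subgroupOf C) := by rw [← hP]; exact P.2
      obtain ⟨k, hk⟩ := IsPGroup.iff_card.1 h1
      have h2 : ∀ t : ℕ, t.Prime → t ∣ Nat.card (A ⊓ C : Subgroup G) → t = s := by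
        intro t ht htd
        rw [← hcardAC, hk] at htd
        exact (Nat.prime_dvd_prime_iff_eq ht hs).1 (ht.dvd_of_dvd_pow htd)
      have h3 : r ∣ Nat.card (A ⊓ C : Subgroup G) := 
        (prime_pgroup_dvd hr (sy_pgroup r A) (sy_ne_bot hrA)).trans (Subgroup.card_dvd_of_le (le_inf (sy_le _ _) (hsyC r hr hrp)))
      have h4 : p ∣ Nat.card (A ⊓ C : Subgroup G) := by
        obtain ⟨x, hxA, hx, hxs⟩ := exists_central_prime h.nA hpA
        rw [← hxs]
        exact Subgroup.orderOf_dvd_natCard _ ⟨hxA, Subgroup.mem_centralizer_iff.2 fun y hy => hx y (hXA' hy)⟩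
      exact hrp ((h2 r hr h3).trans (h2 p hp.out h4).symm)) (by
      intro s hs hsd P
      rw [hcardAC] at hsd
      have h1 := hnorm s hs hsd
      have h2 := htrans s hs P
      ext ⟨c, hc⟩
      have e1 : (⟨c, hc⟩ : C) ∈ A.subgroupOf C ↔ c ∈ A ⊓ C := by
        rw [Subgroup.mem_subgroupOf]
        exact ⟨fun h => ⟨h, hc⟩, fun h => h.1⟩
      rw [e1, ← h1, ← h2]
      constructor
      · intro h3
        refine ⟨hc, ?_⟩
        change c ∈ normalizer ((((P : Subgroup (A.subgroupOf C)).map (A.subgroupOf C).subtype).map C.subtype : Subgroup G) : Set G)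
        rw [← conj_smul_eq_self_iff] at h3 ⊢
        have h4 := map_conj_smul C.subtype ⟨c, hc⟩ ((P : Subgroup (A.subgroupOf C)).map (A.subgroupOf C).subtype)
        rw [h3] at h4
        exact h4.symm
      · intro h3
        have h3' := conj_smul_eq_self_iff.2 h3.2
        rw [← conj_smul_eq_self_iff]
        have h4 := map_conj_smul C.subtype ⟨c, hc⟩ ((P : Subgroup (A.subgroupOf C)).map (A.subgroupOf C).subtype)
        apply Subgroup.map_injective C.subtype_injective
        exact h4.trans h3')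
  -- K = N.map is a π'-group normalized by A_r
  have hKcard : Nat.card (N.map C.subtype) = (A ⊓ C).relIndex C := by
    rw [← Nat.card_congr (N.equivMapOfInjective C.subtype C.subtype_injective).toEquiv, ← hNc.index_eq_card, Subgroup.inf_relIndex_right]
    rfl
  have hdiv : ∀ s : ℕ, s.Prime → s ∣ Nat.card A → s ∣ Nat.card (A ⊓ C : Subgroup G) := by
    intro s hs hsA
    haveI : Fact s.Prime := ⟨hs⟩
    by_cases hsp : s = p
    · subst hsp
      obtain ⟨x, hxA, hx, hxs⟩ := exists_central_prime h.nA hpA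
      rw [← hxs]
      exact Subgroup.orderOf_dvd_natCard _ ⟨hxA, Subgroup.mem_centralizer_iff.2 fun y hy => hx y (hXA' hy)⟩
    · exact (prime_pgroup_dvd hs (sy_pgroup s A) (sy_ne_bot hsA)).trans (Subgroup.card_dvd_of_le (le_inf (sy_le _ _) (hsyC s hs hsp)))
  have hKcop : (Nat.card (N.map C.subtype)).Coprime (Nat.card A) := by
    by_contra hcon
    obtain ⟨s, hs, hs1, hs2⟩ := Nat.Prime.not_coprime_iff_dvd.1 hcon
    haveI : Fact s.Prime := ⟨hs⟩
    have h1 := hnorm s hs (hdiv s hs hs2)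
    have h2 : IsSylowOf s (sy s (A ⊓ C)) C := by
      apply isSylowOf_of_normalizer ((sy_le _ _).trans inf_le_right) (sy_pgroup _ _)
      rw [h1]; exact sy_spec _ _
    apply (isSylowOf_iff.1 h2).2.2
    rw [← Subgroup.relIndex_mul_relIndex (sy s (A ⊓ C)) (A ⊓ C) C (sy_le _ _) inf_le_right, ← hKcard]
    exact Dvd.dvd.mul_left hs1 _
  have hKn : sy r A ≤ normalizer ((N.map C.subtype : Subgroup G) : Set G) := by
    rw [le_normalizer_iff_conj]
    rintro x hx _ ⟨y, hy, rfl⟩
    exact ⟨⟨x, hsyC r hr hrp hx⟩ * y * ⟨x, hsyC r hr hrp hx⟩⁻¹, hN.conj_mem y hy _, rfl⟩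
  have hK := h.P3 hrA hKcop hKn
  rw [hK, Subgroup.card_bot] at hKcard
  have h1 : C ≤ A ⊓ C := Subgroup.relIndex_eq_one.1 hKcard.symm
  exact hCM (h1.trans (inf_le_left.trans le_normalizer))

theorem KW.TI (h : KW A B) {g : G} (hg : g ∉ normalizer (A : Set G)) : A ⊓ MulAut.conj g • A = ⊥ := by
  by_contra hne
  obtain ⟨y, hy, hy1⟩ : ∃ y : G, y ∈ A ⊓ MulAut.conj g • A ∧ y ≠ 1 := by
    obtain ⟨⟨y, hy⟩, hy1⟩ := Subgroup.ne_bot_iff_exists_ne_one.1 hne
    exact ⟨y, hy, fun h2 => hy1 (Subtype.ext h2)⟩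
  obtain ⟨p, k, hp, hk⟩ := exists_prime_power_order hy1
  haveI : Fact p.Prime := ⟨hp⟩
  set x := y ^ k with hx
  have hxA : x ∈ A := A.pow_mem hy.1 k
  have hxg : g⁻¹ * x * g ∈ A := mem_conj_smul.1 ((MulAut.conj g • A).pow_mem hy.2 k)
  have hpA : p ∣ Nat.card A := by rw [← hk]; exact Subgroup.orderOf_dvd_natCard A hxA
  obtain ⟨r, hr, hrp, hrA⟩ := h.twoA p
  haveI : Fact r.Prime := ⟨hr⟩
  have hxpg := isPGroup_zpowers hk
  have hord : orderOf (g⁻¹ * x * g) = p := by
    rw [← hk]
    have : g⁻¹ * x * g = MulAut.conj g⁻¹ x := by simp [MulAut.conj_apply]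
    rw [this]
    exact orderOf_injective (MulAut.conj g⁻¹).toMonoidHom (MulAut.conj g⁻¹).injective _
  have hxpg' := isPGroup_zpowers hord
  have hne1 : zpowers (g⁻¹ * x * g) ≠ ⊥ := by
    intro h1
    rw [Subgroup.zpowers_eq_bot] at h1
    rw [h1, orderOf_one] at hord
    exact hp.ne_one hord.symm
  have h1 := h.main_claim hpA hne1 (le_sy h.nA hxpg' (by rw [Subgroup.zpowers_le]; exact hxg))
  -- A_r centralizes x
  have h2 : sy r A ≤ centralizer (zpowers x : Set G) := sy_le_centralizer h.nA hxpg (by rw [Subgroup.zpowers_le]; exact hxA) hrp.symm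
  -- conj g⁻¹ A_r ≤ M
  have h3 : MulAut.conj g⁻¹ • sy r A ≤ normalizer (A : Set G) := by
    refine le_trans ?_ h1
    intro z hz
    rw [mem_conj_smul, inv_inv] at hz
    apply le_normalizer_of_le_centralizer (le_refl (centralizer (zpowers (g⁻¹ * x * g) : Set G)))
    rw [Subgroup.mem_centralizer_iff]
    rintro _ ⟨i, rfl⟩
    have h4 := Subgroup.mem_centralizer_iff.1 (h2 hz) x (mem_zpowers x)
    have h5 : Commute (g⁻¹ * x * g) z := by
      change (g⁻¹ * x * g) * z = z * (g⁻¹ * x * g)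
      calc (g⁻¹ * x * g) * z = g⁻¹ * (x * (g * z * g⁻¹)) * g := by group
        _ = g⁻¹ * ((g * z * g⁻¹) * x) * g := by rw [h4]
        _ = _ := by group
    exact (Commute.zpow_left h5 i).eq
  have h4 : MulAut.conj g⁻¹ • sy r A ≤ sy r A := 
    le_of_sylowOf_normal (h.sy_sylow hrA ((sy_le r A).trans le_normalizer)) (by rw [h.normalizer_sy hrA]) ((sy_pgroup r A).map _) h3
  have h5 := h.mem_norm_of_sy hrA (h4.trans (sy_le r A))
  apply hg
  have := inv_mem h5
  rwa [inv_inv] at this

theorem KW.card_le (h : KW A B) : Nat.card A ≤ Nat.card B := by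
  have h0 : normalizer (A : Set G) ≠ ⊤ := by
    apply h.not_normal _ h.A_ne_top
    rintro rfl
    obtain ⟨x, hx1, hx2, -⟩ := h.exists_central
    exact hx2 (Subgroup.mem_bot.1 hx1)
  obtain ⟨g, hg⟩ : ∃ g : G, g ∉ normalizer (A : Set G) := by
    by_contra hcon
    push Not at hcon
    exact h0 (eq_top_iff.2 fun x _ => hcon x)
  have h1 := h.TI hg
  have h2 := card_setMul_mul_card_inf A (MulAut.conj g • A)
  rw [h1, Subgroup.card_bot, mul_one, card_conj_smul] at h2
  have h3 := isFact_iff_card.1 h.fact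
  rw [h.inf, Subgroup.card_bot, mul_one] at h3
  have h4 : Nat.card ((A : Set G) * ((MulAut.conj g • A : Subgroup G) : Set G) : Set G) ≤ Nat.card G := Nat.card_le_card_of_injective _ Subtype.val_injective
  rw [h2, h3] at h4
  exact Nat.le_of_mul_le_mul_left h4 Nat.card_pos

theorem KW.false (h : KW A B) : False := by
  have h1 := le_antisymm h.card_le h.symm.card_le
  have h2 := h.cop
  rw [← h1, Nat.coprime_self] at h2
  obtain ⟨x, hx1, hx2, -⟩ := h.exists_central
  exact hx2 (Subgroup.mem_bot.1 ((Subgroup.card_eq_one.1 h2) ▸ hx1))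

end CfsgH1
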