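import Cfsg.Agent.H1.KW2

set_option autoImplicit false

open Cfsg Subgroup
open scoped Pointwise commutatorElement

namespace CfsgH1

universe u v

theorem pre_of_card {G : Type u} [Group G] [Finite G] {A B S : Subgroup G} (hAB : A ⊓ B = ⊥) 
    (h : Nat.card S = Nat.card (A ⊓ S : Subgroup G) * Nat.card (B ⊓ S : Subgroup G)) : Pre A B S := by
  have hA : Nat.card (A.subgroupOf S) = Nat.card (A ⊓ S : Subgroup G) := by
    rw [← Subgroup.subgroupOf_map_subtype A S]
    exact Nat.card_congr ((A.subgroupOf S).equivMapOfInjective S.subtype S.subtype_injective).toEquiv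
  have hB : Nat.card (B.subgroupOf S) = Nat.card (B ⊓ S : Subgroup G) := by
    rw [← Subgroup.subgroupOf_map_subtype B S]
    exact Nat.card_congr ((B.subgroupOf S).equivMapOfInjective S.subtype S.subtype_injective).toEquiv
  have h1 : IsFact (A.subgroupOf S) (B.subgroupOf S) := by
    rw [isFact_iff_card]
    have h2 : A.subgroupOf S ⊓ B.subgroupOf S = ⊥ := by
      rw [eq_bot_iff]
      intro x hx
      have : (x : G) ∈ A ⊓ B := hx
      rw [hAB, Subgroup.mem_bot] at this
      rw [Subgroup.mem_bot]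
      exact Subtype.ext this
    rw [h2, Subgroup.card_bot, mul_one, hA, hB, h]
  intro g hg
  obtain ⟨a, ha, b, hb, hab⟩ := h1 ⟨g, hg⟩
  exact ⟨a, ⟨ha, a.2⟩, b, ⟨hb, b.2⟩, congrArg Subtype.val hab⟩

theorem pre_of_normal {G : Type u} [Group G] [Finite G] {A B N : Subgroup G} [hN : N.Normal] (hcop : (Nat.card A).Coprime (Nat.card B))
    (hf : IsFact A B) : Pre A B N := by
  have hinf : A ⊓ B = ⊥ := inf_eq_bot_of_coprime hcop
  apply pre_of_card hinf
  have hc := isFact_iff_card.1 hf
  rw [hinf, Subgroup.card_bot, mul_one] at hc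
  have hAi : A.index = Nat.card B := by
    rw [← Subgroup.card_mul_index A] at hc
    exact Nat.eq_of_mul_eq_mul_left Nat.card_pos hc
  have hBi : B.index = Nat.card A := by
    rw [← Subgroup.card_mul_index B, mul_comm] at hc
    exact Nat.eq_of_mul_eq_mul_right Nat.card_pos hc
  have h1 := card_mul_relIndex'' (inf_le_right : A ⊓ N ≤ N)
  have h2 := card_mul_relIndex'' (inf_le_right : B ⊓ N ≤ N)
  rw [Subgroup.inf_relIndex_right] at h1 h2
  have h3 : A.relIndex N ∣ Nat.card B := by rw [← hAi]; exact CfsgH3.relIndex_dvd_index_of_normal_right A N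
  have h4 : B.relIndex N ∣ Nat.card A := by rw [← hBi]; exact CfsgH3.relIndex_dvd_index_of_normal_right B N
  have h5 : Nat.card (A ⊓ N : Subgroup G) ∣ Nat.card A := Subgroup.card_dvd_of_le inf_le_left
  have h6 : Nat.card (B ⊓ N : Subgroup G) ∣ Nat.card B := Subgroup.card_dvd_of_le inf_le_left
  have h7 : Nat.card (A ⊓ N : Subgroup G) * A.relIndex N = B.relIndex N * Nat.card (B ⊓ N : Subgroup G) := by
    rw [← h1, h2, mul_comm]
  have h8 := eq_of_mul_eq_mul_coprime h7 (Nat.Coprime.coprime_dvd_left h5 (Nat.Coprime.coprime_dvd_right h6 hcop)) 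
    (Nat.Coprime.coprime_dvd_left h4 (Nat.Coprime.coprime_dvd_right h3 hcop))
  rw [← h8.2]; exact h1

theorem kw_pgroup_side {G : Type u} [Group G] [Finite G] {A B : Subgroup G} (hsimple : ∀ N : Subgroup G, N.Normal → N = ⊥ ∨ N = ⊤) 
    (hns : ¬ Group.IsSolvable G) (hA : Group.IsNilpotent A) (hB : Group.IsNilpotent B) (hcop : (Nat.card A).Coprime (Nat.card B))
    (hf : IsFact A B) : ∀ p : ℕ, ∃ r : ℕ, r.Prime ∧ r ≠ p ∧ r ∣ Nat.card A := by
  by_contra hcon
  push Not at hcon
  obtain ⟨p, hp⟩ := hcon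
  have hp' : ∀ r : ℕ, r.Prime → r ∣ Nat.card A → r = p := by
    intro r hr hrA
    by_contra hne
    exact hp r hr hne hrA
  have htop : ∀ C : Subgroup G, Group.IsNilpotent C → C ≠ ⊤ := by
    rintro C hC rfl
    apply hns
    haveI := hC
    exact Group.isSolvable_of_surjective (G := (⊤ : Subgroup G)) (f := Subgroup.subtype ⊤) (fun x => ⟨⟨x, mem_top x⟩, rfl⟩)
  have hA1 : Nat.card A ≠ 1 := by
    intro h1
    apply htop B hB
    rw [eq_top_iff]
    intro x _
    obtain ⟨a, ha, b, hb, rfl⟩ := hf x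
    rw [Subgroup.card_eq_one.1 h1, Subgroup.mem_bot] at ha
    rw [ha, one_mul]; exact hb
  have hB1 : Nat.card B ≠ 1 := by
    intro h1
    apply htop A hA
    rw [eq_top_iff]
    intro x _
    obtain ⟨a, ha, b, hb, rfl⟩ := hf x
    rw [Subgroup.card_eq_one.1 h1, Subgroup.mem_bot] at hb
    rw [hb, mul_one]; exact ha
  obtain ⟨r, hr, hrA⟩ := Nat.exists_prime_and_dvd hA1
  have hrp := hp' r hr hrA
  subst hrp
  have hcardA := Nat.eq_prime_pow_of_unique_prime_dvd (n := Nat.card A) (p := r) Nat.card_pos.ne' (fun {d} hd hdA => hp' d hd hdA)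
  obtain ⟨q, hq, hqB⟩ := Nat.exists_prime_and_dvd hB1
  haveI : Fact q.Prime := ⟨hq⟩
  obtain ⟨z, hzB, hz, hzq⟩ := exists_central_prime hB hqB
  have hz1 : z ≠ 1 := by
    rintro rfl
    rw [orderOf_one] at hzq
    exact hq.ne_one hzq.symm
  have hBi : B.index = Nat.card A := by
    have hinf : A ⊓ B = ⊥ := inf_eq_bot_of_coprime hcop
    have hc := isFact_iff_card.1 hf
    rw [hinf, Subgroup.card_bot, mul_one] at hc
    rw [← Subgroup.card_mul_index B, mul_comm] at hc
    exact Nat.eq_of_mul_eq_mul_right Nat.card_pos hc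
  have h1 : (centralizer ({z} : Set G)).index ∣ Nat.card A := by
    rw [← hBi]
    apply Subgroup.index_dvd_of_le
    intro b hb
    rw [Subgroup.mem_centralizer_iff]
    rintro _ rfl
    exact (hz b hb).symm
  rw [hcardA] at h1
  obtain ⟨k, -, hk⟩ := (Nat.dvd_prime_pow hr).1 h1
  haveI : Nontrivial G := ⟨z, 1, hz1⟩
  haveI : IsSimpleGroup G := ⟨fun N hN => hsimple N hN⟩
  have h2 := Cfsg.Agent.S0143.result r k hr z hz1 hk
  apply hns
  haveI : Fact (Nat.card G).Prime := ⟨h2⟩
  haveI : IsCyclic G := isCyclic_of_prime_card (p := Nat.card G) rfl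
  exact Group.isSolvable_of_comm fun a b => IsCyclic.commGroup.mul_comm a b

theorem nilp_subgroupOf {G : Type u} [Group G] {A : Subgroup G} (hA : Group.IsNilpotent A) (S : Subgroup G) : Group.IsNilpotent (A.subgroupOf S) := by
  have h1 : Group.IsNilpotent (A ⊓ S : Subgroup G) := isNilpotent_of_le hA inf_le_left
  rw [← Subgroup.subgroupOf_map_subtype] at h1
  exact (Group.isNilpotent_congr ((A.subgroupOf S).equivMapOfInjective S.subtype S.subtype_injective)).2 h1

theorem kw_coprime (n : ℕ) : ∀ (G : Type u) [Group G] [Finite G], Nat.card G = n → ∀ A B : Subgroup G, Group.IsNilpotent A → 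
    Group.IsNilpotent B → (Nat.card A).Coprime (Nat.card B) → IsFact A B → Group.IsSolvable G := by
  induction n using Nat.strong_induction_on with
  | _ n IH =>
  intro G _ _ hn A B hA hB hcop hf
  by_contra hns
  have hpre : ∀ S : Subgroup G, S ≠ ⊤ → Pre A B S → Group.IsSolvable S := by
    intro S hS hp
    refine IH (Nat.card S) (by rw [← hn]; exact card_lt_card_of_ne_top hS) S rfl (A.subgroupOf S) (B.subgroupOf S) ?_ ?_ ?_ ?_
    · exact nilp_subgroupOf hA S
    · exact nilp_subgroupOf hB S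
    · have hA : Nat.card (A.subgroupOf S) ∣ Nat.card A := Subgroup.card_comap_dvd_of_injective A S.subtype S.subtype_injective
      have hB : Nat.card (B.subgroupOf S) ∣ Nat.card B := Subgroup.card_comap_dvd_of_injective B S.subtype S.subtype_injective
      exact Nat.Coprime.coprime_dvd_left hA (Nat.Coprime.coprime_dvd_right hB hcop)
    · rintro ⟨x, hx⟩
      obtain ⟨a, ha, b, hb, hab⟩ := hp x hx
      exact ⟨⟨a, ha.2⟩, ha.1, ⟨b, hb.2⟩, hb.1, Subtype.ext hab⟩
  have hsimple : ∀ N : Subgroup G, N.Normal → N = ⊥ ∨ N = ⊤ := by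
    intro N hN
    by_contra hcon
    push Not at hcon
    haveI := hN
    apply hns
    apply isSolvable_of_normal_quotient N
    · exact hpre N hcon.2 (pre_of_normal hcop hf)
    · refine IH (Nat.card (G ⧸ N)) (by rw [← hn]; exact card_quotient_lt hcon.1) (G ⧸ N) rfl (A.map (QuotientGroup.mk' N)) 
        (B.map (QuotientGroup.mk' N)) (isNilpotent_map _ hA) (isNilpotent_map _ hB) ?_ (hf.map _ (QuotientGroup.mk'_surjective N))
      exact Nat.Coprime.coprime_dvd_left (Subgroup.card_map_dvd A _) (Nat.Coprime.coprime_dvd_right (Subgroup.card_map_dvd B _) hcop)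
  have hKW : KW A B := {
    nA := hA
    nB := hB
    cop := hcop
    fact := hf
    simple := hsimple
    ns := hns
    pre := hpre
    twoA := kw_pgroup_side hsimple hns hA hB hcop hf
    twoB := kw_pgroup_side hsimple hns hB hA hcop.symm hf.symm }
  exact hKW.false

end CfsgH1
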