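import Cfsg.Agent.H1.KW3
import Cfsg.Agent.S0560
import Cfsg.Agent.H1.Prim

set_option autoImplicit false

open Cfsg Subgroup
open scoped Pointwise commutatorElement

namespace CfsgH1

universe u v

theorem isPGroup_of_permute {G : Type u} [Group G] [Finite G] {p : ℕ} [hp : Fact p.Prime] {X Y : Subgroup G} (hX : IsPGroup p X) (hY : IsPGroup p Y) 
    (h : (X : Set G) * (Y : Set G) = (Y : Set G) * (X : Set G)) : IsPGroup p (X ⊔ Y : Subgroup G) := by
  have h1 := coe_sup_of_permute h
  have h2 := card_of_fact_le' (H := X) (K := Y) (T := X ⊔ Y) le_sup_left le_sup_right (by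
    intro t ht
    have : t ∈ ((X ⊔ Y : Subgroup G) : Set G) := ht
    rw [h1] at this
    obtain ⟨a, ha, b, hb, hab⟩ := Set.mem_mul.1 this
    exact ⟨a, ha, b, hb, hab.symm⟩)
  obtain ⟨k, hk⟩ := IsPGroup.iff_card.1 hX
  obtain ⟨l, hl⟩ := IsPGroup.iff_card.1 hY
  have h3 : Nat.card (X ⊔ Y : Subgroup G) ∣ p ^ (k + l) := by
    rw [pow_add, ← hk, ← hl, ← h2]
    exact Dvd.intro _ rfl
  obtain ⟨j, -, hj⟩ := (Nat.dvd_prime_pow hp.out).1 h3
  exact IsPGroup.of_card hj

/-- if the p-subgroup X permutes with all conjugates of the p-subgroup Y then X lies in a p-subgroup normalized by the normal closure of Y -/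
theorem exists_normalized_of_permute {G : Type u} [Group G] [Finite G] {p : ℕ} [hp : Fact p.Prime] {X Y : Subgroup G} (hX : IsPGroup p X) (hY : IsPGroup p Y) 
    (h : ∀ g : G, (X : Set G) * ((MulAut.conj g • Y : Subgroup G) : Set G) = ((MulAut.conj g • Y : Subgroup G) : Set G) * (X : Set G)) : 
    ∃ X₁ : Subgroup G, X ≤ X₁ ∧ IsPGroup p X₁ ∧ normalClosure (Y : Set G) ≤ normalizer (X₁ : Set G) := by
  obtain ⟨X₁, ⟨h1, h2, h3⟩, hmax⟩ := exists_maximal_of_set {X₁ : Subgroup G | X ≤ X₁ ∧ IsPGroup p X₁ ∧ 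
    ∀ g : G, (X₁ : Set G) * ((MulAut.conj g • Y : Subgroup G) : Set G) = ((MulAut.conj g • Y : Subgroup G) : Set G) * (X₁ : Set G)} 
    ⟨X, le_refl _, hX, h⟩
  refine ⟨X₁, h1, h2, ?_⟩
  have key : ∀ g : G, MulAut.conj g • Y ≤ normalizer (X₁ : Set G) := by
    intro g y hy
    have hYg : IsPGroup p (MulAut.conj g • Y : Subgroup G) := hY.map _
    have h4 : MulAut.conj y • X₁ ≤ X₁ ⊔ MulAut.conj g • Y := by
      intro x hx
      rw [mem_conj_smul] at hx
      have : x = y * (y⁻¹ * x * y) * y⁻¹ := by group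
      rw [this]
      exact mul_mem (mul_mem (mem_sup_right hy) (mem_sup_left hx)) (inv_mem (mem_sup_right hy))
    have h5 : IsPGroup p (X₁ ⊔ MulAut.conj y • X₁ : Subgroup G) := 
      (isPGroup_of_permute h2 hYg (h3 g)).to_le (sup_le le_sup_left h4)
    have h6 : X₁ ⊔ MulAut.conj y • X₁ = X₁ := by
      apply hmax _ ⟨h1.trans le_sup_left, h5, ?_⟩ le_sup_left
      intro k
      apply permute_join (h3 k)
      have h7 := permute_conj (h3 (y⁻¹ * k)) y
      rwa [← mul_smul, ← map_mul, mul_inv_cancel_left] at h7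
    rw [← conj_smul_eq_self_iff]
    exact eq_of_le_of_card_le (by rw [← h6] ; exact le_trans (by rw [h6]) le_sup_right |>.trans h6.le |>.trans h6.ge) (by rw [card_conj_smul])
  rw [Subgroup.normalClosure, Subgroup.closure_le]
  intro y hy
  rw [Group.mem_conjugatesOfSet_iff] at hy
  obtain ⟨x, hx, hxy⟩ := hy
  obtain ⟨g, hg⟩ := isConj_iff.1 hxy
  apply key g
  rw [mem_conj_smul, ← hg]
  have : g⁻¹ * (g * x * g⁻¹) * g = x := by group
  rwa [this]

theorem kegel_wielandt (n : ℕ) : ∀ (G : Type u) [Group G] [Finite G], Nat.card G = n → ∀ A B : Subgroup G, Group.IsNilpotent A → 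
    Group.IsNilpotent B → IsFact A B → Group.IsSolvable G := by
  induction n using Nat.strong_induction_on with
  | _ n IH =>
  intro G _ _ hn A B hA hB hf
  by_contra hns
  have hq : ∀ N : Subgroup G, ∀ [N.Normal], N ≠ ⊥ → Group.IsSolvable (G ⧸ N) := by
    intro N hN hne
    exact IH (Nat.card (G ⧸ N)) (by rw [← hn]; exact card_quotient_lt hne) (G ⧸ N) rfl (A.map (QuotientGroup.mk' N)) 
        (B.map (QuotientGroup.mk' N)) (isNilpotent_map _ hA) (isNilpotent_map _ hB) (hf.map _ (QuotientGroup.mk'_surjective N))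
  have hnosol : ∀ N : Subgroup G, ∀ [N.Normal], Group.IsSolvable N → N = ⊥ := by
    intro N hN hs
    by_contra hne
    exact hns (isSolvable_of_normal_quotient N hs (hq N hne))
  by_cases hcop : (Nat.card A).Coprime (Nat.card B)
  · exact hns (kw_coprime (Nat.card G) G rfl A B hA hB hcop hf)
  obtain ⟨p, hp, hpA, hpB⟩ := Nat.Prime.not_coprime_iff_dvd.1 hcop
  haveI : Fact p.Prime := ⟨hp⟩
  have hperm : ∀ g : G, (sy p A : Set G) * ((MulAut.conj g • sy p B : Subgroup G) : Set G) = 
      ((MulAut.conj g • sy p B : Subgroup G) : Set G) * (sy p A : Set G) := by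
    intro g
    obtain ⟨P, Q, R, hR⟩ := Cfsg.Agent.S0560.result A B hf p
    have hP : (P : Subgroup A).map A.subtype = sy p A := sylowOf_unique hA ⟨P, rfl⟩
    have hQ : (Q : Subgroup B).map B.subtype = sy p B := sylowOf_unique hB ⟨Q, rfl⟩
    rw [hP, hQ] at hR
    have h1 := permute_of_coe hR
    obtain ⟨z, hz1, hz2⟩ := fact_sim_conj hf (le_normalizer.trans (normalizer_le_sy hA) : A ≤ normalizer (sy p A : Set G)) 
      (le_normalizer.trans (normalizer_le_sy hB) : B ≤ normalizer (sy p B : Set G)) 1 g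
    rw [map_one, one_smul] at hz1
    have h2 := permute_conj h1 z
    rwa [hz1, hz2] at h2
  obtain ⟨X, hX1, hX2, hX3⟩ := exists_normalized_of_permute (sy_pgroup p A) (sy_pgroup p B) hperm
  set Y := normalClosure (sy p B : Set G) with hY
  have hYne : Y ≠ ⊥ := by
    intro h1
    apply sy_ne_bot hpB
    rw [eq_bot_iff, ← h1]
    exact le_normalClosure
  have hXne : X ≠ ⊥ := by
    rintro rfl
    exact sy_ne_bot hpA (le_bot_iff.1 hX1)
  -- X ∩ Y = 1
  have hXY : X ⊓ Y = ⊥ := by
    by_contra hne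
    have h1 : Y ≤ normalizer ((X ⊓ Y : Subgroup G) : Set G) := le_normalizer_inf hX3 (le_normalizer_of_normal Y Y)
    have h2 : IsPGroup p (X ⊓ Y : Subgroup G) := hX2.to_le inf_le_left
    have h3 : (pCore p Y).map Y.subtype = ⊥ := by
      haveI : ((pCore p Y).map Y.subtype).Normal := normal_map_characteristic (pCore p Y)
      apply hnosol
      have h4 : IsPGroup p ((pCore p Y).map Y.subtype) := (isPGroup_pCore' (G := Y)).map _
      exact isSolvable_of_isPGroup h4
    apply hne
    rw [eq_bot_iff, ← h3]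
    intro x hx
    refine ⟨⟨x, hx.2⟩, ?_, rfl⟩
    apply le_sSup (α := Subgroup Y) (a := (X ⊓ Y).subgroupOf Y) _ hx
    exact ⟨normal_subgroupOf_of_le_normalizer h1, h2.comap_subtype⟩
  have hXC : X ≤ centralizer (Y : Set G) := by
    rw [le_centralizer_iff_commutator, eq_bot_iff, ← hXY]
    refine le_inf ?_ ?_
    · rw [← Subgroup.le_normalizer_iff_commutator_le_left]; exact hX3
    · rw [commutator_comm, ← Subgroup.le_normalizer_iff_commutator_le_left]; exact le_normalizer_of_normal X Y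
  set D := centralizer (Y : Set G) with hD
  have hDne : D ≠ ⊥ := by
    intro h1
    exact hXne (le_bot_iff.1 (h1 ▸ hXC))
  haveI hDn : D.Normal := inferInstance
  have hDY : D ⊓ Y = ⊥ := by
    apply hnosol
    exact Group.isSolvable_of_comm fun a b => Subtype.ext (Subgroup.mem_centralizer_iff.1 b.2.1 a a.2.2)
  apply hns
  haveI := hq D hDne
  haveI := hq Y hYne
  have hinj : Function.Injective ((QuotientGroup.mk' D).prod (QuotientGroup.mk' Y)) := by
    rw [injective_iff_map_eq_one]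
    intro x hx
    have h1 := congrArg Prod.fst hx
    have h2 := congrArg Prod.snd hx
    have h3 : x ∈ D := (QuotientGroup.eq_one_iff x).1 h1
    have h4 : x ∈ Y := (QuotientGroup.eq_one_iff x).1 h2
    have h5 : x ∈ D ⊓ Y := ⟨h3, h4⟩
    rwa [hDY, Subgroup.mem_bot] at h5
  exact Group.isSolvable_of_isSolvable_injective hinj

end CfsgH1
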