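import Cfsg.Agent.H1.ConjAct
import Cfsg.Agent.H1.Basic

set_option autoImplicit false

/-! Maschke's theorem for coprime action on abelian groups -/

open Subgroup
open scoped Pointwise commutatorElement

namespace CfsgH1

universe u v

theorem maschke_abs {A V : Type*} [Group A] [Finite A] [CommGroup V] [Finite V] [MulDistribMulAction A V] (hcop : (Nat.card A).Coprime (Nat.card V)) 
    (U W : Subgroup V) (hU : ∀ (a : A), ∀ u ∈ U, a • u ∈ U) (hUW : U ⊓ W = ⊥) (hs : U ⊔ W = ⊤) : 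
    ∃ W' : Subgroup V, (∀ (a : A), ∀ w ∈ W', a • w ∈ W') ∧ U ⊓ W' = ⊥ ∧ U ⊔ W' = ⊤ := by
  classical
  haveI : Fintype A := Fintype.ofFinite A
  -- projection
  have hex : ∀ v : V, ∃ u ∈ U, u⁻¹ * v ∈ W := by
    intro v
    obtain ⟨u, hu, w, hw, hv⟩ := Subgroup.mem_sup.1 (hs ▸ mem_top v : v ∈ U ⊔ W)
    exact ⟨u, hu, by rw [← hv, inv_mul_cancel_left]; exact hw⟩
  have huniq : ∀ v u u' : V, u ∈ U → u' ∈ U → u⁻¹ * v ∈ W → u'⁻¹ * v ∈ W → u = u' := by
    intro v u u' hu hu' h1 h2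
    have h3 : u⁻¹ * u' ∈ U ⊓ W := by
      refine ⟨U.mul_mem (U.inv_mem hu) hu', ?_⟩
      have := W.mul_mem h1 (W.inv_mem h2)
      have e : u⁻¹ * v * (u'⁻¹ * v)⁻¹ = u⁻¹ * u' := by group
      rw [e] at this
      exact this
    rw [hUW, Subgroup.mem_bot] at h3
    exact inv_mul_eq_one.1 h3
  choose π hπU hπW using hex
  let P : V →* V := 
    { toFun := π
      map_one' := huniq 1 _ _ (hπU 1) U.one_mem (hπW 1) (by simp)
      map_mul' := by
        intro x y
        apply huniq (x * y) _ _ (hπU _) (U.mul_mem (hπU x) (hπU y)) (hπW _)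
        have := W.mul_mem (hπW x) (hπW y)
        have e : (π x)⁻¹ * x * ((π y)⁻¹ * y) = (π x * π y)⁻¹ * (x * y) := by
          rw [mul_inv]; exact mul_mul_mul_comm _ _ _ _
        rwa [e] at this }
  have hPU : ∀ v, P v ∈ U := hπU
  have hPid : ∀ u ∈ U, P u = u := fun u hu => huniq u _ _ (hπU u) hu (hπW u) (by rw [inv_mul_cancel]; exact W.one_mem)
  let T : V →* V := 
    { toFun := fun v => ∏ a : A, a • P (a⁻¹ • v)
      map_one' := by simp
      map_mul' := by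
        intro x y
        rw [← Finset.prod_mul_distrib]
        apply Finset.prod_congr rfl
        intro a _
        rw [smul_mul', map_mul, smul_mul'] }
  have hTU : ∀ v, T v ∈ U := fun v => Subgroup.prod_mem _ (fun a _ => hU a _ (hPU _))
  have hTu : ∀ u ∈ U, T u = u ^ Nat.card A := by
    intro u hu
    change ∏ a : A, a • P (a⁻¹ • u) = _
    rw [Finset.prod_congr rfl (fun a _ => by rw [hPid _ (hU _ _ hu), smul_inv_smul] : ∀ a ∈ Finset.univ, a • P (a⁻¹ • u) = u)]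
    rw [Finset.prod_const, Finset.card_univ, Nat.card_eq_fintype_card]
  have hTeq : ∀ (b : A) (v : V), T (b • v) = b • T v := by
    intro b v
    change ∏ a : A, a • P (a⁻¹ • b • v) = b • ∏ a : A, a • P (a⁻¹ • v)
    rw [Finset.smul_prod']
    rw [← Equiv.prod_comp (Equiv.mulLeft b)]
    apply Finset.prod_congr rfl
    intro a _
    change (b * a) • P ((b * a)⁻¹ • b • v) = b • a • P (a⁻¹ • v)
    rw [mul_smul, mul_inv_rev, mul_smul, inv_smul_smul]
  obtain ⟨m, hm⟩ : ∃ m : ℤ, ∀ v : V, v ^ ((Nat.card A : ℤ) * m) = v := by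
    refine ⟨(Nat.card A).gcdA (Nat.card V), fun v => ?_⟩
    have h4 : (1 : ℤ) = (Nat.card A : ℤ) * (Nat.card A).gcdA (Nat.card V) + (Nat.card V : ℤ) * (Nat.card A).gcdB (Nat.card V) := by
      have := Nat.gcd_eq_gcd_ab (Nat.card A) (Nat.card V)
      rw [hcop] at this
      exact_mod_cast this
    have h5 : v ^ (1 : ℤ) = v := zpow_one v
    conv_rhs => rw [← h5, h4, zpow_add, zpow_mul v (Nat.card V : ℤ), zpow_natCast, pow_card_eq_one', one_zpow, mul_one]
  refine ⟨T.ker, ?_, ?_, ?_⟩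
  · intro a w hw
    rw [MonoidHom.mem_ker] at hw ⊢
    rw [hTeq, hw, smul_one]
  · rw [Subgroup.eq_bot_iff_forall]
    rintro u ⟨hu1, hu2⟩
    have h1 : T u = 1 := hu2
    rw [hTu u hu1] at h1
    rw [← hm u, zpow_mul, zpow_natCast, h1, one_zpow]
  · rw [eq_top_iff]
    intro v _
    have h1 : (T v) ^ m ∈ U := U.zpow_mem (hTU v) m
    have h2 : ((T v) ^ m)⁻¹ * v ∈ T.ker := by
      rw [MonoidHom.mem_ker, map_mul, map_inv, hTu _ h1, ← zpow_natCast, ← zpow_mul, mul_comm m, hm, inv_mul_cancel]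
    have h3 : v = (T v) ^ m * (((T v) ^ m)⁻¹ * v) := by group
    rw [h3]
    exact Subgroup.mul_mem_sup h1 h2

theorem maschke {G : Type*} [Group G] [Finite G] {V A U W : Subgroup G} (hV : ∀ x ∈ V, ∀ y ∈ V, x * y = y * x) (hAV : A ≤ normalizer (V : Set G)) 
    (hcop : (Nat.card A).Coprime (Nat.card V)) (hUV : U ≤ V) (hAU : A ≤ normalizer (U : Set G)) (hWV : W ≤ V) (hUW : U ⊓ W = ⊥) (hs : U ⊔ W = V) : 
    ∃ W' : Subgroup G, W' ≤ V ∧ A ≤ normalizer (W' : Set G) ∧ U ⊓ W' = ⊥ ∧ U ⊔ W' = V := by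
  letI : CommGroup V := { (inferInstance : Group V) with mul_comm := fun x y => Subtype.ext (hV x x.2 y y.2) }
  letI : MulDistribMulAction A V := conjMDMA hAV
  have hact : ∀ (e : A) (w : V), ((e • w : V) : G) = e * w * (e : G)⁻¹ := fun e w => rfl
  obtain ⟨W', h1, h2, h3⟩ := maschke_abs (A := A) (V := V) hcop (U.subgroupOf V) (W.subgroupOf V) (by
    intro a u hu
    rw [Subgroup.mem_subgroupOf] at hu ⊢
    rw [hact]
    exact le_normalizer_iff_conj.1 hAU a a.2 u hu) (by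
    rw [Subgroup.eq_bot_iff_forall]
    rintro x ⟨hx1, hx2⟩
    have hx : (x : G) ∈ U ⊓ W := ⟨hx1, hx2⟩
    rw [hUW, Subgroup.mem_bot] at hx
    exact Subtype.ext hx) (by
    rw [← Subgroup.subgroupOf_sup hUV hWV, hs, Subgroup.subgroupOf_self])
  refine ⟨W'.map V.subtype, Subgroup.map_subtype_le _, ?_, ?_, ?_⟩
  · rw [le_normalizer_iff_conj]
    rintro a ha _ ⟨w, hw, rfl⟩
    exact ⟨_, h1 ⟨a, ha⟩ w hw, rfl⟩
  · rw [Subgroup.eq_bot_iff_forall]
    rintro _ ⟨hx1, ⟨w, hw, rfl⟩⟩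
    have : w ∈ U.subgroupOf V ⊓ W' := ⟨hx1, hw⟩
    rw [h2, Subgroup.mem_bot] at this
    rw [this]; rfl
  · have h4 := congrArg (Subgroup.map V.subtype) h3
    rw [Subgroup.map_sup, Subgroup.map_subgroupOf_eq_of_le hUV, ← MonoidHom.range_eq_map, Subgroup.range_subtype] at h4
    exact h4

end CfsgH1
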