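import Cfsg.Agent.H1.PNilp
import Cfsg.Agent.H1.SZ3
import Cfsg.Agent.H1.Frat
import Cfsg.Agent.H1.Bender
import Cfsg.Agent.H2.LocalQ

set_option autoImplicit false

open Cfsg Subgroup
open scoped Pointwise commutatorElement

namespace CfsgH1

universe u v

variable {G : Type u} [Group G] {p : ℕ}

/-- abelian Sylow subgroup with `p`-nilpotent normalizer -/
theorem npc_of_abelian_sylow [Finite G] [hp : Fact p.Prime] (P : Sylow p G) (hab : IsMulCommutative (P : Subgroup G)) (hN : HasNormalPComplement p (normalizer ((P : Subgroup G) : Set G))) : HasNormalPComplement p G := by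
  apply burnside_npc P
  set N := normalizer ((P : Subgroup G) : Set G) with hNdef
  obtain ⟨K, hK, hKp, k, hk⟩ := hasNPC_iff.1 hN
  have hPN : (P : Subgroup G) ≤ N := le_normalizer
  -- K centralizes P
  have hPn : ((P : Subgroup G).subgroupOf N).Normal := normal_subgroupOf_of_le_normalizer le_rfl
  have hPp : IsPGroup p ((P : Subgroup G).subgroupOf N) := P.isPGroup'.comap_subtype
  have hinf : (P : Subgroup G).subgroupOf N ⊓ K = ⊥ := by
    apply inf_eq_bot_of_coprime
    obtain ⟨j, hj⟩ := IsPGroup.iff_card.1 hPp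
    rw [hj]
    exact Nat.Coprime.pow_left j ((Nat.Prime.coprime_iff_not_dvd hp.out).2 hKp)
  have hcomm : ∀ x ∈ (P : Subgroup G).subgroupOf N, ∀ y ∈ K, x * y = y * x := by
    intro x hx y hy
    have h1 : ⁅x, y⁆ ∈ (P : Subgroup G).subgroupOf N ⊓ K := by
      have h2 := (Subgroup.commutator_le_inf ((P : Subgroup G).subgroupOf N) K) (Subgroup.commutator_mem_commutator hx hy)
      exact h2
    rw [hinf, Subgroup.mem_bot, commutatorElement_eq_one_iff_mul_comm] at h1
    exact h1
  -- N = K P
  have htop : K ⊔ (P : Subgroup G).subgroupOf N = ⊤ := by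
    have h1 := hasNPC_isComplement' hKp hk (P.subtype hPN)
    have h2 := h1.sup_eq_top
    exact h2
  intro n hn
  rw [mem_centralizer_iff]
  intro x hx
  have h1 : (⟨n, hn⟩ : N) ∈ K ⊔ (P : Subgroup G).subgroupOf N := by rw [htop]; exact Subgroup.mem_top _
  rw [← SetLike.mem_coe, Subgroup.mul_normal] at h1
  obtain ⟨y, hy, z, hz, e⟩ := h1
  have h2 := hcomm ⟨x, hPN hx⟩ (mem_subgroupOf.2 hx) y hy
  have h3 : x * (z : G) = z * x := congrArg Subtype.val (hab.is_comm.comm (⟨x, hx⟩ : (P : Subgroup G)) ⟨z, mem_subgroupOf.1 hz⟩)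
  have h4 : x * (y : G) = y * x := congrArg Subtype.val h2
  have e' : (y : G) * z = n := congrArg Subtype.val e
  rw [← e', ← mul_assoc, h4, mul_assoc, h3, mul_assoc]

theorem npc_step [Finite G] [hp : Fact p.Prime] (P : Sylow p G) (hN : HasNormalPComplement p (normalizer ((P : Subgroup G) : Set G))) (Q : Subgroup G) [hQn : Q.Normal] 
    (h1 : ⁅(P : Subgroup G), (P : Subgroup G)⁆ ≤ Q) (hQP : Q ≤ P) (h2 : ∀ X : Subgroup G, X ≤ P → X ⊔ Q = P → X = P) : HasNormalPComplement p G := by
  have hQp : IsPGroup p Q := P.isPGroup'.to_le hQP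
  -- quotient
  set f := QuotientGroup.mk' Q with hf
  have hfs : Function.Surjective f := QuotientGroup.mk'_surjective Q
  set P' : Sylow p (G ⧸ Q) := P.mapSurjective hfs with hP'
  have hP'c : (P' : Subgroup (G ⧸ Q)) = (P : Subgroup G).map f := rfl
  have hab : IsMulCommutative (P' : Subgroup (G ⧸ Q)) := by
    refine ⟨⟨?_⟩⟩
    rintro ⟨_, x, hx, rfl⟩ ⟨_, y, hy, rfl⟩
    apply Subtype.ext
    change f x * f y = f y * f x
    rw [← commutatorElement_eq_one_iff_mul_comm, ← map_commutatorElement]
    exact (QuotientGroup.eq_one_iff _).2 (h1 (Subgroup.commutator_mem_commutator hx hy))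
  have hNq : HasNormalPComplement p (normalizer ((P' : Subgroup (G ⧸ Q)) : Set (G ⧸ Q))) := by
    have h3 := CfsgH2.comap_normalizer_map Q (P : Subgroup G)
    rw [sup_eq_left.2 hQP] at h3
    have h4 := congrArg (Subgroup.map f) h3
    rw [Subgroup.map_comap_eq_self_of_surjective hfs] at h4
    rw [hP'c, h4]
    exact hasNPC_surjective hN (f.subgroupMap (normalizer ((P : Subgroup G) : Set G))) (f.subgroupMap_surjective _)
  obtain ⟨L', hL'n, hL'p, k, hk⟩ := hasNPC_iff.1 (npc_of_abelian_sylow P' hab hNq)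
  set L := L'.comap f with hL
  haveI hLn : L.Normal := hL'n.comap f
  have hQL : Q ≤ L := by
    intro x hx
    rw [hL, Subgroup.mem_comap, show f x = 1 from (QuotientGroup.eq_one_iff x).2 hx]
    exact L'.one_mem
  have hLi : L.index = p ^ k := by rw [hL, Subgroup.index_comap_of_surjective _ hfs, hk]
  have hLc : Nat.card L = Nat.card L' * Nat.card Q := by
    have h5 := card_map_mul_card_ker_of_le f L (by rw [hf, QuotientGroup.ker_mk']; exact hQL)
    rw [hL, Subgroup.map_comap_eq_self_of_surjective hfs, hf, QuotientGroup.ker_mk'] at h5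
    exact h5.symm
  have hcop : (Nat.card Q).Coprime (Nat.card L') := by
    obtain ⟨j, hj⟩ := IsPGroup.iff_card.1 hQp
    rw [hj]
    exact Nat.Coprime.pow_left j ((Nat.Prime.coprime_iff_not_dvd hp.out).2 hL'p)
  -- complement
  obtain ⟨R', hR'⟩ := Subgroup.exists_right_complement'_of_coprime (N := Q.subgroupOf L) (by
    have h5 : (Q.subgroupOf L).index = Nat.card L' := by
      have h6 := (Q.subgroupOf L).card_mul_index
      rw [card_subgroupOf hQL, hLc, mul_comm (Nat.card L')] at h6
      exact Nat.eq_of_mul_eq_mul_left Nat.card_pos h6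
    rw [card_subgroupOf hQL, h5]
    exact hcop)
  set R := R'.map L.subtype with hR
  have hRL : R ≤ L := Subgroup.map_subtype_le _
  have hRc : Nat.card R = Nat.card L' := by
    rw [hR, Subgroup.card_map_of_injective (Subgroup.subtype_injective L)]
    have h6 := hR'.card_mul_card
    rw [card_subgroupOf hQL, hLc, mul_comm (Nat.card L')] at h6
    exact Nat.eq_of_mul_eq_mul_left Nat.card_pos h6
  have hQR : Q ⊓ R = ⊥ := inf_eq_bot_of_coprime (by rw [hRc]; exact hcop)
  have hQRL : Q ⊔ R = L := by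
    apply Subgroup.eq_of_le_of_card_ge (sup_le hQL hRL)
    have h6 := card_sup_mul_card_inf (H := R) (K := Q) (le_normalizer_of_normal R Q)
    rw [inf_comm, hQR, Subgroup.card_bot, mul_one, hRc, sup_comm] at h6
    rw [h6, hLc]
  -- Frattini
  have hfr : ∀ g : G, ∃ q ∈ Q, q * g ∈ normalizer (R : Set G) := by
    intro g
    obtain ⟨q, hq, hq2⟩ := sz_conj_internal (N := Q) (H := MulAut.conj g • R) (K := R) (le_normalizer_of_normal _ Q) (le_normalizer_of_normal _ Q)
      (by rw [card_conj_smul, hRc]; exact hcop) (Or.inl (isSolvable_of_isPGroup hQp)) (by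
        have h7 : MulAut.conj g • (Q ⊔ R) = Q ⊔ R := by rw [hQRL]; exact conj_smul_of_normal g
        rw [conj_smul_sup, conj_smul_of_normal g] at h7
        exact h7) hQR
    refine ⟨q, hq, ?_⟩
    apply conj_smul_eq_self_iff.1
    rw [map_mul, mul_smul]
    exact hq2
  have hPR : (P : Subgroup G) ≤ normalizer (R : Set G) := by
    have h8 : (normalizer (R : Set G) ⊓ (P : Subgroup G)) ⊔ Q = P := by
      apply le_antisymm (sup_le inf_le_right hQP)
      intro x hx
      obtain ⟨q, hq, hqx⟩ := hfr x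
      have hqP := hQP hq
      have h9 : x = q⁻¹ * (q * x) := by group
      rw [h9]
      exact mul_mem (mem_sup_right (inv_mem hq)) (mem_sup_left ⟨hqx, mul_mem hqP hx⟩)
    have h11 := h2 _ inf_le_right h8
    exact inf_eq_right.1 h11
  have hRn : R.Normal := by
    rw [← Subgroup.normalizer_eq_top_iff, eq_top_iff]
    intro g _
    obtain ⟨q, hq, hqg⟩ := hfr g
    have : g = q⁻¹ * (q * g) := by group
    rw [this]
    exact mul_mem (inv_mem (hPR (hQP hq))) hqg
  refine hasNPC_iff.2 ⟨R, hRn, ?_, ?_⟩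
  · rw [hRc]; exact hL'p
  · obtain ⟨j, hj⟩ := IsPGroup.iff_card.1 hQp
    refine ⟨j + k, ?_⟩
    have h12 := R.card_mul_index
    have h13 := L.card_mul_index
    rw [← h13, hLc, hLi, hj, ← hRc] at h12
    apply Nat.eq_of_mul_eq_mul_left (Nat.card_pos (α := R))
    rw [h12, pow_add]; ring

theorem npc_normalizer [Finite G] [hp : Fact p.Prime] (P : Sylow p G) (hN : HasNormalPComplement p (normalizer ((P : Subgroup G) : Set G))) (Q : Subgroup G)
    (h1 : ⁅(P : Subgroup G), (P : Subgroup G)⁆ ≤ Q) (hQP : Q ≤ P) (h2 : ∀ X : Subgroup G, X ≤ P → X ⊔ Q = P → X = P) : HasNormalPComplement p (normalizer (Q : Set G)) := by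
  set N := normalizer (Q : Set G) with hNdef
  have hPN : (P : Subgroup G) ≤ N := by
    intro x hx
    rw [hNdef, mem_normalizer_iff]
    have key : ∀ x ∈ (P : Subgroup G), ∀ y ∈ Q, x * y * x⁻¹ ∈ Q := by
      intro x hx y hy
      have h3 : ⁅x, y⁆ * y = x * y * x⁻¹ := by rw [commutatorElement_def]; group
      rw [← h3]
      exact mul_mem (h1 (Subgroup.commutator_mem_commutator hx (hQP hy))) hy
    intro y
    refine ⟨key x hx y, fun h => ?_⟩
    have := key x⁻¹ (inv_mem hx) _ h
    have e : x⁻¹ * (x * y * x⁻¹) * x⁻¹⁻¹ = y := by group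
    rwa [e] at this
  have hQN : Q ≤ N := le_normalizer
  haveI hQn : (Q.subgroupOf N).Normal := normal_subgroupOf_of_le_normalizer le_rfl
  have hcoe : ((P.subtype hPN : Sylow p N) : Subgroup N) = (P : Subgroup G).subgroupOf N := rfl
  apply npc_step (P.subtype hPN) _ (Q.subgroupOf N)
  · rw [hcoe]
    have h3 : ⁅(P : Subgroup G).subgroupOf N, (P : Subgroup G).subgroupOf N⁆.map N.subtype ≤ Q := by
      rw [Subgroup.map_commutator, Subgroup.map_subgroupOf_eq_of_le hPN]
      exact h1
    exact Subgroup.map_le_iff_le_comap.1 h3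
  · rw [hcoe]
    exact Subgroup.comap_mono hQP
  · intro X hX hXQ
    rw [hcoe] at hX hXQ ⊢
    have h3 := congrArg (Subgroup.map N.subtype) hXQ
    rw [Subgroup.map_sup, Subgroup.map_subgroupOf_eq_of_le hPN, Subgroup.map_subgroupOf_eq_of_le hQN] at h3
    have h4 := h2 _ (by
      have := Subgroup.map_mono (f := N.subtype) hX
      rwa [Subgroup.map_subgroupOf_eq_of_le hPN] at this) h3
    apply Subgroup.map_injective (Subgroup.subtype_injective N)
    rw [h4, Subgroup.map_subgroupOf_eq_of_le hPN]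
  · have hS : (normalizer (((P.subtype hPN : Sylow p N) : Subgroup N) : Set N)).map N.subtype ≤ normalizer ((P : Subgroup G) : Set G) := by
      rw [hcoe]
      have h5 := Subgroup.le_normalizer_map (H := (P : Subgroup G).subgroupOf N) N.subtype
      rwa [Subgroup.map_subgroupOf_eq_of_le hPN] at h5
    have h6 := hasNPC_subgroup hN (((normalizer (((P.subtype hPN : Sylow p N) : Subgroup N) : Set N)).map N.subtype).subgroupOf (normalizer ((P : Subgroup G) : Set G)))
    have e1 := Subgroup.subgroupOfEquivOfLe hS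
    have e2 := (normalizer (((P.subtype hPN : Sylow p N) : Subgroup N) : Set N)).equivMapOfInjective N.subtype (Subgroup.subtype_injective N)
    exact hasNPC_congr (e1.trans e2.symm) h6

end CfsgH1
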