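import Mathlib
import Cfsg.Agent.H1.CopExtra
import Cfsg.Agent.H1.Frat
import Cfsg.Agent.H1.FrobCenter
import Cfsg.Agent.H1.Ito

/-! # Odd order actions on `2`-groups trivial on elements of order at most 4 -/

set_option autoImplicit false

namespace CfsgH1

open Subgroup Cfsg
open scoped commutatorElement

universe u
variable {G : Type u} [Group G]

theorem centralizes_of_pow4 [Finite G] (n : ℕ) : ∀ {A P : Subgroup G}, Nat.card P = n → IsPGroup 2 P →
    Odd (Nat.card A) → A ≤ normalizer (P : Set G) → (∀ x ∈ P, x ^ 4 = 1 → ∀ a ∈ A, a * x = x * a) →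
    A ≤ centralizer (P : Set G) := by
  induction n using Nat.strong_induction_on with
  | _ n ih =>
  intro A P hn hP hA hAP h4
  by_contra hne
  have hcop : ∀ R : Subgroup G, R ≤ P → (Nat.card A).Coprime (Nat.card R) := by
    intro R hR
    obtain ⟨k, hk⟩ := IsPGroup.iff_card.1 (hP.to_le hR)
    rw [hk]
    exact Nat.Coprime.pow_right k (Nat.coprime_two_right.2 hA)
  have hsol : Group.IsSolvable P := by
    haveI := hP.isNilpotent
    infer_instance
  have hIH : ∀ R : Subgroup G, R < P → A ≤ normalizer (R : Set G) → A ≤ centralizer (R : Set G) := by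
    intro R hR hAR
    have hc : Nat.card R < Nat.card P := by
      refine lt_of_le_of_ne (Nat.card_le_card_of_injective _ (Subgroup.inclusion_injective hR.le)) ?_
      intro h
      exact hR.ne (Subgroup.eq_of_le_of_card_ge hR.le h.ge)
    exact ih _ (hn ▸ hc) rfl (hP.to_le hR.le) hA hAR (fun x hx => h4 x (hR.le hx))
  have hPA : ⁅P, A⁆ ≤ P := by
    rw [← Subgroup.le_normalizer_iff_commutator_le_left]; exact hAP
  have hcomm : ⁅P, A⁆ = P := by
    by_contra hne'
    have hlt := lt_of_le_of_ne hPA hne'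
    have h1 : A ≤ normalizer ((⁅P, A⁆ : Subgroup G) : Set G) := le_normalizer_commutator_right P A
    have h2 := hIH _ hlt h1
    have h3 : ⁅⁅P, A⁆, A⁆ = ⊥ := by
      rw [commutator_comm, ← le_centralizer_iff_commutator]; exact h2
    have h4' := coprime_commutator_eq_bot hAP (hcop P le_rfl) (Or.inr hsol) h3
    apply hne
    rw [le_centralizer_iff_commutator, commutator_comm]; exact h4'
  set D := (frattini P).map P.subtype with hD
  have hDP : D ≤ P := Subgroup.map_subtype_le _
  have hAD : A ≤ normalizer (D : Set G) := hAP.trans (normalizer_le_map_characteristic _)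
  have hP1 : P ≠ ⊥ := by
    rintro rfl
    apply hne
    intro a _
    rw [mem_centralizer_iff]
    intro x hx
    rw [mem_bot.1 hx, one_mul, mul_one]
  have hDlt : D < P := by
    refine lt_of_le_of_ne hDP ?_
    intro h
    have h1 : frattini P = ⊤ := by
      apply Subgroup.map_injective P.subtype_injective
      rw [← hD, h, ← MonoidHom.range_eq_map, Subgroup.range_subtype]
    have h2 : (⊥ : Subgroup P) = ⊤ := eq_top_of_sup_frattini (F := frattini P) le_rfl (by rw [h1, sup_top_eq])
    apply hP1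
    rw [eq_bot_iff]
    intro x hx
    have h3 : (⟨x, hx⟩ : P) ∈ (⊥ : Subgroup P) := h2.ge (mem_top _)
    rw [mem_bot] at h3 ⊢
    exact congrArg Subtype.val h3
  have hADc := hIH D hDlt hAD
  haveI := hP.isNilpotent
  have hPD : ⁅P, D⁆ ≤ D := by
    rw [commutator_comm, ← Subgroup.le_normalizer_iff_commutator_le_left]
    exact Subgroup.le_normalizer.trans (normalizer_le_map_characteristic _)
  have hPDbot : ⁅P, D⁆ = ⊥ := by
    have h1 : ⁅⁅A, D⁆, P⁆ = ⊥ := by
      have : ⁅A, D⁆ = ⊥ := le_centralizer_iff_commutator.1 hADc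
      rw [this, commutator_bot_left]
    have h2 : ⁅⁅D, P⁆, A⁆ = ⊥ := by
      rw [commutator_comm D P, commutator_comm, ← le_centralizer_iff_commutator]
      exact hADc.trans (Subgroup.centralizer_le hPD)
    have h3 := commutator_commutator_eq_bot_of_rotate h1 h2
    rwa [hcomm] at h3
  have hDc : ∀ d ∈ D, ∀ x ∈ P, x * d = d * x := by
    intro d hd x hx
    have h1 : P ≤ centralizer (D : Set G) := le_centralizer_iff_commutator.2 hPDbot
    exact (mem_centralizer_iff.1 (h1 hx) d hd).symm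
  have hsq : ∀ x ∈ P, x ^ 2 ∈ D := fun x hx => ⟨⟨x, hx⟩ ^ 2, pow_mem_frattini hP _, rfl⟩
  have hcd : ∀ x ∈ P, ∀ y ∈ P, ⁅x, y⁆ ∈ D := fun x hx y hy =>
    ⟨⁅⟨x, hx⟩, ⟨y, hy⟩⁆, commutator_le_frattini (commutator_mem_commutator (mem_top _) (mem_top _)), rfl⟩
  have hfour : ∀ u ∈ P, ∀ v ∈ P, (u * v) ^ 4 = u ^ 4 * v ^ 4 := by
    intro u hu v hv
    obtain ⟨c, hc, hvu⟩ : ∃ c ∈ D, v * u = c * (u * v) := ⟨⁅v, u⁆, hcd v hv u hu, by rw [commutatorElement_def]; group⟩
    have e1 : ∀ x ∈ P, x * c = c * x := hDc c hc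
    have hu2 := hDc _ (hsq u hu)
    have hv2 := hDc _ (hsq v hv)
    -- c ^ 2 = 1
    have hc2 : c * c = 1 := by
      have h1 : v ^ 2 * u = c * c * (u * v ^ 2) := by
        calc v ^ 2 * u = v * (v * u) := by rw [sq, mul_assoc]
          _ = v * (c * (u * v)) := by rw [hvu]
          _ = (v * c) * u * v := by simp only [mul_assoc]
          _ = (c * v) * u * v := by rw [e1 v hv]
          _ = c * (v * u) * v := by simp only [mul_assoc]
          _ = c * (c * (u * v)) * v := by rw [hvu]
          _ = _ := by simp only [sq, mul_assoc]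
      rw [← hv2 u hu] at h1
      have h2 : 1 * (u * v ^ 2) = c * c * (u * v ^ 2) := by rw [one_mul]; exact h1
      exact (mul_right_cancel h2).symm
    have h2 : (u * v) ^ 2 = c * (u ^ 2 * v ^ 2) := by
      calc (u * v) ^ 2 = u * (v * u) * v := by simp only [sq, mul_assoc]
        _ = u * (c * (u * v)) * v := by rw [hvu]
        _ = (u * c) * u * v * v := by simp only [mul_assoc]
        _ = (c * u) * u * v * v := by rw [e1 u hu]
        _ = _ := by simp only [sq, mul_assoc]
    have hmem : u ^ 2 * v ^ 2 ∈ P := mul_mem (pow_mem hu 2) (pow_mem hv 2)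
    calc (u * v) ^ 4 = (u * v) ^ 2 * (u * v) ^ 2 := by rw [← pow_add]
      _ = c * ((u ^ 2 * v ^ 2) * c) * (u ^ 2 * v ^ 2) := by rw [h2]; simp only [mul_assoc]
      _ = c * (c * (u ^ 2 * v ^ 2)) * (u ^ 2 * v ^ 2) := by rw [e1 _ hmem]
      _ = (c * c) * (u ^ 2 * (v ^ 2 * u ^ 2) * v ^ 2) := by simp only [mul_assoc]
      _ = (c * c) * (u ^ 2 * (u ^ 2 * v ^ 2) * v ^ 2) := by rw [hu2 _ (pow_mem hv 2)]
      _ = u ^ 4 * v ^ 4 := by
          have e4 : ∀ y : G, y ^ 4 = y ^ 2 * y ^ 2 := fun y => by rw [← pow_add]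
          rw [hc2, one_mul, e4, e4]; simp only [mul_assoc]
  apply hne
  have hall : ⁅P, A⁆ ≤ centralizer (A : Set G) := by
    rw [commutator_le]
    intro x hx a ha
    have hax : a * x * a⁻¹ ∈ P := le_normalizer_iff_conj.1 hAP a ha x hx
    have h1 : (a * x * a⁻¹ * x⁻¹) ^ 4 = 1 := by
      rw [hfour _ hax _ (inv_mem hx), conj_pow]
      have h2 : x ^ 4 ∈ D := by
        have : x ^ 4 = (x ^ 2) ^ 2 := by rw [← pow_mul]
        rw [this]; exact pow_mem (hsq x hx) 2
      have h3 : x ^ 4 * a = a * x ^ 4 := mem_centralizer_iff.1 (hADc ha) _ h2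
      rw [← h3, mul_inv_cancel_right, inv_pow, mul_inv_cancel]
    have h5 := h4 _ (mul_mem hax (inv_mem hx)) h1
    have h6 : ⁅x, a⁆ = (a * x * a⁻¹ * x⁻¹)⁻¹ := by rw [commutatorElement_def]; group
    rw [h6]
    apply inv_mem
    rw [mem_centralizer_iff]
    intro b hb
    exact h5 b hb
  rw [hcomm] at hall
  exact Subgroup.le_centralizer_iff.1 hall

/-- an element of odd order normalizing a cyclic group of order dividing 4 centralizes it -/
theorem commute_of_pow4 {a x : G} (ha : Odd (orderOf a)) (hx : x ^ 4 = 1) (h : a * x * a⁻¹ ∈ zpowers x) : a * x = x * a := by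
  have hax : (a * x * a⁻¹) ^ 4 = 1 := by rw [conj_pow, hx, mul_one, mul_inv_cancel]
  obtain ⟨k, hk⟩ := mem_zpowers_iff.1 h
  have h1 : a * x * a⁻¹ = x ∨ a * x * a⁻¹ = x⁻¹ := by
    have hmod : x ^ k = x ^ (k % 4) := by
      conv_lhs => rw [← Int.emod_add_mul_ediv k 4, zpow_add, zpow_mul]
      have : x ^ (4 : ℤ) = 1 := by exact_mod_cast hx
      rw [this, one_zpow, mul_one]
    have hlt := Int.emod_lt_of_pos k (by norm_num : (0 : ℤ) < 4)
    have hge := Int.emod_nonneg k (by norm_num : (4 : ℤ) ≠ 0)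
    rw [hmod] at hk
    generalize k % 4 = r at hk hlt hge
    have hr : r = 0 ∨ r = 1 ∨ r = 2 ∨ r = 3 := by omega
    rcases hr with rfl | rfl | rfl | rfl
    · left
      rw [zpow_zero] at hk
      have : x = 1 := by
        have h2 : a * x = 1 * a := by rw [hk]; group
        rw [one_mul] at h2
        exact mul_eq_left.1 h2
      rw [this]; group
    · left; rw [← hk, zpow_one]
    · left
      have h2 : (a * x * a⁻¹) ^ 2 = 1 := by
        rw [← hk, ← zpow_natCast, ← zpow_mul]
        exact_mod_cast hx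
      rw [conj_pow] at h2
      have h3 : x ^ 2 = 1 := by
        have : a * x ^ 2 = a := by
          calc a * x ^ 2 = (a * x ^ 2 * a⁻¹) * a := by group
            _ = a := by rw [h2, one_mul]
        exact mul_eq_left.1 this
      have h4 : x ^ (2 : ℤ) = 1 := by exact_mod_cast h3
      rw [h4] at hk
      have : x = 1 := by
        have h2 : a * x = 1 * a := by rw [hk]; group
        rw [one_mul] at h2
        exact mul_eq_left.1 h2
      rw [this]; group
    · right
      rw [← hk]
      have h4 : x ^ (4 : ℤ) = 1 := by exact_mod_cast hx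
      have : x ^ (3 : ℤ) = x ^ (4 : ℤ) * x⁻¹ := by group
      rw [this, h4, one_mul]
  rcases h1 with h1 | h1
  · calc a * x = (a * x * a⁻¹) * a := by group
      _ = x * a := by rw [h1]
  · have h2 : Commute (a ^ 2) x := by
      show a ^ 2 * x = x * a ^ 2
      calc a ^ 2 * x = a * (a * x * a⁻¹) * a⁻¹ * a ^ 2 := by rw [sq]; group
        _ = a * x⁻¹ * a⁻¹ * a ^ 2 := by rw [h1]
        _ = (a * x * a⁻¹)⁻¹ * a ^ 2 := by group
        _ = x * a ^ 2 := by rw [h1, inv_inv]
    obtain ⟨m, hm⟩ := ha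
    have h3 : a = (a ^ 2) ^ (m + 1) := by
      rw [← pow_mul]
      have : 2 * (m + 1) = orderOf a + 1 := by omega
      rw [this, pow_add, pow_orderOf_eq_one, one_mul, pow_one]
    rw [h3]
    exact h2.pow_left (m + 1)

/-- if every subgroup of index 2 is invariant, the odd order action is trivial -/
theorem centralizes_of_maximals [Finite G] {A R : Subgroup G} (hR : IsPGroup 2 R) (hA : Odd (Nat.card A))
    (hAR : A ≤ normalizer (R : Set G))
    (hmax : ∀ M : Subgroup G, M ≤ R → 2 * Nat.card M = Nat.card R → A ≤ normalizer (M : Set G)) :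
    A ≤ centralizer (R : Set G) := by
  apply coprime_trivial_of_frattini hAR
  · obtain ⟨k, hk⟩ := IsPGroup.iff_card.1 (hR.to_subgroup (frattini R))
    rw [hk]
    exact Nat.Coprime.pow_right k (Nat.coprime_two_right.2 hA)
  · intro a ha k hk
    have hak : a * k * a⁻¹ ∈ R := le_normalizer_iff_conj.1 hAR a ha k hk
    refine ⟨⟨a * k * a⁻¹ * k⁻¹, mul_mem hak (inv_mem hk)⟩, ?_, rfl⟩
    have hz : zpowers (⟨a * k * a⁻¹ * k⁻¹, mul_mem hak (inv_mem hk)⟩ : R) ≤ frattini R := by
      rw [le_frattini_iff]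
      intro M hM
      rw [zpowers_le]
      have hidx := isCoatom_pgroup_index hR hM
      have hinv := hmax (M.map R.subtype) (Subgroup.map_subtype_le _) (by
        have h1 : Nat.card (M.map R.subtype) = Nat.card M :=
          Nat.card_congr (M.equivMapOfInjective _ R.subtype_injective).symm.toEquiv
        rw [h1, ← hidx, mul_comm]; exact M.card_mul_index)
      have hiff : (⟨a * k * a⁻¹, hak⟩ : R) ∈ M ↔ (⟨k, hk⟩ : R) ∈ M := by
        constructor
        · intro h
          have h1 : a * k * a⁻¹ ∈ M.map R.subtype := ⟨_, h, rfl⟩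
          have h2 := le_normalizer_iff_conj.1 hinv a⁻¹ (inv_mem ha) _ h1
          have h3 : a⁻¹ * (a * k * a⁻¹) * a⁻¹⁻¹ = k := by group
          rw [h3] at h2
          obtain ⟨z, hz, hzk⟩ := h2
          have : z = ⟨k, hk⟩ := Subtype.ext hzk
          rwa [← this]
        · intro h
          have h1 : k ∈ M.map R.subtype := ⟨_, h, rfl⟩
          obtain ⟨z, hz, hzk⟩ := le_normalizer_iff_conj.1 hinv a ha _ h1
          have : z = ⟨a * k * a⁻¹, hak⟩ := Subtype.ext hzk
          rwa [← this]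
      have h5 : (⟨a * k * a⁻¹ * k⁻¹, mul_mem hak (inv_mem hk)⟩ : R) = ⟨a * k * a⁻¹, hak⟩ * (⟨k, hk⟩ : R)⁻¹ := rfl
      rw [h5, Subgroup.mul_mem_iff_of_index_two hidx, inv_mem_iff]
      exact hiff
    exact hz (mem_zpowers _)

end CfsgH1
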