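import Cfsg.Agent.H1.CycMax
import Cfsg.Agent.H1.SZ3
import Cfsg.Agent.H3.Baer
import Cfsg.Agent.H3.Inv
import Cfsg.Agent.H2.Cores

set_option autoImplicit false

open Cfsg Subgroup
open scoped Pointwise commutatorElement

namespace CfsgH1

universe u v

variable {G : Type u} [Group G]

theorem real_two_element [Finite G] {x : G} (hx : IsConj x x⁻¹) : ∃ t : G, (∃ j : ℕ, orderOf t = 2 ^ j) ∧ t * x * t⁻¹ = x⁻¹ := by
  obtain ⟨g, hg⟩ := isConj_iff.1 hx
  obtain ⟨a, m, hm, h⟩ := Nat.exists_eq_two_pow_mul_odd (orderOf_pos g).ne'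
  refine ⟨g ^ m, ⟨a, ?_⟩, ?_⟩
  · rw [orderOf_pow_of_dvd hm.pos.ne' (h ▸ Dvd.intro_left _ rfl), h, Nat.mul_div_cancel _ hm.pos]
  · have h1 := conj_iter (a := x) (b := g) (r := -1) (by rw [hg, zpow_neg_one]) m
    rw [h1, hm.neg_one_pow, zpow_neg_one]

theorem mem_of_two_element [Finite G] {t : G} (ht : ∃ j : ℕ, orderOf t = 2 ^ j) {N : Subgroup G} [N.Normal] (hN : Odd N.index) : t ∈ N := by
  obtain ⟨j, hj⟩ := ht
  have h1 : orderOf (QuotientGroup.mk' N t) ∣ 2 ^ j := hj ▸ orderOf_map_dvd _ t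
  have h2 : orderOf (QuotientGroup.mk' N t) ∣ N.index := orderOf_dvd_natCard _
  have h3 : Nat.Coprime (2 ^ j) N.index := Nat.Coprime.pow_left j (Nat.coprime_two_left.2 hN)
  have h4 := Nat.Coprime.eq_one_of_dvd (Nat.Coprime.coprime_dvd_left h1 h3) h2
  exact (QuotientGroup.eq_one_iff t).1 (orderOf_eq_one_iff.1 h4)

theorem real_odd_class [Finite G] {x : G} (hx : IsConj x x⁻¹) (hodd : Odd (centralizer ({x} : Set G)).index) : x ^ 2 = 1 := by
  obtain ⟨t, -, ht⟩ := real_two_element hx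
  by_contra hne
  have hne' : x⁻¹ ≠ x := by
    intro h
    apply hne
    rw [sq]
    nth_rewrite 1 [← h]
    rw [inv_mul_cancel]
  let D : Subgroup G := 
    { carrier := {g | g * x * g⁻¹ = x ∨ g * x * g⁻¹ = x⁻¹}
      one_mem' := by left; group
      mul_mem' := by
        intro a b ha hb
        have e : a * b * x * (a * b)⁻¹ = a * (b * x * b⁻¹) * a⁻¹ := by group
        have e2 : a * x⁻¹ * a⁻¹ = (a * x * a⁻¹)⁻¹ := by group
        simp only [Set.mem_setOf_eq] at ha hb ⊢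
        rw [e]
        rcases hb with hb | hb <;> rcases ha with ha | ha <;> rw [hb]
        · exact Or.inl ha
        · exact Or.inr ha
        · right; rw [e2, ha]
        · left; rw [e2, ha, inv_inv]
      inv_mem' := by
        intro a ha
        simp only [Set.mem_setOf_eq] at ha ⊢
        rcases ha with ha | ha
        · left
          calc a⁻¹ * x * a⁻¹⁻¹ = a⁻¹ * (a * x * a⁻¹) * a := by rw [ha]; group
            _ = x := by group
        · right
          have : a⁻¹ * x⁻¹ * a⁻¹⁻¹ = x := by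
            calc a⁻¹ * x⁻¹ * a⁻¹⁻¹ = a⁻¹ * (a * x * a⁻¹) * a := by rw [ha]; group
              _ = x := by group
          calc a⁻¹ * x * a⁻¹⁻¹ = (a⁻¹ * x⁻¹ * a⁻¹⁻¹)⁻¹ := by group
            _ = _ := by rw [this] }
  have hC : centralizer ({x} : Set G) ≤ D := by
    intro g hg
    rw [mem_centralizer_singleton_iff] at hg
    left
    rw [hg, mul_inv_cancel_right]
  have hmem : ∀ g, g ∈ centralizer ({x} : Set G) ↔ g * x * g⁻¹ = x := by
    intro g
    rw [mem_centralizer_singleton_iff, mul_inv_eq_iff_eq_mul]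
  have h2 : (centralizer ({x} : Set G)).relIndex D = 2 := by
    rw [relIndex_eq_two_iff]
    refine ⟨t, Or.inr ht, fun b hb => ?_⟩
    rw [hmem, hmem]
    have e : b * t * x * (b * t)⁻¹ = (b * x * b⁻¹)⁻¹ := by
      calc b * t * x * (b * t)⁻¹ = b * (t * x * t⁻¹) * b⁻¹ := by group
        _ = _ := by rw [ht]; group
    rw [e]
    rcases hb with hb | hb
    · right
      exact ⟨hb, by rw [hb]; exact hne'⟩
    · left
      exact ⟨by rw [hb, inv_inv], by rw [hb]; exact hne'⟩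
  have h3 := relIndex_dvd_index_of_le hC
  rw [h2] at h3
  exact (Nat.not_even_iff_odd.2 hodd) (even_iff_two_dvd.2 h3)

theorem eq_one_of_odd_sq {x : G} (ho : Odd (orderOf x)) (h : x ^ 2 = 1) : x = 1 := by
  have h1 := orderOf_dvd_of_pow_eq_one h
  rcases (Nat.dvd_prime Nat.prime_two).1 h1 with h2 | h2
  · exact orderOf_eq_one_iff.1 h2
  · rw [h2] at ho
    exact absurd ho (by decide)

theorem closure_two_invols_pgroup [Finite G] {a b : G} (ha : a * a = 1) (hb : b * b = 1) {j : ℕ} (hj : orderOf (a * b) = 2 ^ j) : IsPGroup 2 (Subgroup.closure ({a, b} : Set G)) := by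
  rw [IsPGroup.iff_orderOf]
  rintro ⟨d, hd⟩
  rw [Subgroup.orderOf_mk]
  rcases CfsgH3.mem_closure_invols ha hb hd with h | ⟨e, he, h⟩
  · have h1 : orderOf d ∣ 2 ^ j := hj ▸ orderOf_dvd_of_mem_zpowers h
    obtain ⟨k, -, hk⟩ := (Nat.dvd_prime_pow Nat.prime_two).1 h1
    exact ⟨k, hk⟩
  · have h1 := CfsgH3.mul_self_of_inverts ha (CfsgH3.conj_mul_eq_inv ha hb) he
    rw [← h, ← sq] at h1
    obtain ⟨k, -, hk⟩ := (Nat.dvd_prime_pow Nat.prime_two).1 (show orderOf d ∣ 2 ^ 1 by rw [pow_one]; exact orderOf_dvd_of_pow_eq_one h1)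
    exact ⟨k, hk⟩

/-- real odd elements lift over normal 2-subgroups -/
theorem lift_real_odd [Finite G] {K : Subgroup G} [hK : K.Normal] (hK2 : IsPGroup 2 K) {x t : G} (ho : Odd (orderOf x)) (hx1 : x ≠ 1) (h : x * (t * x * t⁻¹) ∈ K) : ∃ y : G, y ≠ 1 ∧ Odd (orderOf y) ∧ IsConj y y⁻¹ := by
  refine ⟨x, hx1, ho, ?_⟩
  have hcop : (Nat.card K).Coprime (orderOf x) := by
    obtain ⟨k, hk⟩ := IsPGroup.iff_card.1 hK2
    rw [hk]
    exact Nat.Coprime.pow_left k (Nat.coprime_two_left.2 ho)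
  have hinf : K ⊓ zpowers x = ⊥ := inf_eq_bot_of_coprime (by rw [Nat.card_zpowers]; exact hcop)
  have hy : t * x * t⁻¹ = MulAut.conj t x := rfl
  have hsup : K ⊔ zpowers (t * x * t⁻¹) = K ⊔ zpowers x := by
    have h1 : t * x * t⁻¹ ∈ K ⊔ zpowers x := by
      have : t * x * t⁻¹ = x⁻¹ * (x * (t * x * t⁻¹)) := by group
      rw [this]
      exact mul_mem (mem_sup_right (inv_mem (mem_zpowers x))) (mem_sup_left h)
    have h2 : x ∈ K ⊔ zpowers (t * x * t⁻¹) := by
      have h3 : (x * (t * x * t⁻¹)) * (t * x * t⁻¹)⁻¹ ∈ K ⊔ zpowers (t * x * t⁻¹) := mul_mem (mem_sup_left h) (mem_sup_right (inv_mem (mem_zpowers _)))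
      rwa [mul_inv_cancel_right] at h3
    exact le_antisymm (sup_le le_sup_left (zpowers_le.2 h1)) (sup_le le_sup_left (zpowers_le.2 h2))
  obtain ⟨k, hk, hk2⟩ := sz_conj_internal (N := K) (H := zpowers (t * x * t⁻¹)) (K := zpowers x) (le_normalizer_of_normal _ K) (le_normalizer_of_normal _ K) 
    (by rw [Nat.card_zpowers, CfsgH3.orderOf_conj]; exact hcop) (Or.inl (isSolvable_of_isPGroup hK2)) hsup hinf
  have h1 : k * (t * x * t⁻¹) * k⁻¹ ∈ zpowers x := by
    rw [← hk2]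
    exact ⟨t * x * t⁻¹, mem_zpowers _, rfl⟩
  rw [isConj_iff]
  refine ⟨k * t, ?_⟩
  have h2 : x * (k * t * x * (k * t)⁻¹) ∈ K := by
    have e : x * (k * t * x * (k * t)⁻¹) = (x * k * x⁻¹) * (x * (t * x * t⁻¹)) * k⁻¹ := by group
    rw [e]
    exact mul_mem (mul_mem (hK.conj_mem k hk x) h) (inv_mem hk)
  have h3 : x * (k * t * x * (k * t)⁻¹) ∈ zpowers x := by
    have e : k * t * x * (k * t)⁻¹ = k * (t * x * t⁻¹) * k⁻¹ := by group
    rw [e]
    exact mul_mem (mem_zpowers x) h1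
  have h4 : x * (k * t * x * (k * t)⁻¹) ∈ K ⊓ zpowers x := ⟨h2, h3⟩
  rw [hinf, Subgroup.mem_bot] at h4
  exact (inv_eq_of_mul_eq_one_right h4).symm

/-- **S3861** -/
theorem real_odd_iff [Finite G] (P : Sylow 2 G) : (∀ x : G, x ≠ 1 → Odd (orderOf x) → ¬ IsConj x x⁻¹) ↔ (P : Subgroup G).Normal := by
  constructor
  · intro h
    haveI hKn : (pCore 2 G).Normal := inferInstance
    have hK2 : IsPGroup 2 (pCore 2 G) := CfsgH2.isPGroup_pCore (G := G) 2
    by_cases hPK : (P : Subgroup G) ≤ pCore 2 G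
    · have : (P : Subgroup G) = pCore 2 G := le_antisymm hPK (hK2.le_sylow_of_normal P)
      rw [this]; infer_instance
    exfalso
    -- an involution in the quotient
    have h1 : 2 ∣ Nat.card (G ⧸ pCore 2 G) := by
      have hP2 : IsPGroup 2 ((P : Subgroup G).map (QuotientGroup.mk' (pCore 2 G))) := P.isPGroup'.map _
      have hne : (P : Subgroup G).map (QuotientGroup.mk' (pCore 2 G)) ≠ ⊥ := by
        intro hb
        rw [Subgroup.map_eq_bot_iff, QuotientGroup.ker_mk'] at hb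
        exact hPK hb
      obtain ⟨k, hk⟩ := IsPGroup.iff_card.1 hP2
      have hk0 : k ≠ 0 := by
        rintro rfl
        rw [pow_zero, Subgroup.card_eq_one] at hk
        exact hne hk
      exact (dvd_pow_self 2 hk0).trans (hk ▸ Subgroup.card_subgroup_dvd_card _)
    obtain ⟨τ, hτ⟩ := exists_prime_orderOf_dvd_card' 2 h1
    have hτ2 := CfsgH3.mul_self_of_orderOf_two hτ
    have hbs : ∀ γ : G ⧸ pCore 2 G, IsPGroup 2 (Subgroup.closure ({τ, γ * τ * γ⁻¹} : Set (G ⧸ pCore 2 G))) := by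
      intro γ
      have hσ2 : (γ * τ * γ⁻¹) * (γ * τ * γ⁻¹) = 1 := by
        have : (γ * τ * γ⁻¹) * (γ * τ * γ⁻¹) = γ * (τ * τ) * γ⁻¹ := by group
        rw [this, hτ2]; group
      obtain ⟨a, m, hm, he⟩ := Nat.exists_eq_two_pow_mul_odd (orderOf_pos (τ * (γ * τ * γ⁻¹))).ne'
      by_cases hm1 : m = 1
      · rw [hm1, mul_one] at he
        exact closure_two_invols_pgroup hτ2 hσ2 he
      exfalso
      -- odd part
      obtain ⟨u, hu⟩ := QuotientGroup.mk'_surjective (pCore 2 G) (τ * (γ * τ * γ⁻¹))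
      obtain ⟨t, ht⟩ := QuotientGroup.mk'_surjective (pCore 2 G) τ
      obtain ⟨b, n, hn, he'⟩ := Nat.exists_eq_two_pow_mul_odd (orderOf_pos u).ne'
      have hx : orderOf (u ^ 2 ^ b) = n := by
        rw [orderOf_pow_of_dvd (pow_pos two_pos b).ne' (he' ▸ Dvd.intro _ rfl), he', Nat.mul_div_cancel_left _ (pow_pos two_pos b)]
      have hinv : τ * (τ * (γ * τ * γ⁻¹)) ^ 2 ^ b * τ⁻¹ = ((τ * (γ * τ * γ⁻¹)) ^ 2 ^ b)⁻¹ := 
        CfsgH3.conj_of_mem_zpowers (CfsgH3.conj_mul_eq_inv hτ2 hσ2) (pow_mem (mem_zpowers _) _)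
      obtain ⟨y, hy1, hyo, hyr⟩ := lift_real_odd (K := pCore 2 G) hK2 (x := u ^ 2 ^ b) (t := t) (by rw [hx]; exact hn) (by
          intro h1
          have h2 : (τ * (γ * τ * γ⁻¹)) ^ 2 ^ b = 1 := by rw [← hu, ← map_pow, h1, map_one]
          have h3 := orderOf_dvd_of_pow_eq_one h2
          rw [he] at h3
          have h4 : m ∣ 2 ^ b := (Dvd.intro_left _ rfl).trans h3
          exact hm1 (Nat.Coprime.eq_one_of_dvd (Nat.Coprime.pow_right b (Nat.coprime_two_right.2 hm)) h4)) (by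
          apply (QuotientGroup.eq_one_iff _).1
          change QuotientGroup.mk' (pCore 2 G) (u ^ 2 ^ b * (t * u ^ 2 ^ b * t⁻¹)) = 1
          rw [map_mul, map_mul, map_mul, map_inv, map_pow, hu, ht, hinv, mul_inv_cancel])
      exact h y hy1 hyo hyr
    obtain ⟨N, hNn, hN2, hτN⟩ := CfsgH3.baer_suzuki_elt τ hbs
    -- preimage is a normal 2-subgroup
    have h2 : N.comap (QuotientGroup.mk' (pCore 2 G)) ≤ pCore 2 G := by
      apply CfsgH2.le_pCore (hNn.comap _)
      exact hN2.comap_of_ker_isPGroup _ (by rw [QuotientGroup.ker_mk']; exact hK2)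
    obtain ⟨t, ht⟩ := QuotientGroup.mk'_surjective (pCore 2 G) τ
    have h3 : t ∈ pCore 2 G := h2 (by rw [Subgroup.mem_comap, ht]; exact hτN)
    have h4 : τ = 1 := by rw [← ht]; exact (QuotientGroup.eq_one_iff t).2 h3
    exact CfsgH3.ne_one_of_orderOf_two hτ h4
  · intro hP x hx1 ho hr
    obtain ⟨t, ⟨j, hj⟩, ht⟩ := real_two_element hr
    have htP : t ∈ (P : Subgroup G) := by
      have h1 : IsPGroup 2 (zpowers t) := IsPGroup.of_card (n := j) (by rw [Nat.card_zpowers, hj])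
      obtain ⟨Q, hQ⟩ := h1.exists_le_sylow
      haveI := Sylow.unique_of_normal P hP
      have : Q = P := Subsingleton.elim _ _
      rw [← this]; exact hQ (mem_zpowers t)
    have h1 : x⁻¹ * x⁻¹ ∈ (P : Subgroup G) := by
      nth_rewrite 1 [← ht]
      have e : t * x * t⁻¹ * x⁻¹ = t * (x * t⁻¹ * x⁻¹) := by group
      rw [e]
      exact mul_mem htP (hP.conj_mem _ (inv_mem htP) x)
    have h2 : x ^ 2 ∈ (P : Subgroup G) := by
      have := inv_mem h1
      rw [mul_inv_rev, inv_inv] at this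
      rwa [sq]
    obtain ⟨k, hk⟩ := IsPGroup.iff_orderOf.1 P.isPGroup' ⟨x ^ 2, h2⟩
    rw [Subgroup.orderOf_mk] at hk
    have h3 : orderOf (x ^ 2) ∣ orderOf x := orderOf_pow_dvd 2
    have h4 : Nat.Coprime (orderOf (x ^ 2)) (orderOf x) := by rw [hk]; exact Nat.Coprime.pow_left k (Nat.coprime_two_left.2 ho)
    have h5 := Nat.Coprime.eq_one_of_dvd h4 h3
    exact hx1 (eq_one_of_odd_sq ho (orderOf_eq_one_iff.1 h5))

end CfsgH1
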