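import Cfsg.Agent.H1.FpfAut

set_option autoImplicit false

open Subgroup Cfsg
open scoped Pointwise commutatorElement

namespace CfsgH1

universe u v

section NNdef
variable {G : Type u} [Group G]

/-- the ordered product `x · f x · f² x ⋯` with `k` factors -/
def NN (f : G → G) (x : G) : ℕ → G
  | 0 => 1
  | k + 1 => NN f x k * f^[k] x

theorem NN_zero (f : G → G) (x : G) : NN f x 0 = 1 := rfl
theorem NN_succ (f : G → G) (x : G) (k : ℕ) : NN f x (k + 1) = NN f x k * f^[k] x := rfl
theorem NN_one (f : G → G) (x : G) : NN f x 1 = x := by rw [NN_succ, NN_zero, one_mul]; rfl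

theorem NN_list (f : G → G) (x : G) (k : ℕ) : ((List.range k).map (fun i : ℕ => f^[i] x)).prod = NN f x k := by
  induction k with
  | zero => rfl
  | succ k ih => rw [List.range_succ, List.map_append, List.prod_append, ih, NN_succ]; simp

theorem iter_mul (φ : G →* G) (k : ℕ) (x y : G) : φ^[k] (x * y) = φ^[k] x * φ^[k] y := iterate_map_mul' φ k x y

theorem iter_one (φ : G →* G) (k : ℕ) : φ^[k] 1 = 1 := by
  induction k with
  | zero => rfl
  | succ k ih => rw [Function.iterate_succ_apply, map_one, ih]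

theorem NN_add (φ : G →* G) (x : G) (a b : ℕ) : NN φ x (a + b) = NN φ x a * φ^[a] (NN φ x b) := by
  induction b with
  | zero => rw [NN_zero, iter_one, mul_one, add_zero]
  | succ b ih => rw [← add_assoc, NN_succ, ih, NN_succ, iter_mul, Function.iterate_add_apply, mul_assoc]

theorem NN_mul (φ : G →* G) (x : G) (i j : ℕ) : NN φ x (i * j) = NN (φ^[i]) (NN φ x i) j := by
  induction j with
  | zero => rfl
  | succ j ih => rw [mul_add, mul_one, NN_add, ih, NN_succ, Function.iterate_mul]

theorem NN_id_one (k : ℕ) : NN (id : G → G) 1 k = 1 := by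
  induction k with
  | zero => rfl
  | succ k ih => rw [NN_succ, ih, Function.iterate_id, one_mul]; rfl

theorem NN_inj {φ : G →* G} {p : ℕ} (hp : p.Prime) (hφ : φ^[p] = id) (hs : ∀ x, NN φ x p = 1) {i : ℕ} (h0 : 0 < i) (hi : i < p) :
    Function.Injective (fun x => NN φ x i) := by
  have hcop : Nat.Coprime i p := ((Nat.Prime.coprime_iff_not_dvd hp).2 (Nat.not_dvd_of_pos_of_lt h0 hi)).symm
  obtain ⟨j, hj⟩ := Nat.exists_mul_mod_eq_one_of_coprime hcop hp.one_lt
  have hk : i * j = p * (i * j / p) + 1 := by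
    conv_lhs => rw [← Nat.div_add_mod (i * j) p]
    rw [hj.2]
  have key : ∀ x, NN (φ^[i]) (NN φ x i) j = x := by
    intro x
    rw [← NN_mul, hk, NN_succ, NN_mul, hs, hφ, NN_id_one, one_mul, Function.iterate_mul, hφ, Function.iterate_id]
    rfl
  intro x y hxy
  have hxy' : NN φ x i = NN φ y i := hxy
  rw [← key x, hxy', key y]

/-- twisting by an inner automorphism -/
def tw (φ : G →* G) (v : G) : G →* G := (MulAut.conj v).toMonoidHom.comp φ

theorem tw_apply (φ : G →* G) (v x : G) : tw φ v x = v * φ x * v⁻¹ := rfl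

theorem tw_iter (φ : G →* G) (v x : G) (i : ℕ) : (tw φ v)^[i] x = NN φ v i * φ^[i] x * (NN φ v i)⁻¹ := by
  induction i with
  | zero => simp [NN_zero]
  | succ i ih =>
    have h1 : NN φ v (i + 1) = v * φ (NN φ v i) := by
      rw [add_comm i 1, NN_add, NN_one]; rfl
    rw [Function.iterate_succ_apply', ih, tw_apply, h1, Function.iterate_succ_apply', map_mul, map_mul, map_inv]
    group

theorem tw_NN (φ : G →* G) (v x : G) (k : ℕ) : NN (tw φ v) x k * NN φ v k = NN φ (x * v) k := by
  induction k with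
  | zero => simp [NN_zero]
  | succ k ih =>
    rw [NN_succ φ (x * v), ← ih, iter_mul, NN_succ, NN_succ, tw_iter]
    group

theorem tw_split {φ : G →* G} {p : ℕ} (hs : ∀ x, NN φ x p = 1) (v x : G) : NN (tw φ v) x p = 1 := by
  have := tw_NN φ v x p
  rw [hs, hs, mul_one] at this
  exact this

theorem tw_id {φ : G →* G} {p : ℕ} (hφ : φ^[p] = id) (hs : ∀ x, NN φ x p = 1) (v : G) : (tw φ v)^[p] = id := by
  funext x
  rw [tw_iter, hs, hφ]
  simp

end NNdef

section act
variable {P : Type u} {V : Type v} [Group P] [CommGroup V] [MulDistribMulAction P V]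

theorem split_act_pow [Finite P] [Finite V] (f : P → P) (g : V → V) {r : ℕ} (hr : 0 < r)
    (hinj : ∀ k, 0 < k → k < r → Function.Injective (fun y : P => NN f y k)) (v : V)
    (key : ∀ y : P, ∏ k ∈ Finset.range r, (NN f y k) • (g^[k] v) = 1) (x : P) : 
    x • (v ^ Nat.card P) = v ^ Nat.card P := by
  classical
  haveI : Fintype P := Fintype.ofFinite P
  have h2 : ∏ k ∈ Finset.range r, ∏ y : P, (NN f y k) • (g^[k] v) = 1 := by
    rw [Finset.prod_comm]
    exact Finset.prod_eq_one (fun y _ => key y)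
  have h3 : ∀ k ∈ Finset.range r, k ≠ 0 → x • (∏ y : P, (NN f y k) • (g^[k] v)) =
      ∏ y : P, (NN f y k) • (g^[k] v) := by
    intro k hk hk0
    have hbij : Function.Bijective (fun y : P => NN f y k) := 
      Finite.injective_iff_bijective.1 (hinj k (Nat.pos_of_ne_zero hk0) (Finset.mem_range.1 hk))
    have h6 : ∏ y : P, (NN f y k) • (g^[k] v) = ∏ z : P, z • (g^[k] v) :=
      Function.Bijective.prod_comp hbij (fun z => z • (g^[k] v))
    rw [h6, Finset.smul_prod']
    have h7 : ∀ z : P, x • z • g^[k] v = (x * z) • g^[k] v := fun z => (mul_smul _ _ _).symm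
    simp_rw [h7]
    exact Function.Bijective.prod_comp (Group.mulLeft_bijective x) (fun z => z • (g^[k] v))
  have h8 : ∏ y : P, (NN f y 0) • (g^[0] v) = v ^ Nat.card P := by
    simp [NN_zero, Nat.card_eq_fintype_card]
  have h9 : (∏ k ∈ (Finset.range r).erase 0, ∏ y : P, (NN f y k) • (g^[k] v)) * v ^ Nat.card P = 1 := by
    rw [← h8, Finset.prod_erase_mul _ _ (Finset.mem_range.2 hr)]
    exact h2
  have h10 : x • (∏ k ∈ (Finset.range r).erase 0, ∏ y : P, (NN f y k) • (g^[k] v)) =
      ∏ k ∈ (Finset.range r).erase 0, ∏ y : P, (NN f y k) • (g^[k] v) := by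
    rw [Finset.smul_prod']
    exact Finset.prod_congr rfl (fun k hk => h3 k (Finset.mem_of_mem_erase hk) (Finset.ne_of_mem_erase hk))
  rw [← eq_inv_iff_mul_eq_one] at h9
  have h11 : v ^ Nat.card P = (∏ k ∈ (Finset.range r).erase 0, ∏ y : P, (NN f y k) • (g^[k] v))⁻¹ := by
    rw [h9, inv_inv]
  rw [h11, smul_inv', h10]

end act

section main
variable {G : Type u} [Group G]

theorem NN_resHom (φ : G →* G) (H : Subgroup G) (hH : ∀ x ∈ H, φ x ∈ H) (x : H) (k : ℕ) : 
    ((NN (resHom φ H hH) x k : H) : G) = NN φ x k := by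
  induction k with
  | zero => rfl
  | succ k ih => rw [NN_succ, NN_succ, Subgroup.coe_mul, ih, resHom_iter]

theorem NN_quoHom (φ : G →* G) (N : Subgroup G) [N.Normal] (hN : ∀ x ∈ N, φ x ∈ N) (x : G) (k : ℕ) : 
    NN (quoHom φ N hN) (x : G ⧸ N) k = (NN φ x k : G) := by
  induction k with
  | zero => rfl
  | succ k ih => rw [NN_succ, NN_succ, ih, quoHom_iter]; rfl

theorem split_centralize [Finite G] {φ : G →* G} {p : ℕ} (hp : p.Prime) (hφ : φ^[p] = id) (hs : ∀ x, NN φ x p = 1) 
    {P V : Subgroup G} (hP : ∀ x ∈ P, φ x ∈ P) (hV : ∀ x ∈ V, φ x ∈ V)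
    (hab : ∀ x ∈ V, ∀ y ∈ V, x * y = y * x) (hPV : P ≤ normalizer (V : Set G))
    (hcop : (Nat.card P).Coprime (Nat.card V)) : P ≤ centralizer (V : Set G) := by
  letI : CommGroup V := { (inferInstance : Group V) with mul_comm := fun a b => Subtype.ext (hab a a.2 b b.2) }
  letI := conjMDMA hPV
  intro x hx
  rw [mem_centralizer_iff]
  intro v hv
  obtain ⟨w, hw⟩ : ∃ w : V, w ^ Nat.card P = ⟨v, hv⟩ := by
    have := (powCoprime (G := V) (n := Nat.card P) hcop.symm).surjective ⟨v, hv⟩
    obtain ⟨w, hw⟩ := this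
    exact ⟨w, hw⟩
  have h1 := split_act_pow (P := P) (V := V) (resHom φ P hP) (resHom φ V hV) hp.pos 
    (fun k h0 hk => NN_inj hp (resHom_id hφ P hP) (fun x => Subtype.ext (by rw [NN_resHom]; exact hs _)) h0 hk) w 
    (fun y => by
      have h0 : ∀ n : ℕ, ((∏ k ∈ Finset.range n, (NN (resHom φ P hP) y k) • ((resHom φ V hV)^[k] w) : V) : G) = NN (tw φ y) w n := by
        intro n
        induction n with
        | zero => rfl
        | succ n ih => 
          rw [Finset.prod_range_succ, NN_succ, ← ih, tw_iter, Subgroup.coe_mul]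
          congr 1
          change ((NN (resHom φ P hP) y n : P) : G) * (((resHom φ V hV)^[n] w : V) : G) * ((NN (resHom φ P hP) y n : P) : G)⁻¹ = _
          rw [NN_resHom, resHom_iter]
      apply Subtype.ext
      rw [h0, tw_split hs]
      rfl) ⟨x, hx⟩
  rw [hw] at h1
  have h2 : x * v * x⁻¹ = v := congrArg Subtype.val h1
  rw [← mul_inv_eq_iff_eq_mul.1 h2]

/-- an automorphism of `p`-power order leaves some Sylow `p`-subgroup invariant -/
theorem exists_invariant_sylow' [Finite G] {φ : G →* G} {p : ℕ} [hp : Fact p.Prime] (hφ : φ^[p] = id) :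
    ∃ P : Sylow p G, ∀ x ∈ (P : Subgroup G), φ x ∈ (P : Subgroup G) := by
  classical
  have hinj := injective_of_iter hp.out.pos hφ
  obtain ⟨e, he⟩ : ∃ e : G ≃* G, (e : G →* G) = φ :=
    ⟨MulEquiv.ofBijective φ (Finite.injective_iff_bijective.1 hinj), by ext x; rfl⟩
  let F : Sylow p G → Sylow p G := fun P => (P.2.map φ).toSylow (by
    have : ((P : Subgroup G).map φ).index = (P : Subgroup G).index := by
      rw [← he]; exact Subgroup.index_map_equiv _ e
    rw [this]; exact P.not_dvd_index)
  have hF : ∀ P : Sylow p G, ((F P : Sylow p G) : Subgroup G) = (P : Subgroup G).map φ := fun P => rfl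
  have hFk : ∀ (k : ℕ) (P : Sylow p G), (((F^[k]) P : Sylow p G) : Set G) = (φ^[k]) '' (P : Set G) := by
    intro k
    induction k with
    | zero => intro P; simp
    | succ k ih => 
      intro P
      rw [Function.iterate_succ_apply, ih, Function.iterate_succ, Set.image_comp]
      rfl
  haveI : Fintype (Sylow p G) := Fintype.ofFinite _
  have hFp : F^[p] = id := by
    funext P
    apply Sylow.ext
    apply SetLike.coe_injective
    have := hFk p P
    rw [hφ, Set.image_id] at this
    exact this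
  have hpow : ∀ k : ℕ, ((show Function.End (Sylow p G) from F) ^ k : Function.End (Sylow p G)) = (F^[k] : Sylow p G → Sylow p G) := by 
    intro k
    induction k with 
    | zero => rfl 
    | succ k ih => rw [pow_succ, ih]; rfl
  have h1 := Equiv.Perm.card_fixedPoints_modEq (α := Sylow p G) (f := (show Function.End (Sylow p G) from F)) (p := p) (n := 1) (by
    rw [pow_one, hpow, hFp]; rfl)
  have h2 := card_sylow_modEq_one p G
  rw [Nat.card_eq_fintype_card] at h2
  have h3 : 0 < Fintype.card (Function.fixedPoints F) := by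
    rw [Nat.pos_iff_ne_zero]
    intro h0
    have h4 := h2.symm.trans h1
    have h5 : Fintype.card ↑(Function.fixedPoints (F : Function.End (Sylow p G))) = 0 := by
      rw [← h0]
    rw [h5] at h4
    have h6 := (Nat.modEq_zero_iff_dvd.1 h4)
    exact hp.out.one_lt.ne' (Nat.dvd_one.1 h6)
  obtain ⟨⟨P, hP⟩⟩ := Fintype.card_pos_iff.1 h3
  refine ⟨P, fun x hx => ?_⟩
  have h4 : ((F P : Sylow p G) : Subgroup G) = P := by
    rw [show F P = P from hP]
  rw [← h4, hF]
  exact ⟨x, hx, rfl⟩

end main

end CfsgH1
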