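import Cfsg.Agent.H1.Split

set_option autoImplicit false

open Subgroup Cfsg
open scoped Pointwise commutatorElement

namespace CfsgH1

universe u v

/-- **Kegel**: a finite group with a splitting automorphism of prime order is nilpotent -/
theorem split_nilpotent (n : ℕ) : ∀ (G : Type u) [Group G] [Finite G], Nat.card G = n → 
    ∀ (φ : G →* G) (p : ℕ), p.Prime → φ^[p] = id → (∀ x, NN φ x p = 1) → Group.IsNilpotent G := by
  induction n using Nat.strong_induction_on with
  | _ n IH =>
  intro G _ _ hn φ p hp hφr hs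
  rcases subsingleton_or_nontrivial G with hsub | hnt
  · exact Group.isNilpotent_of_subsingleton
  haveI hpF : Fact p.Prime := ⟨hp⟩
  have hinj := injective_of_iter hp.pos hφr
  obtain ⟨e, he⟩ : ∃ e : G ≃* G, (e : G →* G) = φ :=
    ⟨MulEquiv.ofBijective φ (Finite.injective_iff_bijective.1 hinj), by ext x; rfl⟩
  -- the coprime case
  by_cases hpd : p ∣ Nat.card G
  swap
  · apply fpf_prime_nilpotent G φ p hp _ hφr
    intro x hx
    have hN : ∀ k, NN φ x k = x ^ k := by
      intro k
      induction k with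
      | zero => rw [pow_zero]; rfl
      | succ k ih =>
        rw [NN_succ, ih, pow_succ]
        congr 1
        have : ∀ j, φ^[j] x = x := by
          intro j
          induction j with
          | zero => rfl
          | succ j ihj => rw [Function.iterate_succ_apply, hx, ihj]
        exact this k
    have h1 := hs x
    rw [hN] at h1
    have h2 := orderOf_dvd_of_pow_eq_one h1
    rcases (Nat.dvd_prime hp).1 h2 with h3 | h3
    · exact orderOf_eq_one_iff.1 h3
    · exact absurd (h3 ▸ orderOf_dvd_natCard x) hpd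
  -- subgroups and quotients
  have hsub : ∀ H : Subgroup G, (∀ x ∈ H, φ x ∈ H) → H ≠ ⊤ → Group.IsNilpotent H := by
    intro H hH hne
    refine IH (Nat.card H) ?_ H rfl (resHom φ H hH) p hp (resHom_id hφr H hH) (fun x => Subtype.ext (by rw [NN_resHom]; exact hs _))
    rw [← hn]
    exact lt_of_le_of_ne (Subgroup.card_le_card_group H) (fun h => hne (Subgroup.card_eq_iff_eq_top H |>.1 h))
  have hquoN : ∀ N : Subgroup G, ∀ hN : N.Normal, (∀ x ∈ N, φ x ∈ N) → N ≠ ⊥ → Group.IsNilpotent (G ⧸ N) := by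
    intro N hN hNφ hne
    refine IH (Nat.card (G ⧸ N)) ?_ (G ⧸ N) rfl (quoHom φ N hNφ) p hp (quoHom_id hφr N hNφ) ?_
    · rw [← hn, ← Subgroup.card_mul_index N, ← Subgroup.index_eq_card]
      have h1 : 1 < Nat.card N := by
        rw [Subgroup.one_lt_card_iff_ne_bot]; exact hne
      have h2 : 0 < N.index := Nat.pos_of_ne_zero N.index_ne_zero_of_finite
      nlinarith
    · intro x
      induction x using QuotientGroup.induction_on with
      | H x => rw [NN_quoHom, hs]; rfl
  have hquo : ∀ N : Subgroup G, N.Normal → (∀ x ∈ N, φ x ∈ N) → N ≠ ⊥ → Group.IsSolvable N → Group.IsSolvable G := by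
    intro N hN hNφ hne hNs
    refine isSolvable_of_normal_quotient N hNs ?_
    haveI := hquoN N hN hNφ hne
    infer_instance
  have hsolv : Group.IsSolvable G := by
    by_cases hp2 : p = 2
    · subst hp2
      have hcomm : ∀ x y : G, x * y = y * x := by
        have h1 : ∀ x : G, φ x = x⁻¹ := by
          intro x
          have := hs x
          rw [show (2 : ℕ) = 1 + 1 from rfl, NN_succ, NN_one] at this
          exact (eq_inv_of_mul_eq_one_right this)
        intro x y
        have h2 := map_mul φ x y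
        rw [h1, h1, h1, mul_inv_rev] at h2
        have h3 := congrArg (fun z => z⁻¹) h2
        simpa using h3
      exact _root_.isSolvable_of_comm hcomm
    obtain ⟨P, hP⟩ := exists_invariant_sylow' (p := p) hφr
    have hPmap : (P : Subgroup G).map φ = P := map_eq_of_invariant hinj hP
    have hPne : (P : Subgroup G) ≠ ⊥ := by
      intro h
      have h1 := P.not_dvd_index
      rw [h, Subgroup.index_bot] at h1
      exact h1 hpd
    have hJ : (CfsgH3.JJ 0 (P : Subgroup G)).map φ = CfsgH3.JJ 0 (P : Subgroup G) := by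
      rw [← CfsgH3.JJ_map φ (P : Subgroup G) hinj.injOn, hPmap]
    have hZ : (CfsgH3.ZZ (P : Subgroup G)).map φ = CfsgH3.ZZ (P : Subgroup G) := by
      rw [← CfsgH3.ZZ_map φ (P : Subgroup G) hinj.injOn, hPmap]
    have hJne := CfsgH3.JJ_ne_bot (e := 0) (Or.inl rfl) P.2 hPne
    have hZne := CfsgH3.ZZ_ne_bot P.2 hPne
    have hJs : Group.IsSolvable (CfsgH3.JJ 0 (P : Subgroup G)) :=
      isSolvable_of_isPGroup (p := p) (P.2.to_le (CfsgH3.JJ_le _))
    have hZs : Group.IsSolvable (CfsgH3.ZZ (P : Subgroup G)) :=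
      isSolvable_of_isPGroup (p := p) (P.2.to_le (CfsgH3.ZZ_le _))
    by_cases hNJ : normalizer (CfsgH3.JJ 0 (P : Subgroup G) : Set G) = ⊤
    · refine hquo _ (normalizer_eq_top_iff.1 hNJ) ?_ hJne hJs
      intro x hx
      rw [← hJ]; exact ⟨x, hx, rfl⟩
    by_cases hCZ : centralizer (CfsgH3.ZZ (P : Subgroup G) : Set G) = ⊤
    · have hn : (CfsgH3.ZZ (P : Subgroup G)).Normal := by
        rw [← normalizer_eq_top_iff, eq_top_iff, ← hCZ]
        exact centralizer_le_normalizer _
      refine hquo _ hn ?_ hZne hZs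
      intro x hx
      rw [← hZ]; exact ⟨x, hx, rfl⟩
    have hN1 : ∀ x ∈ normalizer (CfsgH3.JJ 0 (P : Subgroup G) : Set G), φ x ∈ normalizer (CfsgH3.JJ 0 (P : Subgroup G) : Set G) := by
      intro x hx
      rw [mem_normalizer_iff] at hx ⊢
      have h1 : ∀ j ∈ CfsgH3.JJ 0 (P : Subgroup G), φ x * j * (φ x)⁻¹ ∈ CfsgH3.JJ 0 (P : Subgroup G) := by
        intro j hj
        rw [← hJ] at hj ⊢
        obtain ⟨i, hi, rfl⟩ := hj
        exact ⟨x * i * x⁻¹, (hx i).1 hi, by simp⟩
      have hx' : φ x ∈ normalizer (CfsgH3.JJ 0 (P : Subgroup G) : Set G) := by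
        have := Subgroup.mem_normalizer_fintype (S := (CfsgH3.JJ 0 (P : Subgroup G) : Set G)) (x := φ x) h1
        exact this
      exact mem_normalizer_iff.1 hx'
    have hC1 : ∀ x ∈ centralizer (CfsgH3.ZZ (P : Subgroup G) : Set G), φ x ∈ centralizer (CfsgH3.ZZ (P : Subgroup G) : Set G) := by
      intro x hx
      rw [mem_centralizer_iff] at hx ⊢
      intro z hz
      change z ∈ CfsgH3.ZZ (P : Subgroup G) at hz
      rw [← hZ] at hz
      obtain ⟨w, hw, rfl⟩ := hz
      rw [← map_mul, ← map_mul, hx w hw]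
    have hn1 := hsub _ hN1 hNJ
    have hn2 := hsub _ hC1 hCZ
    have hNPC := CfsgH3.thompson_npc (e := 0) hp2 (Or.inl rfl) P CfsgH3.hasNPC_of_isNilpotent CfsgH3.hasNPC_of_isNilpotent
    obtain ⟨K, hKn, hKc, k, hk⟩ := hNPC
    have hKφ : ∀ x ∈ K, φ x ∈ K := by
      intro x hx
      have h1 : (orderOf (φ x : G ⧸ K)).Coprime p := by
        have h3 : orderOf (φ x : G ⧸ K) ∣ orderOf x := (orderOf_map_dvd (QuotientGroup.mk' K) (φ x)).trans (orderOf_map_dvd φ x)
        exact Nat.Coprime.coprime_dvd_left (h3.trans (Subgroup.orderOf_dvd_natCard K hx)) hKc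
      have h2 : orderOf (φ x : G ⧸ K) ∣ p ^ k := by
        rw [← hk, Subgroup.index_eq_card]; exact orderOf_dvd_natCard _
      have h3 : orderOf (φ x : G ⧸ K) = 1 := Nat.eq_one_of_dvd_coprimes (h1.pow_right k) dvd_rfl h2
      rw [orderOf_eq_one_iff, QuotientGroup.eq_one_iff] at h3
      exact h3
    have hKt : K ≠ ⊤ := by
      rintro rfl
      rw [Subgroup.card_top] at hKc
      exact hp.coprime_iff_not_dvd.1 hKc.symm hpd
    refine isSolvable_of_normal_quotient K (isNilpotent_isSolvable (hsub K hKφ hKt)) ?_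
    exact isSolvable_of_isPGroup (p := p) (IsPGroup.of_card (n := k) (by rw [← Subgroup.index_eq_card, hk]))
  -- minimal invariant normal subgroup
  obtain ⟨V, ⟨hVne, hVn, hVφ⟩, hVmin⟩ := exists_minimal_of_set {N : Subgroup G | N ≠ ⊥ ∧ N.Normal ∧ ∀ x ∈ N, φ x ∈ N}
    ⟨⊤, top_ne_bot, inferInstance, fun _ _ => mem_top _⟩
  haveI := hVn
  -- abelian
  have hVab : ∀ x ∈ V, ∀ y ∈ V, x * y = y * x := by
    have hcn : (⁅V, V⁆ : Subgroup G).Normal := inferInstance
    have hlt : ⁅V, V⁆ ≠ V := by
      intro h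
      apply hVne
      haveI := hsolv
      by_contra hne
      haveI : Nontrivial V := (Subgroup.nontrivial_iff_ne_bot V).2 hne
      have h1 := IsSolvable.commutator_lt_of_ne_bot (G := G) hne
      exact absurd h h1.ne
    have hbot : (⁅V, V⁆ : Subgroup G) = ⊥ := by
      by_contra hne
      refine hlt (hVmin _ ⟨hne, hcn, ?_⟩ (commutator_le_left V V))
      intro x hx
      have h1 : (⁅V, V⁆ : Subgroup G).map φ ≤ ⁅V, V⁆ := by
        rw [map_commutator]
        exact commutator_mono (by rintro _ ⟨y, hy, rfl⟩; exact hVφ y hy) (by rintro _ ⟨y, hy, rfl⟩; exact hVφ y hy)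
      exact h1 ⟨x, hx, rfl⟩
    intro x hx y hy
    have h1 := commutator_eq_bot_iff_le_centralizer.1 hbot hx
    exact (mem_centralizer_iff.1 h1 y hy).symm
  -- q-group
  obtain ⟨q, hq, hqd⟩ := Nat.exists_prime_and_dvd (n := Nat.card V) (by
    intro h; exact hVne (Subgroup.card_eq_one.1 h))
  haveI : Fact q.Prime := ⟨hq⟩
  have hVq : ∀ x ∈ V, x ^ q = 1 := by
    let W : Subgroup G :=
      { carrier := {x | x ∈ V ∧ x ^ q = 1}
        one_mem' := ⟨V.one_mem, one_pow _⟩
        mul_mem' := by
          rintro a b ⟨ha, ha'⟩ ⟨hb, hb'⟩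
          refine ⟨V.mul_mem ha hb, ?_⟩
          rw [(show Commute a b from hVab a ha b hb).mul_pow, ha', hb', one_mul]
        inv_mem' := by
          rintro a ⟨ha, ha'⟩
          exact ⟨V.inv_mem ha, by rw [inv_pow, ha', inv_one]⟩ }
    have hWn : W.Normal := ⟨by
      rintro x ⟨hx, hx'⟩ g
      exact ⟨hVn.conj_mem x hx g, by rw [conj_pow, hx', mul_one, mul_inv_cancel]⟩⟩
    have hWφ : ∀ x ∈ W, φ x ∈ W := by
      rintro x ⟨hx, hx'⟩
      exact ⟨hVφ x hx, by rw [← map_pow, hx', map_one]⟩
    have hWne : W ≠ ⊥ := by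
      obtain ⟨x, hx⟩ := exists_prime_orderOf_dvd_card' q hqd
      intro h
      have hxW : (x : G) ∈ W := ⟨x.2, by rw [← Subgroup.coe_pow, ← hx, pow_orderOf_eq_one]; rfl⟩
      rw [h, mem_bot] at hxW
      have : x = 1 := Subtype.ext hxW
      rw [this, orderOf_one] at hx
      exact hq.ne_one hx.symm
    have hWV : W = V := hVmin W ⟨hWne, hWn, hWφ⟩ (fun x hx => hx.1)
    intro x hx
    rw [← hWV] at hx
    exact hx.2
  have hVp : IsPGroup q V := isPGroup_of_forall_pow_eq_one hVq
  -- quotient is nilpotent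
  have hQn : Group.IsNilpotent (G ⧸ V) := hquoN V hVn hVφ hVne
  have htfae := (Group.isNilpotent_of_finite_tfae (G := G)).out 0 3
  rw [htfae]
  intro r hr P0
  -- P0 is normal
  have hsyl : IsSylowOf r ((P0 : Subgroup G).map (QuotientGroup.mk' V)) (⊤ : Subgroup (G ⧸ V)) := by
    have := isSylowOf_map (QuotientGroup.mk' V) (sylow_isSylowOf P0)
    rwa [← MonoidHom.range_eq_map, MonoidHom.range_eq_top.2 (QuotientGroup.mk'_surjective V)] at this
  have h1 : ((P0 : Subgroup G).map (QuotientGroup.mk' V)).Normal := by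
    haveI : Group.IsNilpotent (⊤ : Subgroup (G ⧸ V)) := by infer_instance
    exact normal_of_nilpotent_sylow (K := (⊤ : Subgroup (G ⧸ V))) this hsyl
  have h2 : (((P0 : Subgroup G).map (QuotientGroup.mk' V)).comap (QuotientGroup.mk' V)).Normal := inferInstance
  rw [QuotientGroup.comap_map_mk'] at h2
  have h3 : V ⊔ (P0 : Subgroup G) ≤ normalizer ((P0 : Subgroup G) : Set G) := by
    apply sup_le _ le_normalizer
    by_cases hpq : r = q
    · subst hpq
      have : V ≤ (P0 : Subgroup G) := (CfsgH2.le_pCore hVn hVp).trans (pCore_le_sylow P0)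
      exact this.trans le_normalizer
    · have hcop : (Nat.card (P0 : Subgroup G)).Coprime (Nat.card V) := by
        obtain ⟨a, ha⟩ := IsPGroup.iff_card.1 P0.2
        obtain ⟨b, hb⟩ := IsPGroup.iff_card.1 hVp
        rw [ha, hb]
        exact Nat.Coprime.pow _ _ ((Nat.coprime_primes hr.out hq).2 hpq)
      -- twist to normalise `P0`
      have hidx : ((P0 : Subgroup G).map φ).index = (P0 : Subgroup G).index := by
        rw [← he]; exact Subgroup.index_map_equiv _ e
      obtain ⟨h, hh⟩ := MulAction.exists_smul_eq G ((P0.2.map φ).toSylow (by rw [hidx]; exact P0.not_dvd_index)) P0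
      have hPh : ∀ x ∈ (P0 : Subgroup G), tw φ h x ∈ (P0 : Subgroup G) := by
        intro x hx
        have h5 : tw φ h x ∈ ((h • ((P0.2.map φ).toSylow (by rw [hidx]; exact P0.not_dvd_index)) : Sylow r G) : Subgroup G) := by
          change tw φ h x ∈ MulAut.conj h • ((P0 : Subgroup G).map φ)
          rw [Subgroup.mem_pointwise_smul_iff_inv_smul_mem]
          refine ⟨x, hx, ?_⟩
          rw [tw_apply]
          simp [MulAut.smul_def, mul_assoc]
        rw [hh] at h5
        exact h5
      have hVh : ∀ x ∈ V, tw φ h x ∈ V := by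
        intro x hx
        rw [tw_apply]
        exact hVn.conj_mem _ (hVφ x hx) h
      have h4 := split_centralize hp (tw_id hφr hs h) (fun x => tw_split hs h x) hPh hVh hVab (le_normalizer_of_normal _ _) hcop
      exact (le_centralizer_iff.1 h4).trans (centralizer_le_normalizer _)
  have hsyl2 : IsSylowOf r (P0 : Subgroup G) (V ⊔ (P0 : Subgroup G)) :=
    isSylowOf_of_le (sylow_isSylowOf P0) le_sup_right le_top
  have h4 := frattini_arg_sup hsyl2
  rw [sup_eq_right.2 h3] at h4
  exact normalizer_eq_top_iff.1 h4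

end CfsgH1
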