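import Cfsg.Agent.H1.SylSys
import Cfsg.Agent.H1.Carter2
import Cfsg.Agent.H1.SSolv3
import Cfsg.Agent.H1.SetMul
import Cfsg.Agent.H3.NPC

set_option autoImplicit false

/-! System normalizers. -/

open scoped Pointwise commutatorElement

namespace CfsgH1

open Subgroup Cfsg

universe u v w
variable {G : Type u} [Group G]

/-- simultaneous transitivity -/
theorem sim_transitive {Γ : Type u} {X : Type v} {ι : Type w} [DecidableEq ι] [Group Γ] [Finite Γ] [MulAction Γ X] (π : ι → ℕ) (hπ : ∀ i, (π i).Prime)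
    (hinj : Function.Injective π) (x y : ι → X) (T : Finset ι) (h : ∀ i ∈ T, ∃ γ : Γ, γ • x i = y i)
    (hi : ∀ i ∈ T, ∃ k, (MulAction.stabilizer Γ (y i)).index = (π i) ^ k) :
    (∃ γ : Γ, ∀ i ∈ T, γ • x i = y i) ∧
    (⨅ i ∈ T, MulAction.stabilizer Γ (y i) : Subgroup Γ).index = ∏ i ∈ T, (MulAction.stabilizer Γ (y i)).index := by
  induction T using Finset.induction_on with
  | empty =>
    refine ⟨⟨1, fun i hi => absurd hi (Finset.notMem_empty i)⟩, ?_⟩
    simp
  | insert j T hj ih =>
    obtain ⟨⟨γ, hγ⟩, hidx⟩ := ih (fun i hi' => h i (Finset.mem_insert_of_mem hi')) (fun i hi' => hi i (Finset.mem_insert_of_mem hi'))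
    obtain ⟨k, hk⟩ := hi j (Finset.mem_insert_self j T)
    have hcop : (MulAction.stabilizer Γ (y j)).index.Coprime (⨅ i ∈ T, MulAction.stabilizer Γ (y i) : Subgroup Γ).index := by
      rw [hidx, hk]
      apply Nat.Coprime.prod_right
      intro i hiT
      obtain ⟨l, hl⟩ := hi i (Finset.mem_insert_of_mem hiT)
      rw [hl]
      exact Nat.Coprime.pow _ _ ((Nat.coprime_primes (hπ j) (hπ i)).2 (fun h => hj (hinj h ▸ hiT)))
    constructor
    · obtain ⟨δ, hδ⟩ := h j (Finset.mem_insert_self j T)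
      -- δ γ⁻¹ = a b
      obtain ⟨a, ha, b, hb, hab⟩ := isFact_of_coprime hcop (δ * γ⁻¹)
      refine ⟨b * γ, ?_⟩
      intro i hi'
      rcases Finset.mem_insert.1 hi' with rfl | hiT
      · have h1 : b * γ = a⁻¹ * δ := by
          rw [← inv_mul_eq_iff_eq_mul] at hab
          rw [← hab]; group
        rw [h1, mul_smul, hδ]
        exact (MulAction.stabilizer Γ (y i)).inv_mem ha
      · rw [mul_smul, hγ i hiT]
        have h2 : b ∈ MulAction.stabilizer Γ (y i) := by
          have h3 : (⨅ i ∈ T, MulAction.stabilizer Γ (y i) : Subgroup Γ) ≤ MulAction.stabilizer Γ (y i) := iInf₂_le i hiT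
          exact h3 hb
        exact h2
    · rw [Finset.iInf_insert, Finset.prod_insert hj, ← hidx]
      exact index_inf_of_coprime hcop

/-- conjugation action of a subgroup on the set of subgroups -/
@[reducible] def conjSubAct (N : Subgroup G) : MulAction N (Subgroup G) := MulAction.compHom _ ((MulAut.conj : G →* MulAut G).comp N.subtype)

theorem stabilizer_conjSubAct (N K : Subgroup G) : 
    letI := conjSubAct N
    MulAction.stabilizer N K = (normalizer (K : Set G)).subgroupOf N := by
  letI := conjSubAct N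
  ext x
  rw [MulAction.mem_stabilizer_iff, mem_subgroupOf, ← conj_smul_eq_self_iff]
  rfl

section Sys

variable [Finite G]

/-- primes dividing |G| as a finset of `Nat.Primes` -/
noncomputable def prs (G : Type u) : Finset Nat.Primes := 
  (Finset.subtype (fun p : ℕ => Nat.Prime p) (Nat.card G).primeFactors : Finset {p : ℕ // Nat.Prime p})

theorem mem_prs {p : Nat.Primes} : p ∈ prs G ↔ (p : ℕ) ∣ Nat.card G := by
  unfold prs
  constructor
  · intro h
    exact (Nat.mem_primeFactors.1 (Finset.mem_subtype.1 h)).2.1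
  · intro h
    exact Finset.mem_subtype.2 (Nat.mem_primeFactors.2 ⟨p.2, h, Nat.card_pos.ne'⟩)

theorem compSys_eq_top {K : Nat.Primes → Subgroup G} (hK : IsComplementSystem K) {p : Nat.Primes} (hp : ¬ (p : ℕ) ∣ Nat.card G) : 
    K p = ⊤ := by
  rw [← Subgroup.index_eq_one, hK p, Nat.factorization_eq_zero_of_not_dvd hp, pow_zero]

theorem compSys_coprime {K : Nat.Primes → Subgroup G} (hK : IsComplementSystem K) (p : Nat.Primes) : (Nat.card (K p)).Coprime p := by
  have h1 := Subgroup.card_mul_index (K p)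
  rw [hK p] at h1
  rw [Nat.coprime_comm, p.2.coprime_iff_not_dvd]
  intro hd
  have h2 : (p : ℕ) ^ ((Nat.card G).factorization p + 1) ∣ Nat.card G := by
    conv_rhs => rw [← h1]
    rw [pow_succ, mul_comm]
    exact Nat.mul_dvd_mul_right hd _
  exact Nat.pow_succ_factorization_not_dvd Nat.card_pos.ne' p.2 h2

theorem complementSystem_of {K : Nat.Primes → Subgroup G} (h1 : ∀ p, ∃ k, (K p).index = (p : ℕ) ^ k) 
    (h2 : ∀ p : Nat.Primes, (Nat.card (K p)).Coprime p) : IsComplementSystem K := by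
  intro p
  obtain ⟨k, hk⟩ := h1 p
  have h3 := Subgroup.card_mul_index (K p)
  have h4 : (Nat.card G).factorization p = k := by
    rw [← h3, hk, Nat.factorization_mul Nat.card_pos.ne' (pow_pos p.2.pos k).ne', Finsupp.add_apply, 
      Nat.factorization_eq_zero_of_not_dvd ((Nat.Prime.coprime_iff_not_dvd p.2).1 (h2 p).symm), Nat.Prime.factorization_pow p.2, zero_add, 
      Finsupp.single_eq_same]
  rw [hk, h4]

theorem index_normalizer_compSys {K : Nat.Primes → Subgroup G} (hK : IsComplementSystem K) (p : Nat.Primes) : 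
    ∃ k, (normalizer (K p : Set G)).index = (p : ℕ) ^ k := by
  have h1 : (normalizer (K p : Set G)).index ∣ (K p).index := Subgroup.index_dvd_of_le le_normalizer
  rw [hK p] at h1
  obtain ⟨k, -, hk⟩ := (Nat.dvd_prime_pow p.2).1 h1
  exact ⟨k, hk⟩

/-- relative version of simultaneous conjugacy -/
theorem sim_conj (N : Subgroup G) [hN : N.Normal] {K L : Nat.Primes → Subgroup G} (hL : IsComplementSystem L) 
    (hc : ∀ p ∈ prs G, ∃ n ∈ N, MulAut.conj n • K p = L p) : 
    ∃ n ∈ N, ∀ p ∈ prs G, MulAut.conj n • K p = L p := by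
  classical
  letI := conjSubAct N
  obtain ⟨⟨γ, hγ⟩, -⟩ := sim_transitive (Γ := N) (X := Subgroup G) (fun p : Nat.Primes => (p : ℕ)) (fun p => p.2) Subtype.coe_injective K L (prs G)
    (fun p hp => by
      obtain ⟨n, hn, h⟩ := hc p hp
      exact ⟨⟨n, hn⟩, h⟩)
    (fun p hp => by
      rw [stabilizer_conjSubAct]
      obtain ⟨k, hk⟩ := index_normalizer_compSys hL p
      have h1 : ((normalizer (L p : Set G)).subgroupOf N).index ∣ (p : ℕ) ^ k := by
        rw [← hk]
        exact CfsgH3.relIndex_dvd_index_of_normal_right _ N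
      obtain ⟨l, -, hl⟩ := (Nat.dvd_prime_pow p.2).1 h1
      exact ⟨l, hl⟩)
  exact ⟨γ, γ.2, hγ⟩

variable [hs : Group.IsSolvable G]

theorem compSys_conj {K L : Nat.Primes → Subgroup G} (hK : IsComplementSystem K) (hL : IsComplementSystem L) : 
    ∃ g : G, ∀ p : Nat.Primes, MulAut.conj g • K p = L p := by
  obtain ⟨g, -, hg⟩ := sim_conj (⊤ : Subgroup G) (K := K) hL (fun p _ => by
    obtain ⟨g, hg⟩ := hall_pprime_conj p.2 (compSys_coprime hK p) (hK p) (compSys_coprime hL p) (hL p)
    exact ⟨g, mem_top g, hg⟩)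
  refine ⟨g, fun p => ?_⟩
  by_cases hp : p ∈ prs G
  · exact hg p hp
  · rw [mem_prs] at hp
    rw [compSys_eq_top hK hp, compSys_eq_top hL hp]
    exact conj_smul_of_normal g

theorem compSys_exists : ∃ K : Nat.Primes → Subgroup G, IsComplementSystem K := by
  have h : ∀ p : Nat.Primes, ∃ (Q : Subgroup G) (k : ℕ), (Nat.card Q).Coprime p ∧ Q.index = (p : ℕ) ^ k := fun p => exists_hall_pprime p.2
  choose K k h1 h2 using h
  exact ⟨K, complementSystem_of (fun p => ⟨k p, h2 p⟩) h1⟩

omit hs in
theorem mem_systemNormalizer {K : Nat.Primes → Subgroup G} {x : G} : 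
    x ∈ systemNormalizer K ↔ ∀ p, MulAut.conj x • K p = K p := by
  unfold systemNormalizer
  rw [Subgroup.mem_iInf]
  exact forall_congr' (fun p => conj_smul_eq_self_iff.symm)

omit hs in
theorem systemNormalizer_le {K : Nat.Primes → Subgroup G} (p : Nat.Primes) : systemNormalizer K ≤ normalizer (K p : Set G) := 
  iInf_le _ p

omit hs in
/-- the Sylow subgroup attached to a complement system -/
theorem sylow_of_compSys {K : Nat.Primes → Subgroup G} (hK : IsComplementSystem K) (p : Nat.Primes) : 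
    ∃ P : Subgroup G, IsPGroup p P ∧ ¬ (p : ℕ) ∣ P.index ∧ systemNormalizer K ≤ normalizer (P : Set G) := by
  classical
  haveI : Fact (p : ℕ).Prime := ⟨p.2⟩
  let K' : ℕ → Subgroup G := fun q => if h : q.Prime then K ⟨q, h⟩ else ⊤
  have hK' : ∀ q : ℕ, ∀ h : q.Prime, K' q = K ⟨q, h⟩ := fun q h => dif_pos h
  let T := (Nat.card G).primeFactors.erase p
  have hT : ∀ q ∈ T, q.Prime ∧ q ≠ p ∧ q ∣ Nat.card G := by
    intro q hq
    have h1 := Finset.mem_erase.1 hq
    have h2 := Nat.mem_primeFactors.1 h1.2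
    exact ⟨h2.1, h1.1, h2.2.1⟩
  have hidx : ∀ q ∈ T, (K' q).index = q ^ (Nat.card G).factorization q := by
    intro q hq
    rw [hK' q (hT q hq).1]; exact hK _
  have h1 := index_iInf_coprime K' T (by
    intro q hq r hr hqr
    rw [hidx q hq, hidx r hr]
    exact Nat.Coprime.pow _ _ ((Nat.coprime_primes (hT q hq).1 (hT r hr).1).2 hqr))
  rw [Finset.prod_congr rfl hidx] at h1
  refine ⟨⨅ q ∈ T, K' q, ?_, ?_, ?_⟩
  · -- order is p^a
    rw [IsPGroup.iff_card]
    have hprod : ∏ q ∈ (Nat.card G).primeFactors, q ^ (Nat.card G).factorization q = Nat.card G := by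
      have := Nat.prod_factorization_pow_eq_self (Nat.card_pos (α := G)).ne'
      rw [Finsupp.prod, Nat.support_factorization] at this
      exact this
    have h3 := Subgroup.card_mul_index (⨅ q ∈ T, K' q : Subgroup G)
    have hpos : 0 < ∏ q ∈ T, q ^ (Nat.card G).factorization q := Finset.prod_pos (fun q hq => pow_pos (hT q hq).1.pos _)
    by_cases hp : (p : ℕ) ∈ (Nat.card G).primeFactors
    · refine ⟨(Nat.card G).factorization p, ?_⟩
      rw [h1] at h3
      have h4 : (p : ℕ) ^ (Nat.card G).factorization p * ∏ q ∈ T, q ^ (Nat.card G).factorization q = Nat.card G := by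
        rw [Finset.mul_prod_erase _ (fun q => q ^ (Nat.card G).factorization q) hp, hprod]
      exact Nat.eq_of_mul_eq_mul_right hpos (h3.trans h4.symm)
    · refine ⟨0, ?_⟩
      have hTe : T = (Nat.card G).primeFactors := Finset.erase_eq_of_notMem hp
      have h5 : (⨅ q ∈ T, K' q : Subgroup G).index = Nat.card G := 
        (h1.trans (Finset.prod_congr hTe (fun _ _ => rfl))).trans hprod
      rw [h5] at h3
      rw [pow_zero]
      exact Nat.eq_of_mul_eq_mul_right (Nat.card_pos (α := G)) (by rw [h3, one_mul])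
  · rw [h1]
    intro hd
    obtain ⟨q, hq, hqd⟩ := (Prime.dvd_finset_prod_iff p.2.prime _).1 hd
    have := (Nat.prime_dvd_prime_iff_eq p.2 (hT q hq).1).1 (p.2.dvd_of_dvd_pow hqd)
    exact (hT q hq).2.1 this.symm
  · intro x hx
    rw [← conj_smul_eq_self_iff]
    rw [mem_systemNormalizer] at hx
    ext y
    rw [mem_conj_smul]
    simp only [Subgroup.mem_iInf]
    apply forall_congr'
    intro q
    apply forall_congr'
    intro hq
    rw [← mem_conj_smul, hK' q (hT q hq).1]
    exact SetLike.ext_iff.1 (hx ⟨q, (hT q hq).1⟩) y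

omit hs in
theorem systemNormalizer_nilpotent {K : Nat.Primes → Subgroup G} (hK : IsComplementSystem K) : 
    Group.IsNilpotent (systemNormalizer K) := by
  rw [isNilpotent_iff_sylow]
  intro p hp Q hQ
  haveI : Fact p.Prime := ⟨hp⟩
  obtain ⟨P, hP, hPi, hPn⟩ := sylow_of_compSys hK ⟨p, hp⟩
  obtain ⟨hQD, hQp, hQn⟩ := isSylowOf_iff.1 hQ
  -- Q ≤ P
  have hQP : Q ≤ P := by
    have h1 : IsPGroup p (P ⊔ Q : Subgroup G) := isPGroup_sup hP hQp (hQD.trans hPn)
    let P' : Sylow p G := hP.toSylow hPi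
    have h2 : (P' : Subgroup G) = P := rfl
    have h3 := P'.is_maximal' h1 (by rw [h2]; exact le_sup_left)
    calc Q ≤ P ⊔ Q := le_sup_right
      _ = P := h3.trans h2
  have hQe : Q = systemNormalizer K ⊓ P := by
    apply le_antisymm (le_inf hQD hQP)
    have h1 : Q.relIndex (systemNormalizer K ⊓ P) = 1 := by
      obtain ⟨k, hk⟩ := IsPGroup.iff_card.1 (hP.to_le (inf_le_right : systemNormalizer K ⊓ P ≤ P))
      have h2 : Q.relIndex (systemNormalizer K ⊓ P) ∣ p ^ k := hk ▸ Subgroup.relIndex_dvd_card _ _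
      obtain ⟨j, -, hj⟩ := (Nat.dvd_prime_pow hp).1 h2
      rcases Nat.eq_zero_or_pos j with h3 | h3
      · rw [hj, h3, pow_zero]
      · exfalso
        apply hQn
        have h4 : Q.relIndex (systemNormalizer K ⊓ P) ∣ Q.relIndex (systemNormalizer K) := by
          rw [← Subgroup.relIndex_mul_relIndex Q (systemNormalizer K ⊓ P) (systemNormalizer K) (le_inf hQD hQP) inf_le_left]
          exact dvd_mul_right _ _
        exact (hj ▸ dvd_pow_self p h3.ne').trans h4
    exact Subgroup.relIndex_eq_one.1 h1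
  rw [hQe]
  exact le_normalizer_inf le_normalizer hPn

end Sys

end CfsgH1
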