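import Cfsg.Agent.H1.SysNorm
import Cfsg.Agent.H1.MinNormal

set_option autoImplicit false

/-! System normalizers: quotients, cover-avoidance, Carter subgroups. -/

open scoped Pointwise commutatorElement

namespace CfsgH1

open Subgroup Cfsg

universe u v w
variable {G : Type u} [Group G] [Finite G]

theorem compSys_map {K : Nat.Primes → Subgroup G} (hK : IsComplementSystem K) (N : Subgroup G) [N.Normal] : 
    IsComplementSystem (fun p => (K p).map (QuotientGroup.mk' N)) := by
  apply complementSystem_of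
  · intro p
    have h1 : ((K p).map (QuotientGroup.mk' N)).index ∣ (K p).index := Subgroup.index_map_dvd _ (QuotientGroup.mk'_surjective N)
    rw [hK p] at h1
    obtain ⟨k, -, hk⟩ := (Nat.dvd_prime_pow p.2).1 h1
    exact ⟨k, hk⟩
  · intro p
    exact Nat.Coprime.coprime_dvd_left (Subgroup.card_map_dvd _ _) (compSys_coprime hK p)

theorem conj_smul_sup_mem {N X : Subgroup G} [hN : N.Normal] {h : G} (hh : h ∈ N ⊔ X) {Y : Subgroup G} (hY : MulAut.conj h • Y = X) :
    ∃ n ∈ N, MulAut.conj n • Y = X := by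
  obtain ⟨n, hn, x, hx, rfl⟩ := Subgroup.mem_sup_of_normal_left.1 hh
  -- n x = x (x⁻¹ n x)
  refine ⟨x⁻¹ * n * x, by simpa using hN.conj_mem n hn x⁻¹, ?_⟩
  rw [mul_assoc, map_mul, mul_smul, hY]
  exact conj_smul_of_mem (X.inv_mem hx)

variable [hs : Group.IsSolvable G]

theorem systemNormalizer_map {K : Nat.Primes → Subgroup G} (hK : IsComplementSystem K) (N : Subgroup G) [hN : N.Normal] : 
    systemNormalizer (fun p => (K p).map (QuotientGroup.mk' N)) = (systemNormalizer K).map (QuotientGroup.mk' N) := by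
  apply le_antisymm
  · intro x hx
    obtain ⟨g, rfl⟩ := QuotientGroup.mk'_surjective N x
    rw [mem_systemNormalizer] at hx
    -- each K p and its conjugate are conjugate by N
    obtain ⟨n, hn, h⟩ := sim_conj N (K := fun p => MulAut.conj g • K p) hK (by
      intro p _
      have h1 : N ⊔ (MulAut.conj g • K p) = N ⊔ K p := by
        have h2 := hx p
        rw [← map_conj_smul] at h2
        have h3 := congrArg (Subgroup.comap (QuotientGroup.mk' N)) h2
        rwa [QuotientGroup.comap_map_mk', QuotientGroup.comap_map_mk'] at h3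
      -- conjugate in N ⊔ K p
      set H := N ⊔ K p with hH
      have hKH : K p ≤ H := le_sup_right
      have hgH : MulAut.conj g • K p ≤ H := by rw [← h1]; exact le_sup_right
      have hcardg : Nat.card (MulAut.conj g • K p : Subgroup G) = Nat.card (K p) := card_conj_smul g (K p)
      have hidxg : (MulAut.conj g • K p : Subgroup G).index = (K p).index := by
        have e1 := Subgroup.card_mul_index (MulAut.conj g • K p : Subgroup G)
        have e2 := Subgroup.card_mul_index (K p)
        rw [hcardg] at e1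
        exact Nat.eq_of_mul_eq_mul_left Nat.card_pos (e1.trans e2.symm)
      have hcop := compSys_coprime hK p
      have hp1 : ∃ k, ((MulAut.conj g • K p : Subgroup G).subgroupOf H).index = (p : ℕ) ^ k := by
        have h3 : ((MulAut.conj g • K p : Subgroup G).subgroupOf H).index ∣ (p : ℕ) ^ (Nat.card G).factorization p := by
          rw [← hK p, ← hidxg]; exact Subgroup.relIndex_dvd_index_of_le hgH
        obtain ⟨k, -, hk⟩ := (Nat.dvd_prime_pow p.2).1 h3
        exact ⟨k, hk⟩
      have hp2 : ∃ k, ((K p).subgroupOf H).index = (p : ℕ) ^ k := by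
        have h3 : ((K p).subgroupOf H).index ∣ (p : ℕ) ^ (Nat.card G).factorization p := by
          rw [← hK p]; exact Subgroup.relIndex_dvd_index_of_le hKH
        obtain ⟨k, -, hk⟩ := (Nat.dvd_prime_pow p.2).1 h3
        exact ⟨k, hk⟩
      obtain ⟨k1, hk1⟩ := hp1
      obtain ⟨k2, hk2⟩ := hp2
      obtain ⟨y, hy⟩ := hall_pprime_conj p.2 (Q := (MulAut.conj g • K p : Subgroup G).subgroupOf H) (R := (K p).subgroupOf H)
        (by rw [Nat.card_congr (Subgroup.subgroupOfEquivOfLe hgH).toEquiv, hcardg]; exact hcop) hk1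
        (by rw [Nat.card_congr (Subgroup.subgroupOfEquivOfLe hKH).toEquiv]; exact hcop) hk2
      rw [conj_smul_subgroupOf] at hy
      have hle : MulAut.conj (y : G) • (MulAut.conj g • K p : Subgroup G) ≤ H := by
        intro z hz
        rw [mem_conj_smul] at hz
        have : z = y * ((y : G)⁻¹ * z * y) * (y : G)⁻¹ := by group
        rw [this]
        exact H.mul_mem (H.mul_mem y.2 (hgH hz)) (H.inv_mem y.2)
      have h5 : MulAut.conj (y : G) • (MulAut.conj g • K p : Subgroup G) = K p := eq_of_subgroupOf_eq hle hKH hy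
      exact conj_smul_sup_mem (N := N) (X := K p) (h := (y : G)) y.2 h5)
    refine ⟨n * g, ?_, ?_⟩
    · change n * g ∈ systemNormalizer K
      rw [mem_systemNormalizer]
      intro p
      by_cases hp : p ∈ prs G
      · rw [map_mul, mul_smul]; exact h p hp
      · rw [mem_prs] at hp
        rw [compSys_eq_top hK hp]
        exact conj_smul_of_normal _
    · rw [map_mul, (show QuotientGroup.mk' N n = 1 from (QuotientGroup.eq_one_iff n).2 hn), one_mul]
  · rintro _ ⟨x, hx, rfl⟩
    change x ∈ systemNormalizer K at hx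
    rw [mem_systemNormalizer] at hx ⊢
    intro p
    rw [← map_conj_smul, hx p]

theorem normalClosure_systemNormalizer {K : Nat.Primes → Subgroup G} (hK : IsComplementSystem K) : 
    Subgroup.normalClosure ((systemNormalizer K : Subgroup G) : Set G) = ⊤ := by
  by_contra hne
  set C := Subgroup.normalClosure ((systemNormalizer K : Subgroup G) : Set G) with hC
  haveI : Nontrivial (G ⧸ C) := QuotientGroup.nontrivial_iff.2 hne
  obtain ⟨M', hM', hMp⟩ := exists_normal_prime_index (G := G ⧸ C)
  set M := M'.comap (QuotientGroup.mk' C) with hM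
  haveI : M.Normal := hM'.comap _
  have hMi : M.index = M'.index := Subgroup.index_comap_of_surjective M' (QuotientGroup.mk'_surjective C)
  have hCM : C ≤ M := by
    intro x hx
    rw [hM, mem_comap, QuotientGroup.mk'_apply, (QuotientGroup.eq_one_iff x).2 hx]; exact one_mem _
  have hDM : systemNormalizer K ≤ M := (Subgroup.subset_normalClosure (s := ((systemNormalizer K : Subgroup G) : Set G))).trans hCM
  have h1 := systemNormalizer_map hK M
  have h2 : (systemNormalizer K).map (QuotientGroup.mk' M) = ⊥ := by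
    rw [Subgroup.map_eq_bot_iff, QuotientGroup.ker_mk']; exact hDM
  rw [h2] at h1
  have hcard : Nat.card (G ⧸ M) = M'.index := hMi
  haveI : Fact (Nat.card (G ⧸ M)).Prime := ⟨by rw [hcard]; exact hMp⟩
  haveI : IsCyclic (G ⧸ M) := isCyclic_of_prime_card (p := Nat.card (G ⧸ M)) rfl
  have h3 : systemNormalizer (fun p => (K p).map (QuotientGroup.mk' M)) = ⊤ := by
    rw [eq_top_iff]
    intro x _
    rw [mem_systemNormalizer]
    intro p
    letI : CommGroup (G ⧸ M) := IsCyclic.commGroup
    exact conj_smul_of_normal x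
  rw [h3] at h1
  have h4 : Nat.card (G ⧸ M) = 1 := by
    rw [← Subgroup.card_top (G := G ⧸ M), h1, Subgroup.card_bot]
  rw [hcard] at h4
  exact hMp.ne_one h4

omit hs in
theorem center_le_systemNormalizer {K : Nat.Primes → Subgroup G} : center G ≤ systemNormalizer K := by
  intro z hz
  rw [mem_systemNormalizer]
  intro p
  ext y
  rw [mem_conj_smul]
  have : z⁻¹ * y * z = y := by
    rw [mul_assoc, Subgroup.mem_center_iff.1 hz y, inv_mul_cancel_left]
  rw [this]

/-- a system normalizer avoids noncentral minimal normal subgroups -/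
theorem systemNormalizer_avoid {K : Nat.Primes → Subgroup G} (hK : IsComplementSystem K) {B : Subgroup G} [hB : B.Normal] (hBne : B ≠ ⊥)
    (hmin : ∀ N : Subgroup G, N.Normal → N ≤ B → N = ⊥ ∨ N = B) (hnc : ¬ B ≤ center G) : B ⊓ systemNormalizer K = ⊥ := by
  obtain ⟨hab, p, hp, hBp⟩ := elemAb_of_minNormal hBne hmin
  haveI : Fact p.Prime := ⟨hp⟩
  have hBpg : IsPGroup p B := isPGroup_of_forall_pow_eq_one hBp
  set C := centralizer (B : Set G) with hC
  have hCt : C ≠ ⊤ := by
    intro h
    apply hnc
    intro b hb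
    rw [mem_center_iff]
    intro g
    have : g ∈ C := by rw [h]; trivial
    exact (mem_centralizer_iff.1 this b hb).symm
  haveI : Nontrivial (G ⧸ C) := QuotientGroup.nontrivial_iff.2 hCt
  obtain ⟨E', hE', hE'ne, hE'min, hE'ab, r, hr, -, hE'r⟩ := exists_minNormal_pgroup (G := G ⧸ C)
  haveI : Fact r.Prime := ⟨hr⟩
  set E := E'.comap (QuotientGroup.mk' C) with hE
  haveI hEn : E.Normal := hE'.comap _
  have hEC : ¬ E ≤ C := by
    intro h
    apply hE'ne
    rw [eq_bot_iff]
    intro x hx
    obtain ⟨y, rfl⟩ := QuotientGroup.mk'_surjective C x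
    exact (QuotientGroup.eq_one_iff y).2 (h hx)
  -- fixed points of E on B are trivial
  have hfix : B ⊓ centralizer (E : Set G) = ⊥ := by
    rcases hmin (B ⊓ centralizer (E : Set G)) inferInstance inf_le_left with h | h
    · exact h
    · exfalso
      apply hEC
      rw [hC, le_centralizer_iff]
      exact inf_eq_left.1 h
  have hrp : r ≠ p := by
    rintro rfl
    -- action of E/C (r-group) on B has fixed points; use a Sylow subgroup
    obtain ⟨S, hS⟩ := exists_isSylowOf r E
    have hSE : S ≤ E := isSylowOf_le hS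
    have hSp := isSylowOf_isPGroup hS
    have h1 : B ⊓ centralizer ((B ⊔ S : Subgroup G) : Set G) ≠ ⊥ := 
      inf_centralizer_ne_bot_of_nilpotent (isPGroup_sup hBpg hSp (le_normalizer_of_normal S B)).isNilpotent le_sup_left 
        (le_normalizer_of_normal _ _) hBne
    -- E = C S
    have hES : E ≤ C ⊔ S := by
      have h2 : S.map (QuotientGroup.mk' C) = E' := by
        have h3 := isSylowOf_map (QuotientGroup.mk' C) hS
        rw [hE, Subgroup.map_comap_eq_self_of_surjective (QuotientGroup.mk'_surjective C)] at h3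
        obtain ⟨h4, -, h5⟩ := isSylowOf_iff.1 h3
        apply le_antisymm h4
        rw [← Subgroup.relIndex_eq_one]
        obtain ⟨k, hk⟩ := IsPGroup.iff_card.1 hE'r
        have h6 : (S.map (QuotientGroup.mk' C)).relIndex E' ∣ r ^ k := hk ▸ Subgroup.relIndex_dvd_card _ _
        obtain ⟨j, -, hj⟩ := (Nat.dvd_prime_pow hr).1 h6
        rcases Nat.eq_zero_or_pos j with h7 | h7
        · rw [hj, h7, pow_zero]
        · exact absurd (hj ▸ dvd_pow_self r h7.ne') h5
      rw [hE, ← h2, QuotientGroup.comap_map_mk']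
    have h2 : B ⊓ centralizer ((B ⊔ S : Subgroup G) : Set G) ≤ B ⊓ centralizer (E : Set G) := by
      refine le_inf inf_le_left ?_
      rw [le_centralizer_iff]
      refine hES.trans (sup_le ?_ ?_)
      · rw [hC]; exact centralizer_le inf_le_left
      · rw [le_centralizer_iff]
        exact inf_le_right.trans (centralizer_le (SetLike.coe_subset_coe.2 le_sup_right))
    rw [hfix, le_bot_iff] at h2
    exact h1 h2
  rw [eq_bot_iff, ← hfix]
  rintro x ⟨hxB, hxD⟩
  refine ⟨hxB, ?_⟩
  change x ∈ systemNormalizer K at hxD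
  -- K_p centralizes x
  have hKx : K ⟨p, hp⟩ ≤ centralizer ({x} : Set G) := by
    intro k hk
    rw [mem_centralizer_iff]
    intro x' hx'
    rw [Set.mem_singleton_iff] at hx'
    rw [hx']
    have h1 : ⁅x, k⁆ ∈ B := by
      rw [commutatorElement_def]
      have : x * k * x⁻¹ * k⁻¹ = x * (k * x⁻¹ * k⁻¹) := by group
      rw [this]
      exact B.mul_mem hxB (hB.conj_mem _ (B.inv_mem hxB) k)
    have h2 : ⁅x, k⁆ ∈ K ⟨p, hp⟩ := by
      rw [commutatorElement_def]
      exact (K ⟨p, hp⟩).mul_mem ((mem_normalizer_iff.1 (systemNormalizer_le _ hxD) k).1 hk) ((K ⟨p, hp⟩).inv_mem hk)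
    have h3 : B ⊓ K ⟨p, hp⟩ = ⊥ := by
      apply inf_eq_bot_of_coprime
      obtain ⟨k, hk⟩ := IsPGroup.iff_card.1 hBpg
      rw [hk]
      exact Nat.Coprime.pow_left k (compSys_coprime hK ⟨p, hp⟩).symm
    have h4 : ⁅x, k⁆ ∈ B ⊓ K ⟨p, hp⟩ := ⟨h1, h2⟩
    rw [h3, mem_bot, commutatorElement_eq_one_iff_mul_comm] at h4
    exact h4
  have hCx : C ≤ centralizer ({x} : Set G) := by
    rw [hC]; apply centralizer_le
    intro z hz
    rw [Set.mem_singleton_iff] at hz
    rw [hz]; exact hxB
  -- E ≤ C ⊔ K_p
  have hEK : E ≤ C ⊔ K ⟨p, hp⟩ := by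
    have hK' := compSys_map hK C
    have h1 : E' ≤ (K ⟨p, hp⟩).map (QuotientGroup.mk' C) := by
      have h2 : (((K ⟨p, hp⟩).map (QuotientGroup.mk' C)) ⊔ E').index ∣ ((K ⟨p, hp⟩).map (QuotientGroup.mk' C)).index := 
        Subgroup.index_dvd_of_le le_sup_left
      -- the sup is a p'-group
      have h3 : (Nat.card (((K ⟨p, hp⟩).map (QuotientGroup.mk' C)) ⊔ E' : Subgroup (G ⧸ C))).Coprime p := by
        have h4 := card_sup_mul_card_inf (le_normalizer_of_normal ((K ⟨p, hp⟩).map (QuotientGroup.mk' C)) E')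
        have h5 : (Nat.card ((K ⟨p, hp⟩).map (QuotientGroup.mk' C)) * Nat.card E').Coprime p := by
          apply Nat.Coprime.mul_left
          · exact compSys_coprime hK' ⟨p, hp⟩
          · obtain ⟨k, hk⟩ := IsPGroup.iff_card.1 hE'r
            rw [hk]; exact Nat.Coprime.pow_left k ((Nat.coprime_primes hr hp).2 hrp)
        rw [← h4] at h5
        exact Nat.Coprime.coprime_dvd_left (dvd_mul_right _ _) h5
      have h6 : ((K ⟨p, hp⟩).map (QuotientGroup.mk' C)) = ((K ⟨p, hp⟩).map (QuotientGroup.mk' C)) ⊔ E' := by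
        have h7 : ((K ⟨p, hp⟩).map (QuotientGroup.mk' C)).relIndex (((K ⟨p, hp⟩).map (QuotientGroup.mk' C)) ⊔ E') = 1 := by
          have h8 : ((K ⟨p, hp⟩).map (QuotientGroup.mk' C)).relIndex (((K ⟨p, hp⟩).map (QuotientGroup.mk' C)) ⊔ E') ∣ 
              p ^ (Nat.card (G ⧸ C)).factorization p := by
            rw [← hK' ⟨p, hp⟩]
            exact Subgroup.relIndex_dvd_index_of_le le_sup_left
          have h9 : ((K ⟨p, hp⟩).map (QuotientGroup.mk' C)).relIndex (((K ⟨p, hp⟩).map (QuotientGroup.mk' C)) ⊔ E') ∣ 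
              Nat.card (((K ⟨p, hp⟩).map (QuotientGroup.mk' C)) ⊔ E' : Subgroup (G ⧸ C)) := Subgroup.relIndex_dvd_card _ _
          exact Nat.eq_one_of_dvd_coprimes (h3.pow_right _) h9 h8
        exact le_antisymm le_sup_left (Subgroup.relIndex_eq_one.1 h7)
      rw [h6]; exact le_sup_right
    rw [hE, ← QuotientGroup.comap_map_mk']
    exact comap_mono h1
  change x ∈ centralizer (E : Set G)
  rw [mem_centralizer_iff]
  intro e he
  have h5 : e ∈ centralizer ({x} : Set G) := (hEK.trans (sup_le hCx hKx)) he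
  exact (mem_centralizer_iff.1 h5 x rfl).symm

end CfsgH1
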