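import Cfsg.Agent.H1.SysNorm2

set_option autoImplicit false

/-! Carter subgroups and system normalizers. -/

open scoped Pointwise commutatorElement

namespace CfsgH1

open Subgroup Cfsg

universe u v w

/-- `K` reduces into `C` -/
def Reduces {G : Type u} [Group G] (K : Nat.Primes → Subgroup G) (C : Subgroup G) : Prop := 
  ∀ p : Nat.Primes, ∃ k, (K p).relIndex C = (p : ℕ) ^ k

theorem isC_map {G : Type u} [Group G] [Finite G] [Group.IsSolvable G] {G' : Type v} [Group G'] (f : G →* G') 
    (hf : Function.Surjective f) {C : Subgroup G} (h : IsC C) : IsC (C.map f) := 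
  isC_map_of_conj (fun K _ C D hC hD => (carter_aux _ K rfl).2 C D hC hD) f hf h

theorem carter_contains (n : ℕ) : ∀ (G : Type u) [Group G] [Finite G] [Group.IsSolvable G], Nat.card G = n → 
    ∀ (C : Subgroup G) (K : Nat.Primes → Subgroup G), IsC C → IsComplementSystem K → Reduces K C → systemNormalizer K ≤ C := by
  induction n using Nat.strong_induction_on with
  | _ n IH =>
  intro G _ _ _ hn C K hC hK hred
  rcases subsingleton_or_nontrivial G with hsub | hnt
  · intro x _
    rw [Subsingleton.elim x 1]; exact one_mem _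
  obtain ⟨N, hN, hNe, hNmin, hNab, q, hq, hNq, hNqg⟩ := exists_minNormal_pgroup (G := G)
  haveI := hN
  haveI : Fact q.Prime := ⟨hq⟩
  set π := QuotientGroup.mk' N with hπ
  have hπs := QuotientGroup.mk'_surjective N
  -- D ≤ C N
  have h1 : systemNormalizer (fun p => (K p).map π) ≤ C.map π := by
    refine IH _ (hn ▸ card_quotient_lt hNe) (G ⧸ N) rfl (C.map π) _ (isC_map π hπs hC) (compSys_map hK N) ?_
    intro p
    obtain ⟨k, hk⟩ := hred p
    have h2 : ((K p).map π).relIndex (C.map π) ∣ (p : ℕ) ^ k := by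
      rw [← hk, ← Subgroup.inf_relIndex_right (K p) C]
      refine (Subgroup.relIndex_dvd_of_le_left _ ?_).trans (relIndex_map_dvd π (inf_le_right : K p ⊓ C ≤ C))
      exact Subgroup.map_mono inf_le_left
    obtain ⟨l, -, hl⟩ := (Nat.dvd_prime_pow p.2).1 h2
    exact ⟨l, hl⟩
  have hDH : systemNormalizer K ≤ N ⊔ C := by
    rw [systemNormalizer_map hK N] at h1
    have h2 := Subgroup.comap_mono (f := π) h1
    rw [hπ, QuotientGroup.comap_map_mk', QuotientGroup.comap_map_mk'] at h2
    exact le_sup_right.trans h2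
  set H := N ⊔ C with hH
  have hCH : C ≤ H := le_sup_right
  -- K reduces into H
  have hredH : Reduces K H := by
    intro p
    by_cases hpq : (p : ℕ) = q
    · -- index of C in H is a power of q
      have h2 : (K p).relIndex H ∣ C.relIndex H * (K p ⊓ C).relIndex C := by
        have h3 : (K p).relIndex H ∣ (K p ⊓ C).relIndex H := Subgroup.relIndex_dvd_of_le_left H inf_le_left
        rw [mul_comm, Subgroup.relIndex_mul_relIndex (K p ⊓ C) C H inf_le_right hCH]
        exact h3
      obtain ⟨k, hk⟩ := hred p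
      rw [Subgroup.inf_relIndex_right, hk] at h2
      have h3 : ∃ j, C.relIndex H = (p : ℕ) ^ j := by
        have h4 : C.relIndex H ∣ Nat.card N := by
          have h5 := card_sup_mul_card_inf (le_normalizer_of_normal C N)
          rw [sup_comm, ← hH] at h5
          have h6 := card_mul_relIndex' hCH
          rw [← h6, mul_assoc] at h5
          exact ⟨_, (Nat.eq_of_mul_eq_mul_left Nat.card_pos h5).symm⟩
        obtain ⟨m, hm⟩ := IsPGroup.iff_card.1 hNqg
        rw [hm, ← hpq] at h4
        obtain ⟨j, -, hj⟩ := (Nat.dvd_prime_pow p.2).1 h4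
        exact ⟨j, hj⟩
      obtain ⟨j, hj⟩ := h3
      rw [hj, ← pow_add] at h2
      obtain ⟨l, -, hl⟩ := (Nat.dvd_prime_pow p.2).1 h2
      exact ⟨l, hl⟩
    · -- N ≤ K p
      have hNK : N ≤ K p := by
        have h3 : (K p).relIndex (K p ⊔ N) = 1 := by
          have h4 : (K p).relIndex (K p ⊔ N) ∣ (p : ℕ) ^ (Nat.card G).factorization p := by
            rw [← hK p]; exact Subgroup.relIndex_dvd_index_of_le le_sup_left
          have h5 : (K p).relIndex (K p ⊔ N) ∣ Nat.card N := by
            have h6 := card_sup_mul_card_inf (le_normalizer_of_normal (K p) N)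
            have h7 := card_mul_relIndex' (le_sup_left : K p ≤ K p ⊔ N)
            rw [← h7, mul_assoc] at h6
            exact ⟨_, (Nat.eq_of_mul_eq_mul_left Nat.card_pos h6).symm⟩
          obtain ⟨m, hm⟩ := IsPGroup.iff_card.1 hNqg
          rw [hm] at h5
          exact Nat.eq_one_of_dvd_coprimes (Nat.Coprime.pow _ _ ((Nat.coprime_primes p.2 hq).2 hpq)) h4 h5
        exact le_sup_right.trans (Subgroup.relIndex_eq_one.1 h3)
      obtain ⟨k, hk⟩ := hred p
      have h2 : (K p).relIndex H = (K p).relIndex C := by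
        -- K p ⊓ H = N (K p ⊓ C)
        have h3 : K p ⊓ H = N ⊔ (K p ⊓ C) := modular_law (le_normalizer_of_normal C N) hNK
        have h4 : (K p ⊓ H).relIndex H * Nat.card (K p ⊓ H : Subgroup G) = Nat.card H := by
          rw [mul_comm]; exact card_mul_relIndex' inf_le_right
        have h5 : (K p ⊓ C).relIndex C * Nat.card (K p ⊓ C : Subgroup G) = Nat.card C := by
          rw [mul_comm]; exact card_mul_relIndex' inf_le_right
        have h6 := card_sup_mul_card_inf (le_normalizer_of_normal C N)
        have h7 := card_sup_mul_card_inf (le_normalizer_of_normal (K p ⊓ C) N)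
        rw [sup_comm, ← hH] at h6
        rw [sup_comm, ← h3] at h7
        have h8 : (K p ⊓ C) ⊓ N = C ⊓ N := by
          apply le_antisymm (inf_le_inf_right _ inf_le_right)
          exact le_inf (le_inf (inf_le_right.trans hNK) inf_le_left) inf_le_right
        rw [h8] at h7
        rw [Subgroup.inf_relIndex_right] at h4 h5
        -- |H||C∩N| = |C||N|, |K∩H||C∩N| = |K∩C||N|
        have hpos : 0 < Nat.card (K p ⊓ C : Subgroup G) * Nat.card N := Nat.mul_pos Nat.card_pos Nat.card_pos
        apply Nat.eq_of_mul_eq_mul_right hpos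
        calc (K p).relIndex H * (Nat.card (K p ⊓ C : Subgroup G) * Nat.card N) 
            = (K p).relIndex H * (Nat.card (K p ⊓ H : Subgroup G) * Nat.card (C ⊓ N : Subgroup G)) := by rw [h7]
          _ = ((K p).relIndex H * Nat.card (K p ⊓ H : Subgroup G)) * Nat.card (C ⊓ N : Subgroup G) := by ring
          _ = Nat.card C * Nat.card N := by rw [h4, h6]
          _ = (K p).relIndex C * (Nat.card (K p ⊓ C : Subgroup G) * Nat.card N) := by rw [← h5]; ring
      exact ⟨k, h2.trans hk⟩
  by_cases hHt : H = ⊤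
  · -- G = N C
    by_cases hCt : C = ⊤
    · rw [hCt]; exact le_top
    have hNC : N ⊓ C = ⊥ := by
      haveI := inf_normal_of_abelian hNab hHt
      rcases hNmin (N ⊓ C) this inf_le_left with h2 | h2
      · exact h2
      · exfalso
        apply hCt
        rw [← hHt, hH, sup_eq_right.2 (inf_eq_left.1 h2)]
    have hCcoatom : IsCoatom C := by
      refine ⟨hCt, ?_⟩
      intro L hL
      -- N ⊓ L is normal
      have hNL : N ⊔ L = ⊤ := top_le_iff.1 (hHt ▸ sup_le_sup_left hL.le N)
      haveI := inf_normal_of_abelian hNab hNL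
      have hLe : L = (N ⊓ L) ⊔ C := by
        have h2 : L ⊓ H = (L ⊓ N) ⊔ C := by
          apply le_antisymm
          · intro x hx
            obtain ⟨n, hn, c, hc, rfl⟩ := Subgroup.mem_sup_of_normal_left.1 hx.2
            have hnL : n ∈ L := by
              have := L.mul_mem hx.1 (L.inv_mem (hL.le hc))
              rwa [mul_inv_cancel_right] at this
            exact mul_mem (le_sup_left (a := L ⊓ N) ⟨hnL, hn⟩) (le_sup_right (a := L ⊓ N) hc)
          · exact sup_le (le_inf inf_le_left (inf_le_right.trans le_sup_left)) (le_inf hL.le hCH)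
        rw [hHt, inf_top_eq, inf_comm] at h2
        exact h2
      rcases hNmin (N ⊓ L) this inf_le_left with h2 | h2
      · exfalso
        rw [h2, bot_sup_eq] at hLe
        exact hL.ne hLe.symm
      · rw [← hNL, sup_eq_right.2 (inf_eq_left.1 h2)]
    -- K_q ≤ C up to ...: K_q ⊓ C has the order of K_q
    have hle : K ⟨q, hq⟩ ≤ C := by
      obtain ⟨k, hk⟩ := hred ⟨q, hq⟩
      have h2 : (K ⟨q, hq⟩ ⊓ C).relIndex (K ⟨q, hq⟩) = 1 := by
        have h3 : (K ⟨q, hq⟩ ⊓ C).relIndex (K ⟨q, hq⟩) ∣ Nat.card (K ⟨q, hq⟩) := Subgroup.relIndex_dvd_card _ _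
        have h4 : (K ⟨q, hq⟩ ⊓ C).relIndex (K ⟨q, hq⟩) ∣ (K ⟨q, hq⟩ ⊓ C).index := Subgroup.relIndex_dvd_index_of_le inf_le_left
        have h5 : (K ⟨q, hq⟩ ⊓ C).index = q ^ k * Nat.card N := by
          rw [← Subgroup.relIndex_mul_index (inf_le_right : K ⟨q, hq⟩ ⊓ C ≤ C), Subgroup.inf_relIndex_right, hk]
          congr 1
          have h6 := index_eq_of_sup hHt
          rw [hNC, Subgroup.card_bot, mul_one] at h6
          exact h6
        obtain ⟨m, hm⟩ := IsPGroup.iff_card.1 hNqg
        rw [h5, hm, ← pow_add] at h4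
        exact Nat.eq_one_of_dvd_coprimes ((compSys_coprime hK ⟨q, hq⟩).pow_right _) h3 h4
      exact (Subgroup.relIndex_eq_one.1 h2).trans inf_le_right
    -- C normalizes K_q
    have hCN : C ≤ normalizer (K ⟨q, hq⟩ : Set G) := by
      haveI := hC.1
      haveI hnorm : ((K ⟨q, hq⟩).subgroupOf C).Normal := by
        obtain ⟨k, hk⟩ := hred ⟨q, hq⟩
        exact nilpotent_hall_normal (p := q) (k := k) (by
          rw [Nat.card_congr (Subgroup.subgroupOfEquivOfLe hle).toEquiv]; exact compSys_coprime hK ⟨q, hq⟩) hk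
      exact le_normalizer_of_normal_subgroupOf hle hnorm
    rcases hCcoatom.le_iff.1 hCN with h2 | h2
    · -- K_q normal in G: contradiction
      exfalso
      haveI := normalizer_eq_top_iff.1 h2
      -- G nilpotent
      have hG : Group.IsNilpotent G := by
        have hd : N ⊓ K ⟨q, hq⟩ = ⊥ := by
          apply inf_eq_bot_of_coprime
          obtain ⟨m, hm⟩ := IsPGroup.iff_card.1 hNqg
          rw [hm]
          exact Nat.Coprime.pow_left m (compSys_coprime hK ⟨q, hq⟩).symm
        let f : G →* (G ⧸ N) × (G ⧸ K ⟨q, hq⟩) := (QuotientGroup.mk' N).prod (QuotientGroup.mk' (K ⟨q, hq⟩))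
        have hf : Function.Injective f := by
          rw [injective_iff_map_eq_one]
          intro x hx
          have hx' : ((x : G ⧸ N), (x : G ⧸ K ⟨q, hq⟩)) = 1 := hx
          rw [Prod.mk_eq_one] at hx'
          have : x ∈ N ⊓ K ⟨q, hq⟩ := ⟨(QuotientGroup.eq_one_iff x).1 hx'.1, (QuotientGroup.eq_one_iff x).1 hx'.2⟩
          rw [hd, mem_bot] at this
          exact this
        haveI h3 : Group.IsNilpotent (G ⧸ N) := by
          haveI := hC.1
          exact Group.nilpotent_of_surjective ((QuotientGroup.mk' N).comp C.subtype) (quotient_surjective_of_sup N hHt)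
        haveI h4 : Group.IsNilpotent (G ⧸ K ⟨q, hq⟩) := by
          have h5 : IsPGroup q (G ⧸ K ⟨q, hq⟩) := IsPGroup.of_card (n := (Nat.card G).factorization q) (by
            rw [← Subgroup.index_eq_card]; exact hK ⟨q, hq⟩)
          exact h5.isNilpotent
        exact Subgroup.isNilpotent_of_ker_le_center f (by rw [(MonoidHom.ker_eq_bot_iff f).2 hf]; exact bot_le)
      exact hCt (nilpotent_selfnormalizing hC.2)
    · rw [← h2]
      exact systemNormalizer_le ⟨q, hq⟩
  · -- induction in H
    have hKH : IsComplementSystem (fun p => (K p).subgroupOf H) := by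
      apply complementSystem_of
      · exact hredH
      · intro p
        have h2 : Nat.card ((K p).subgroupOf H) ∣ Nat.card (K p) := by
          rw [← Subgroup.inf_subgroupOf_right, Nat.card_congr (Subgroup.subgroupOfEquivOfLe inf_le_right).toEquiv]
          exact Subgroup.card_dvd_of_le inf_le_left
        exact Nat.Coprime.coprime_dvd_left h2 (compSys_coprime hK p)
    have h2 := IH _ (hn ▸ card_lt_card_of_ne_top hHt) H rfl (C.subgroupOf H) _ (hC.subgroupOf hCH) hKH (by
      intro p
      obtain ⟨k, hk⟩ := hred p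
      refine ⟨k, ?_⟩
      rw [← hk]
      exact Subgroup.relIndex_subgroupOf hCH)
    intro x hx
    have hxH : x ∈ H := hDH hx
    have h3 : (⟨x, hxH⟩ : H) ∈ systemNormalizer (fun p => (K p).subgroupOf H) := by
      rw [mem_systemNormalizer] at hx ⊢
      intro p
      rw [conj_smul_subgroupOf]
      congr 1
      exact hx p
    exact h2 h3

theorem exists_hall_pprime_ge {G : Type u} [Group G] [Finite G] [hs : Group.IsSolvable G] {p : ℕ} (hp : p.Prime) {C : Subgroup G} 
    (hC : (Nat.card C).Coprime p) : 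
    ∃ (Q : Subgroup G) (k : ℕ), (Nat.card Q).Coprime p ∧ Q.index = p ^ k ∧ C ≤ Q := by
  have h := hallD_of_solvable (G := G) ({p}ᶜ : Set ℕ)
  obtain ⟨Q, hQ1, hQ2, hCQ⟩ := h.exists_ge (K := C) (by
    intro r hr hrd hrp
    rw [Set.mem_singleton_iff] at hrp
    subst hrp
    exact (Nat.Prime.coprime_iff_not_dvd hr).1 hC.symm hrd)
  have h1 : (Nat.card Q).Coprime p := by
    rw [Nat.coprime_comm, Nat.Prime.coprime_iff_not_dvd hp]
    intro hd
    exact hQ1 p hp hd rfl
  have h2 : ∃ k, Q.index = p ^ k := by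
    refine ⟨_, Nat.eq_prime_pow_of_unique_prime_dvd Q.index_ne_zero_of_finite ?_⟩
    intro d hd hdd
    have := hQ2 d hd hdd
    rw [compl_compl] at this
    exact this
  obtain ⟨k, hk⟩ := h2
  exact ⟨Q, k, h1, hk, hCQ⟩

theorem exists_reducing {G : Type u} [Group G] [Finite G] [hs : Group.IsSolvable G] (C : Subgroup G) : 
    ∃ K : Nat.Primes → Subgroup G, IsComplementSystem K ∧ Reduces K C := by
  have h : ∀ p : Nat.Primes, ∃ (Q : Subgroup G) (k : ℕ), (Nat.card Q).Coprime p ∧ Q.index = (p : ℕ) ^ k ∧ ∃ l, Q.relIndex C = (p : ℕ) ^ l := by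
    intro p
    obtain ⟨R, l, hR1, hR2⟩ := exists_hall_pprime (G := C) p.2
    have hcard : Nat.card (R.map C.subtype) = Nat.card R := (Nat.card_congr (R.equivMapOfInjective C.subtype C.subtype_injective).toEquiv).symm
    obtain ⟨Q, k, hQ1, hQ2, hRQ⟩ := exists_hall_pprime_ge (G := G) p.2 (C := R.map C.subtype) (by rw [hcard]; exact hR1)
    refine ⟨Q, k, hQ1, hQ2, ?_⟩
    have h1 : Q.relIndex C ∣ (p : ℕ) ^ l := by
      rw [← hR2]
      have h2 : (R.map C.subtype).relIndex C = R.index := by
        rw [Subgroup.relIndex, Subgroup.subgroupOf, Subgroup.comap_map_eq_self_of_injective C.subtype_injective]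
      rw [← h2]
      exact Subgroup.relIndex_dvd_of_le_left C hRQ
    obtain ⟨j, -, hj⟩ := (Nat.dvd_prime_pow p.2).1 h1
    exact ⟨j, hj⟩
  choose K k h1 h2 h3 using h
  exact ⟨K, complementSystem_of (fun p => ⟨k p, h2 p⟩) h1, h3⟩

theorem systemNormalizer_conj {G : Type u} [Group G] [Finite G] (K : Nat.Primes → Subgroup G) (g : G) : 
    systemNormalizer (fun p => MulAut.conj g • K p) = MulAut.conj g • systemNormalizer K := by
  ext x
  rw [mem_conj_smul, mem_systemNormalizer, mem_systemNormalizer]
  apply forall_congr'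
  intro p
  have e : MulAut.conj (g⁻¹ * x * g) • K p = MulAut.conj g⁻¹ • (MulAut.conj x • (MulAut.conj g • K p : Subgroup G)) := by
    rw [map_mul, map_mul, mul_smul, mul_smul]
  rw [e, map_inv, inv_smul_eq_iff]

theorem carter_contains_some {G : Type u} [Group G] [Finite G] [hs : Group.IsSolvable G] {C : Subgroup G} (hC : IsC C) : 
    ∃ K : Nat.Primes → Subgroup G, IsComplementSystem K ∧ Reduces K C ∧ systemNormalizer K ≤ C := by
  obtain ⟨K, hK, hred⟩ := exists_reducing C
  exact ⟨K, hK, hred, carter_contains _ G rfl C K hC hK hred⟩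

theorem exists_carter_ge {G : Type u} [Group G] [Finite G] [hs : Group.IsSolvable G] {K : Nat.Primes → Subgroup G} 
    (hK : IsComplementSystem K) : ∃ C : Subgroup G, IsC C ∧ systemNormalizer K ≤ C := by
  obtain ⟨C, hC⟩ := (carter_aux _ G rfl).1
  obtain ⟨K', hK', -, hle⟩ := carter_contains_some hC
  obtain ⟨g, hg⟩ := compSys_conj hK' hK
  refine ⟨MulAut.conj g • C, hC.conj g, ?_⟩
  have h1 : K = fun p => MulAut.conj g • K' p := funext (fun p => (hg p).symm)
  rw [h1, systemNormalizer_conj]
  exact conj_smul_mono g hle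

theorem relIndex_sup_eq {G : Type u} [Group G] [Finite G] {L F : Subgroup G} (h : L ≤ normalizer (F : Set G)) : 
    L.relIndex (L ⊔ F) = L.relIndex F := by
  have h1 := card_sup_mul_card_inf h
  have h2 := card_mul_relIndex' (le_sup_left : L ≤ L ⊔ F)
  have h3 := card_mul_relIndex' (inf_le_right : L ⊓ F ≤ F)
  rw [Subgroup.inf_relIndex_right] at h3
  rw [← h2, ← h3] at h1
  have hpos : 0 < Nat.card L * Nat.card (L ⊓ F : Subgroup G) := Nat.mul_pos Nat.card_pos Nat.card_pos
  apply Nat.eq_of_mul_eq_mul_left hpos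
  calc Nat.card L * Nat.card (L ⊓ F : Subgroup G) * L.relIndex (L ⊔ F) = Nat.card L * L.relIndex (L ⊔ F) * Nat.card (L ⊓ F : Subgroup G) := by ring
    _ = Nat.card L * (Nat.card (L ⊓ F : Subgroup G) * L.relIndex F) := h1
    _ = _ := by ring

/-- in a metanilpotent group a Carter subgroup equals the system normalizer of a system reducing into it -/
theorem carter_eq_of_metanilpotent {G : Type u} [Group G] [Finite G] [hs : Group.IsSolvable G] {F : Subgroup G} [hFn : F.Normal] 
    (hF : Group.IsNilpotent F) (hGF : Group.IsNilpotent (G ⧸ F)) {C : Subgroup G} (hC : IsC C) {K : Nat.Primes → Subgroup G} 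
    (hK : IsComplementSystem K) (hred : Reduces K C) : C ≤ systemNormalizer K := by
  have hCF : C ⊔ F = ⊤ := by
    have h1 := isC_map (QuotientGroup.mk' F) (QuotientGroup.mk'_surjective F) hC
    have h2 := nilpotent_selfnormalizing h1.2
    have h3 := congrArg (Subgroup.comap (QuotientGroup.mk' F)) h2
    rw [QuotientGroup.comap_map_mk', comap_top, sup_comm] at h3
    exact h3
  unfold systemNormalizer
  rw [le_iInf_iff]
  intro p
  haveI : Fact (p : ℕ).Prime := ⟨p.2⟩
  obtain ⟨k, hk⟩ := hred p
  have hcopK := compSys_coprime hK p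
  -- K_p ⊓ C normalized by C
  have h1 : C ≤ normalizer ((K p ⊓ C : Subgroup G) : Set G) := by
    haveI := hC.1
    haveI hnorm : ((K p).subgroupOf C).Normal := by
      refine nilpotent_hall_normal (p := (p : ℕ)) (k := k) ?_ hk
      rw [← Subgroup.inf_subgroupOf_right, Nat.card_congr (Subgroup.subgroupOfEquivOfLe inf_le_right).toEquiv]
      exact Nat.Coprime.coprime_dvd_left (Subgroup.card_dvd_of_le inf_le_left) hcopK
    apply le_normalizer_of_normal_subgroupOf inf_le_right
    rw [Subgroup.inf_subgroupOf_right]; exact hnorm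
  -- K_p ⊓ F normal in G
  obtain ⟨l, hl⟩ : ∃ l, (K p).relIndex F = (p : ℕ) ^ l := by
    have h2 : (K p).relIndex F ∣ (p : ℕ) ^ (Nat.card G).factorization p := by
      rw [← hK p]; exact CfsgH3.relIndex_dvd_index_of_normal_right (K p) F
    obtain ⟨l, -, hl⟩ := (Nat.dvd_prime_pow p.2).1 h2
    exact ⟨l, hl⟩
  have h2 : (K p ⊓ F : Subgroup G).Normal := by
    haveI := hF
    haveI hnorm : ((K p).subgroupOf F).Normal := by
      refine nilpotent_hall_normal (p := (p : ℕ)) (k := l) ?_ hl
      rw [← Subgroup.inf_subgroupOf_right, Nat.card_congr (Subgroup.subgroupOfEquivOfLe inf_le_right).toEquiv]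
      exact Nat.Coprime.coprime_dvd_left (Subgroup.card_dvd_of_le inf_le_left) hcopK
    have hFle : F ≤ normalizer ((K p ⊓ F : Subgroup G) : Set G) := by
      apply le_normalizer_of_normal_subgroupOf inf_le_right
      rw [Subgroup.inf_subgroupOf_right]; exact hnorm
    refine ⟨fun x hx g => ?_⟩
    have hxF : g * x * g⁻¹ ∈ F := hFn.conj_mem x hx.2 g
    refine mem_of_coprime_relIndex (p := (p : ℕ)) (k := l) inf_le_right hFle (by rw [Subgroup.inf_relIndex_right]; exact hl) hxF ?_
    have h3 : orderOf (g * x * g⁻¹) = orderOf x := orderOf_injective (MulAut.conj g).toMonoidHom (MulAut.conj g).injective x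
    rw [h3]
    exact Nat.Coprime.coprime_dvd_left (Subgroup.orderOf_dvd_natCard (K p) hx.1) hcopK
  haveI := h2
  -- L = (K_p ⊓ C)(K_p ⊓ F) = K_p
  set L := (K p ⊓ C) ⊔ (K p ⊓ F) with hL
  have hLK : L ≤ K p := sup_le inf_le_left inf_le_left
  have hLe : L = K p := by
    apply le_antisymm hLK
    rw [← Subgroup.relIndex_eq_one]
    have h3 : L.relIndex (K p) ∣ Nat.card (K p) := Subgroup.relIndex_dvd_card _ _
    have h4 : L.relIndex (K p) ∣ L.index := Subgroup.relIndex_dvd_index_of_le hLK
    have h5 : ∃ j, L.index ∣ (p : ℕ) ^ j := by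
      have h6 : L.index = L.relIndex (L ⊔ F) * (L ⊔ F).index := (Subgroup.relIndex_mul_index le_sup_left).symm
      have h7 : L.relIndex (L ⊔ F) ∣ (p : ℕ) ^ l := by
        rw [relIndex_sup_eq (le_normalizer_of_normal L F), ← hl, ← Subgroup.inf_relIndex_right (K p) F]
        exact Subgroup.relIndex_dvd_of_le_left F le_sup_right
      have h8 : (L ⊔ F).index ∣ (p : ℕ) ^ k := by
        have h9 : ((K p ⊓ C) ⊔ F).index ∣ (p : ℕ) ^ k := by
          have h10 : ((K p ⊓ C) ⊔ F).index = ((K p ⊓ C) ⊔ F).relIndex (C ⊔ F) := by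
            rw [hCF, Subgroup.relIndex_top_right]
          have h11 : ((K p ⊓ C) ⊔ F).relIndex (C ⊔ F) = ((K p ⊓ C) ⊔ F).relIndex C := by
            -- C ⊔ F = (K p ⊓ C ⊔ F) ⊔ C
            have e1 : C ⊔ F = ((K p ⊓ C) ⊔ F) ⊔ C := by
              apply le_antisymm
              · exact sup_le le_sup_right (le_sup_right.trans le_sup_left)
              · exact sup_le (sup_le (inf_le_right.trans le_sup_left) le_sup_right) le_sup_left
            rw [e1]
            have e2 : C ≤ normalizer (((K p ⊓ C) ⊔ F : Subgroup G) : Set G) := le_normalizer_sup h1 (le_normalizer_of_normal _ _)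
            rw [sup_comm ((K p ⊓ C) ⊔ F) C]
            exact relIndex_sup_of_le_normalizer e2
          rw [h10, h11, ← hk, ← Subgroup.inf_relIndex_right (K p) C]
          exact Subgroup.relIndex_dvd_of_le_left C le_sup_left
        exact (Subgroup.index_dvd_of_le (sup_le_sup_right le_sup_left F)).trans h9
      refine ⟨l + k, ?_⟩
      rw [h6, pow_add]
      exact Nat.mul_dvd_mul h7 h8
    obtain ⟨j, hj⟩ := h5
    exact Nat.eq_one_of_dvd_coprimes (hcopK.pow_right j) h3 (h4.trans hj)
  rw [← hLe]
  exact le_normalizer_sup h1 (le_normalizer_of_normal _ _)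

end CfsgH1
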